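import Cfsg.Agent.H40.AbelTwo.Setup
import Cfsg.Agent.H19.Cores
import Cfsg.Agent.H85.SylowCount

/-!
# Fusion and transfer with a commutative Sylow subgroup
-/

set_option autoImplicit false
set_option linter.unusedSectionVars false
set_option linter.style.haveILetI false

namespace Cfsg.Agent.H40.AbelTwo

open Cfsg

variable {G : Type*} [Group G] [Finite G] {p : ℕ} [Fact p.Prime] {P : Sylow p G}

theorem sylow_comm (hP : IsMulCommutative P) {x y : G} (hx : x ∈ (P : Subgroup G))
    (hy : y ∈ (P : Subgroup G)) : x * y = y * x :=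
  congrArg Subtype.val (hP.is_comm.comm (⟨x, hx⟩ : ↥(P : Subgroup G)) ⟨y, hy⟩)

/-- A conjugation between subsets of a commutative Sylow subgroup is realised in its normaliser. -/
theorem exists_fusion (hP : IsMulCommutative P) {S : Set G} (hS : S ⊆ ((P : Subgroup G) : Set G))
    {x : G} (hx : ∀ s ∈ S, x * s * x⁻¹ ∈ (P : Subgroup G)) :
    ∃ m ∈ Subgroup.normalizer ((P : Subgroup G) : Set G),
      ∀ s ∈ S, m * s * m⁻¹ = x * s * x⁻¹ := by
  have h1 : (P : Subgroup G) ≤ Subgroup.centralizer S := fun y hy =>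
    Subgroup.mem_centralizer_iff.2 fun s hs => sylow_comm hP (hS hs) hy
  have h2 : ((x⁻¹ • P : Sylow p G) : Subgroup G) ≤ Subgroup.centralizer S := by
    intro y hy
    rw [H22.mem_smul_sylow, inv_inv] at hy
    refine Subgroup.mem_centralizer_iff.2 fun s hs => ?_
    have h3 : Commute (x * s * x⁻¹) (x * y * x⁻¹) := sylow_comm hP (hx s hs) hy
    exact ((Commute.conj_iff x).1 h3).eq
  obtain ⟨c, hc, hc'⟩ := H22.exists_mem_smul_eq _ P (x⁻¹ • P) h1 h2
  refine ⟨x * c, H22.normalizer_of_smul_eq hc', fun s hs => ?_⟩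
  rw [mul_inv_rev, mul_assoc x c s, ← Subgroup.mem_centralizer_iff.1 hc s hs]
  group

/-- With an automiser of prime order the centraliser in the normaliser of a subset is one of the
two extremes. -/
theorem dichotomy (hP : IsMulCommutative P) {e : ℕ} (he : e.Prime)
    (hidx : (Subgroup.centralizer ((P : Subgroup G) : Set G)).relIndex
      (Subgroup.normalizer ((P : Subgroup G) : Set G)) = e) {S : Set G}
    (hS : S ⊆ ((P : Subgroup G) : Set G)) {m : G}
    (hm : m ∈ Subgroup.normalizer ((P : Subgroup G) : Set G)) (hmS : m ∈ Subgroup.centralizer S)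
    (hmP : m ∉ Subgroup.centralizer ((P : Subgroup G) : Set G)) :
    Subgroup.normalizer ((P : Subgroup G) : Set G) ≤ Subgroup.centralizer S := by
  set N := Subgroup.normalizer ((P : Subgroup G) : Set G)
  set C := Subgroup.centralizer ((P : Subgroup G) : Set G)
  have hCD : C ≤ Subgroup.centralizer S ⊓ N :=
    le_inf (Subgroup.centralizer_le hS) (Subgroup.centralizer_le_normalizer _)
  have hmul := Subgroup.relIndex_mul_relIndex C _ N hCD inf_le_right
  rw [hidx] at hmul
  rcases he.eq_one_or_self_of_dvd _ (hmul ▸ dvd_mul_right _ _) with h | h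
  · exact absurd (Subgroup.relIndex_eq_one.1 h ⟨hmS, hm⟩) hmP
  · rw [h] at hmul
    exact (Subgroup.relIndex_eq_one.1
      (Nat.eq_of_mul_eq_mul_left he.pos (hmul.trans (mul_one e).symm))).trans inf_le_left

theorem exists_sylow_inf (P : Sylow p G) (D : Subgroup G) [D.Normal] :
    ∃ A : Sylow p D, (A : Subgroup D) = (P : Subgroup G).subgroupOf D := by
  have h1 : ¬ p ∣ ((P : Subgroup G).subgroupOf D).index := fun h => P.not_dvd_index (h.trans
    (show (P : Subgroup G).relIndex D ∣ _ by
      rw [← H85.relIndex_sup_normal (P : Subgroup G) D]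
      exact Subgroup.relIndex_dvd_index_of_le le_sup_left))
  exact ⟨(P.2.comap_subtype (K := D)).toSylow h1, rfl⟩

theorem normalizer_subgroupOf_inf (P D : Subgroup G) :
    Subgroup.normalizer ((P.subgroupOf D : Subgroup D) : Set D) =
      (Subgroup.normalizer ((P ⊓ D : Subgroup G) : Set G)).subgroupOf D := by
  ext x
  rw [Subgroup.mem_subgroupOf, Subgroup.mem_normalizer_iff, Subgroup.mem_normalizer_iff]
  constructor
  · intro h y
    constructor
    · rintro ⟨hyP, hyD⟩
      exact ⟨(h ⟨y, hyD⟩).1 hyP, D.mul_mem (D.mul_mem x.2 hyD) (D.inv_mem x.2)⟩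
    · rintro ⟨h1, h2⟩
      have hyD : y ∈ D := by
        have := D.mul_mem (D.mul_mem (D.inv_mem x.2) h2) x.2
        simpa [mul_assoc] using this
      exact ⟨(h ⟨y, hyD⟩).2 h1, hyD⟩
  · intro h y
    exact ⟨fun hy => ((h y).1 ⟨hy, y.2⟩).1,
      fun hy => ((h y).2 ⟨hy, D.mul_mem (D.mul_mem x.2 y.2) (D.inv_mem x.2)⟩).1⟩

theorem centralizer_subgroupOf_inf (P D : Subgroup G) :
    Subgroup.centralizer ((P.subgroupOf D : Subgroup D) : Set D) =
      (Subgroup.centralizer ((P ⊓ D : Subgroup G) : Set G)).subgroupOf D := by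
  ext x
  rw [Subgroup.mem_subgroupOf, Subgroup.mem_centralizer_iff, Subgroup.mem_centralizer_iff]
  exact ⟨fun h y hy => congrArg Subtype.val (h ⟨y, hy.2⟩ hy.1),
    fun h y hy => Subtype.ext (h y ⟨hy, y.2⟩)⟩

/-- Burnside's transfer inside an overgroup of a commutative Sylow subgroup. -/
theorem exists_odd_complement (hP : IsMulCommutative P) (H : Subgroup G)
    (hPH : (P : Subgroup G) ≤ H)
    (hfix : ∀ n ∈ H, n ∈ Subgroup.normalizer ((P : Subgroup G) : Set G) →
      n ∈ Subgroup.centralizer ((P : Subgroup G) : Set G)) :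
    HasNormalPComplement p H ∧ ∃ O : Subgroup G, O ≤ H ∧ ¬ p ∣ Nat.card O ∧
      ∀ c ∈ H, ∀ x ∈ (P : Subgroup G), c * x * c⁻¹ * x⁻¹ ∈ O := by
  let P' : Sylow p H := P.subtype hPH
  have hburn : Subgroup.normalizer (P' : Set H) ≤ Subgroup.centralizer (P' : Set H) := by
    intro n hn
    have h1 : n ∈ (Subgroup.normalizer (((P : Subgroup G) ⊓ H : Subgroup G) : Set G)).subgroupOf H :=
      normalizer_subgroupOf_inf (P : Subgroup G) H ▸ hn
    rw [inf_eq_left.2 hPH] at h1
    refine Subgroup.mem_centralizer_iff.2 fun y hy => Subtype.ext ?_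
    exact Subgroup.mem_centralizer_iff.1 (hfix n n.2 h1) y hy
  set φ := MonoidHom.transferSylow P' hburn
  refine ⟨⟨P', φ.ker, inferInstance, MonoidHom.ker_transferSylow_isComplement' P' hburn⟩,
    φ.ker.map H.subtype, Subgroup.map_subtype_le _, ?_, fun c hc x hx => ?_⟩
  · rw [Subgroup.card_map_of_injective H.subtype_injective]
    exact MonoidHom.not_dvd_card_ker_transferSylow P' hburn
  · refine ⟨⟨c, hc⟩ * ⟨x, hPH hx⟩ * (⟨c, hc⟩)⁻¹ * (⟨x, hPH hx⟩)⁻¹, ?_, rfl⟩
    have hcm : ∀ u v : ↥(P' : Subgroup H), u * v = v * u := fun u v =>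
      Subtype.ext (Subtype.ext (sylow_comm hP u.2 v.2))
    show φ _ = 1
    rw [map_mul, map_mul, map_mul, map_inv, map_inv, hcm (φ _) (φ _)]
    simp

theorem conj_mem_core_trivial {K : Subgroup G} [K.Normal] (hO : pPrimeCore p G = ⊥)
    {L : Subgroup K} (hL : L.Characteristic) (hc : ¬ p ∣ Nat.card L) : L = ⊥ := by
  have h3 := H19.le_pPrimeCore (G := G) (p := p) (N := L.map K.subtype)
    ConjAct.normal_of_characteristic_of_normal (by
      rw [Subgroup.card_map_of_injective K.subtype_injective]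
      exact ((Nat.Prime.coprime_iff_not_dvd Fact.out).2 hc).symm)
  rw [hO, le_bot_iff] at h3
  exact (Subgroup.map_eq_bot_iff_of_injective _ K.subtype_injective).1 h3

/-- A normal subgroup without automorphisms on its Sylow subgroup is a `p`-group if the core is
trivial. -/
theorem normal_le_sylow (hO : pPrimeCore p G = ⊥) (K : Subgroup G)
    [K.Normal] (h : ∀ x ∈ K, (∀ s ∈ (P : Subgroup G) ⊓ K, x * s * x⁻¹ ∈ (P : Subgroup G)) →
      ∀ s ∈ (P : Subgroup G) ⊓ K, x * s * x⁻¹ = s) : K ≤ (P : Subgroup G) := by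
  obtain ⟨B, hB⟩ := exists_sylow_inf P K
  have hburn : Subgroup.normalizer (B : Set K) ≤ Subgroup.centralizer (B : Set K) := by
    intro n hn
    rw [show (B : Set K) = (((P : Subgroup G).subgroupOf K : Subgroup K) : Set K) from
      congrArg SetLike.coe hB] at hn ⊢
    rw [normalizer_subgroupOf_inf, Subgroup.mem_subgroupOf] at hn
    rw [centralizer_subgroupOf_inf, Subgroup.mem_subgroupOf, Subgroup.mem_centralizer_iff]
    intro s hs
    exact (mul_inv_eq_iff_eq_mul.1
      (h n n.2 (fun t ht => ((Subgroup.mem_normalizer_iff.1 hn t).1 ht).1) s hs)).symm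
  have hcompl := MonoidHom.ker_transferSylow_isComplement' B hburn
  have hker : (MonoidHom.transferSylow B hburn).ker = ⊥ := by
    have hle := H19.le_pPrimeCore (G := K) (p := p) (N := (MonoidHom.transferSylow B hburn).ker)
      inferInstance ((Nat.Prime.coprime_iff_not_dvd Fact.out).2
        (MonoidHom.not_dvd_card_ker_transferSylow B hburn)).symm
    haveI := H19.pPrimeCore_characteristic p K
    rwa [conj_mem_core_trivial hO (L := pPrimeCore p K) inferInstance
      ((Nat.Prime.coprime_iff_not_dvd Fact.out).1 (H19.pPrimeCore_coprime p).symm), le_bot_iff]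
      at hle
  rw [hker, Subgroup.isComplement'_bot_left, hB, Subgroup.subgroupOf_eq_top] at hcompl
  exact hcompl

end Cfsg.Agent.H40.AbelTwo
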