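import Cfsg.Agent.H40.AbelTwo.SimpleMain
import Cfsg.Agent.H40.AbelTwo.Local

/-!
# Automorphisms centralising a Sylow 2-subgroup
-/

set_option autoImplicit false
set_option linter.unusedSectionVars false
set_option linter.style.haveILetI false

open scoped Pointwise

namespace Cfsg.Agent.H40.AbelTwo

open Cfsg Cfsg.Agent.H28.Ab

variable {G : Type*} [Group G] [Finite G] {P : Sylow 2 G} {e : ℕ}

theorem smul_conj_smul (φ : MulAut G) (d : G) (S : Sylow 2 G) :
    φ • (d • S) = φ d • (φ • S) := by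
  rw [Sylow.smul_def, Sylow.smul_def, smul_smul, smul_smul]
  congr 1
  ext x
  simp [MulAut.conj_apply]

/-- An automorphism of the simple group centralising a Sylow 2-subgroup is conjugation by one of
its elements. -/
theorem exists_conj_of_fixed [Fact (Nat.Prime 2)] [IsSimpleGroup G] (h : Ctx P e) (he : e.Prime)
    (hcard : e + 1 = Nat.card P)
    (hC : ∀ a ∈ (P : Subgroup G), a ≠ 1 →
      Subgroup.centralizer ({a} : Set G) ≤ (P : Subgroup G))
    (hidx : (Subgroup.normalizer ((P : Subgroup G) : Set G)).index = Nat.card P + 1)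
    (φ : MulAut G) (hφ : ∀ a ∈ (P : Subgroup G), φ a = a) :
    ∃ a ∈ (P : Subgroup G), φ = MulAut.conj a := by
  classical
  haveI : Fact e.Prime := ⟨he⟩
  set N := Subgroup.normalizer ((P : Subgroup G) : Set G) with hN
  set C := Subgroup.centralizer ((P : Subgroup G) : Set G) with hCd
  obtain ⟨n₀, hn₀⟩ := exists_prime_orderOf_dvd_card' (G := N) e
    (((dvd_of_eq h.index.symm).trans (Subgroup.index_dvd_card _) : e ∣ Nat.card N))
  have hord : orderOf (n₀ : G) = e := by rw [Subgroup.orderOf_coe, hn₀]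
  set n := (n₀ : G) with hndef
  have hnN : n ∈ N := n₀.2
  have hodd : ¬ 2 ∣ e := fun h2 => by
    have h3 := h.index ▸ odd_automiser h.comm
    exact (Nat.not_even_iff_odd.2 h3) (even_iff_two_dvd.2 h2)
  have hnP : n ∉ (P : Subgroup G) := by
    intro hp
    obtain ⟨k, hk⟩ := IsPGroup.iff_orderOf.1 P.2 (⟨n, hp⟩ : ↥(P : Subgroup G))
    rw [Subgroup.orderOf_mk, hord] at hk
    rcases k with _ | k
    · exact he.one_lt.ne' (by simpa using hk)
    · exact hodd (hk ▸ dvd_pow_self 2 k.succ_ne_zero)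
  have hfree : ∀ a ∈ (P : Subgroup G), n * a = a * n → a = 1 := fun a ha hc => by
    by_contra hne
    exact hnP (hC a ha hne (Subgroup.mem_centralizer_singleton_iff.2 hc))
  have hsurj : ∀ u ∈ (P : Subgroup G), ∃ a ∈ (P : Subgroup G), a * n * a⁻¹ * n⁻¹ = u := by
    let f : ↥(P : Subgroup G) → ↥(P : Subgroup G) := fun a =>
      ⟨a * n * (a : G)⁻¹ * n⁻¹, by
        rw [mul_assoc (a : G), mul_assoc (a : G)]
        exact mul_mem a.2 ((Subgroup.mem_normalizer_iff.1 hnN _).1 (inv_mem a.2))⟩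
    have hinj : Function.Injective f := by
      intro a b e1
      have e2 : (a : G) * n * (a : G)⁻¹ = (b : G) * n * (b : G)⁻¹ :=
        mul_right_cancel (congrArg Subtype.val e1)
      refine Subtype.ext (inv_mul_eq_one.1 (hfree _ (mul_mem (inv_mem a.2) b.2) ?_))
      calc n * ((a : G)⁻¹ * b) = (a : G)⁻¹ * ((a : G) * n * (a : G)⁻¹) * b := by group
        _ = (a : G)⁻¹ * b * n := by rw [e2]; group
    intro u hu
    obtain ⟨a, ha⟩ := Finite.injective_iff_surjective.1 hinj ⟨u, hu⟩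
    exact ⟨a, a.2, congrArg Subtype.val ha⟩
  have hu : φ n * n⁻¹ ∈ (P : Subgroup G) := by
    obtain ⟨a, ha, ha1⟩ : ∃ a ∈ (P : Subgroup G), a ≠ 1 := by
      by_contra! hall
      have : Nat.card P = 1 := Subgroup.card_eq_one.2 ((Subgroup.eq_bot_iff_forall _).2 hall)
      have := he.two_le
      omega
    have hna : n * a * n⁻¹ ∈ (P : Subgroup G) := (Subgroup.mem_normalizer_iff.1 hnN _).1 ha
    refine hC (n * a * n⁻¹) hna (fun e1 => ha1 (conj_eq_one_iff.1 e1))
      (Subgroup.mem_centralizer_singleton_iff.2 ?_)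
    have h1 : φ n * a * (φ n)⁻¹ = n * a * n⁻¹ := by
      have := hφ _ hna
      rwa [map_mul, map_mul, map_inv, hφ a ha] at this
    calc φ n * n⁻¹ * (n * a * n⁻¹) = φ n * a * (φ n)⁻¹ * (φ n * n⁻¹) := by group
      _ = _ := by rw [h1]
  obtain ⟨a, ha, hau⟩ := hsurj _ hu
  have han : a * n * a⁻¹ = φ n := mul_right_cancel hau
  refine ⟨a, ha, ?_⟩
  set ψ : MulAut G := (MulAut.conj a)⁻¹ * φ with hψdef
  suffices hψ : ψ = 1 by
    rw [hψdef] at hψ
    exact (inv_mul_eq_one.1 hψ).symm
  have hψn : ψ n = n := by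
    show (MulAut.conj a)⁻¹ (φ n) = n
    rw [← han, ← MulAut.conj_apply, MulAut.inv_apply_self]
  have hψP : ∀ b ∈ (P : Subgroup G), ψ b = b := by
    intro b hb
    show (MulAut.conj a)⁻¹ (φ b) = b
    rw [hφ b hb]
    conv_lhs => rw [show b = MulAut.conj a b by
      rw [MulAut.conj_apply, sylow_comm h.comm ha hb, mul_inv_cancel_right]]
    exact MulAut.inv_apply_self _ _ _
  have hψS : ψ • P = P := by
    refine Sylow.ext ?_
    rw [Sylow.pointwise_smul_def]
    ext x
    rw [Subgroup.mem_pointwise_smul_iff_inv_smul_mem]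
    constructor
    · intro hx
      have := hψP _ hx
      rw [show ψ⁻¹ • x = ψ⁻¹ x from rfl, MulAut.apply_inv_self] at this
      rw [this]
      exact hx
    · intro hx
      rw [show ψ⁻¹ • x = ψ⁻¹ x from rfl, show ψ⁻¹ x = x by
        conv_lhs => rw [← hψP x hx]
        exact MulAut.inv_apply_self _ _ _]
      exact hx
  have hsyl : Nat.card (Sylow 2 G) = Nat.card P + 1 := by
    rw [Sylow.card_eq_index_normalizer P]
    exact hidx
  -- a Sylow subgroup other than `P` fixed by `n`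
  haveI : Fintype (Sylow 2 G) := Fintype.ofFinite _
  obtain ⟨Q, hQ, hQn⟩ : ∃ Q : Sylow 2 G, Q ≠ P ∧ n • Q = Q := by
    have hpg : IsPGroup e (Subgroup.zpowers n) := IsPGroup.of_card (n := 1)
      (by rw [Nat.card_zpowers, hord, pow_one])
    have hmod := hpg.card_modEq_card_fixedPoints (Sylow 2 G)
    rw [hsyl, ← hcard] at hmod
    by_contra! hcon
    have hfix : MulAction.fixedPoints (Subgroup.zpowers n) (Sylow 2 G) = {P} := by
      ext Q
      rw [MulAction.mem_fixedPoints, Set.mem_singleton_iff]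
      constructor
      · intro hQ
        by_contra hne
        exact hcon Q hne (hQ ⟨n, Subgroup.mem_zpowers n⟩)
      · rintro rfl ⟨v, hv⟩
        exact Sylow.smul_eq_iff_mem_normalizer.2 (Subgroup.zpowers_le.2 hnN hv)
    rw [hfix, Nat.card_unique] at hmod
    rw [Nat.ModEq, Nat.add_assoc, Nat.add_mod_left, Nat.one_mod_eq_one.2 he.one_lt.ne'] at hmod
    have h2e : 2 < e := lt_of_le_of_ne he.two_le fun e1 => hodd (dvd_of_eq e1)
    rw [show 1 + 1 = 2 from rfl, Nat.mod_eq_of_lt h2e] at hmod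
    omega
  -- `P` is regular on the other Sylow subgroups
  have hinj : ∀ b ∈ (P : Subgroup G), b • Q = Q → b = 1 := by
    intro b hb hbQ
    by_contra hb1
    have hbN := Sylow.smul_eq_iff_mem_normalizer.1 hbQ
    have hbQ' : b ∈ (Q : Subgroup G) := by
      obtain ⟨j, hj⟩ := IsPGroup.iff_orderOf.1 P.2 (⟨b, hb⟩ : ↥(P : Subgroup G))
      rw [Subgroup.orderOf_mk] at hj
      have hp2 : IsPGroup 2 (Subgroup.zpowers b) := IsPGroup.of_card (by rw [Nat.card_zpowers, hj])
      have h3 := hp2.inf_normalizer_sylow Q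
      exact (h3.le ⟨Subgroup.mem_zpowers b, hbN⟩).2
    refine hQ (Sylow.ext (Subgroup.eq_of_le_of_card_ge (fun y hy => ?_)
      (Nat.card_congr (Sylow.equiv P Q).toEquiv).le))
    refine hC b hb hb1 (Subgroup.mem_centralizer_singleton_iff.2 ?_)
    obtain ⟨c, rfl⟩ := MulAction.exists_smul_eq G P Q
    rw [H22.mem_smul_sylow] at hy hbQ'
    exact ((Commute.conj_iff c⁻¹).1 (by rw [inv_inv]; exact sylow_comm h.comm hy hbQ')).eq
  have htrans : ∀ R : Sylow 2 G, R ≠ P → ∃ b ∈ (P : Subgroup G), b • Q = R := by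
    intro R hR
    let f : ↥(P : Subgroup G) → {S : Sylow 2 G // S ≠ P} := fun b =>
      ⟨(b : G) • Q, fun e1 => hQ (by
        rw [← inv_smul_smul (b : G) Q, e1]
        exact Sylow.smul_eq_iff_mem_normalizer.2 (Subgroup.le_normalizer (inv_mem b.2)))⟩
    have hf : Function.Injective f := by
      intro b c e1
      have e2 : (b : G) • Q = (c : G) • Q := congrArg Subtype.val e1
      refine Subtype.ext (inv_mul_eq_one.1 (hinj _ (mul_mem (inv_mem b.2) c.2) ?_))
      rw [mul_smul, ← e2, inv_smul_smul]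
    have hcd : Nat.card {S : Sylow 2 G // S ≠ P} = Nat.card ↥(P : Subgroup G) := by
      rw [Nat.card_eq_fintype_card, Fintype.card_subtype_compl, Fintype.card_subtype_eq,
        ← Nat.card_eq_fintype_card, hsyl, Nat.add_sub_cancel]
    obtain ⟨b, hb⟩ := (hf.bijective_of_nat_card_le hcd.le).2 ⟨R, hR⟩
    exact ⟨b, b.2, congrArg Subtype.val hb⟩
  have hψQ : ψ • Q = Q := by
    obtain ⟨b, hb, hbQ⟩ := htrans (ψ • Q) fun e1 => hQ (by
      rw [← hψS] at e1
      exact smul_left_cancel ψ e1)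
    have h1 : n • (ψ • Q) = ψ • Q := by
      conv_lhs => rw [← hψn]
      rw [← smul_conj_smul, hQn]
    rw [← hbQ] at h1 ⊢
    suffices b = 1 by rw [this, one_smul]
    refine hfree b hb ?_
    have hnb : n * b * n⁻¹ ∈ (P : Subgroup G) := (Subgroup.mem_normalizer_iff.1 hnN _).1 hb
    have h2 : (n * b * n⁻¹) • Q = b • Q := by
      rw [mul_smul, inv_smul_eq_iff.2 hQn.symm, mul_smul]
      exact h1
    have h3 := hinj _ (mul_mem (inv_mem hb) hnb) (by rw [mul_smul, h2, inv_smul_smul])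
    exact mul_inv_eq_iff_eq_mul.1 (inv_mul_eq_one.1 h3).symm
  have hall : ∀ R : Sylow 2 G, ψ • R = R := by
    intro R
    by_cases hR : R = P
    · rw [hR, hψS]
    obtain ⟨b, hb, rfl⟩ := htrans R hR
    rw [smul_conj_smul, hψP b hb, hψQ]
  -- the kernel of the action on Sylow subgroups is trivial
  have hker : (MulAction.toPermHom G (Sylow 2 G)).ker = ⊥ := by
    refine ((MonoidHom.normal_ker _).eq_bot_or_eq_top).resolve_right fun htop => ?_
    refine hQ ?_
    obtain ⟨c, hc⟩ := MulAction.exists_smul_eq G P Q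
    have h1 : MulAction.toPermHom G (Sylow 2 G) c = 1 :=
      MonoidHom.mem_ker.1 (htop ▸ Subgroup.mem_top c)
    rw [← hc]
    exact Equiv.ext_iff.1 h1 P
  refine MulEquiv.ext fun d => ?_
  have hd : d⁻¹ * ψ d ∈ (MulAction.toPermHom G (Sylow 2 G)).ker := by
    refine MonoidHom.mem_ker.2 (Equiv.ext fun R => ?_)
    show (d⁻¹ * ψ d) • R = R
    rw [mul_smul, inv_smul_eq_iff]
    conv_lhs => rw [← hall R]
    rw [← smul_conj_smul, hall]
  rw [hker, Subgroup.mem_bot, inv_mul_eq_one] at hd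
  exact hd.symm

end Cfsg.Agent.H40.AbelTwo
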