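import Cfsg.Agent.H40.AbelTwo.Setup

/-!
# Simple groups with abelian Sylow 2-subgroup and semiregular automiser: exponent two
-/

set_option autoImplicit false
set_option linter.unusedSectionVars false

open scoped ComplexConjugate

namespace Cfsg.Agent.H40.AbelTwo

open Cfsg Cfsg.Agent.H28.Ab

variable {G : Type*} [Group G] [Finite G] {P : Sylow 2 G} {e : ℕ} {M : Ideal Cfsg.AlgInt}
  [Fact (Nat.Prime 2)]

/-- A set of nontrivial elements of `P` closed under fusion has size divisible by `e`. -/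
theorem dvd_card_of_closed [Fintype ↥(P : Subgroup G)] (h : Ctx P e)
    (S : Finset ↥(P : Subgroup G)) (h1 : ∀ y ∈ S, y ≠ 1)
    (hcl : ∀ y ∈ S, ∀ z : ↥(P : Subgroup G), IsConj (y : G) (z : G) → z ∈ S) : e ∣ S.card := by
  classical
  rw [Finset.card_eq_sum_card_image (fun z : ↥(P : Subgroup G) => ConjClasses.mk (z : G))]
  refine Finset.dvd_sum fun c hc => ?_
  obtain ⟨z, hz, rfl⟩ := Finset.mem_image.1 hc
  rw [← h.card_conj (h1 z hz), Nat.card_eq_fintype_card, Fintype.card_subtype]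
  refine dvd_of_eq (congrArg Finset.card ?_)
  ext w
  simp only [Finset.mem_filter, Finset.mem_univ, true_and, ConjClasses.mk_eq_mk_iff_isConj]
  exact ⟨fun hw => ⟨hcl z hz w hw, hw.symm⟩, fun hw => hw.2.symm⟩

/-- An element of order at least four forces a large Sylow subgroup. -/
theorem sq_le_card (h : Ctx P e) {y : ↥(P : Subgroup G)} (hy : y * y ≠ 1) :
    (e + 1) * (e + 1) ≤ Nat.card P := by
  classical
  haveI := h.comm
  haveI := Fintype.ofFinite ↥(P : Subgroup G)
  open scoped IsMulCommutative in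
  let f : ↥(P : Subgroup G) →* ↥(P : Subgroup G) := powMonoidHom 2
  have hf : ∀ w : ↥(P : Subgroup G), f w = w * w := fun w => sq w
  have big : ∀ (K : Subgroup ↥(P : Subgroup G)), (∃ w ∈ K, w ≠ 1) →
      (∀ w ∈ K, ∀ z : ↥(P : Subgroup G), IsConj (w : G) (z : G) → z ∈ K) →
      e + 1 ≤ Nat.card K := by
    rintro K ⟨w, hw, hw1⟩ hcl
    set S := Finset.univ.filter (fun v : ↥(P : Subgroup G) => v ∈ K ∧ v ≠ 1) with hS
    have hd : e ∣ S.card := dvd_card_of_closed h S (fun v hv => (Finset.mem_filter.1 hv).2.2)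
      fun v hv z hz => Finset.mem_filter.2 ⟨Finset.mem_univ _,
        hcl v (Finset.mem_filter.1 hv).2.1 z hz, fun e1 => (Finset.mem_filter.1 hv).2.2 (by
          subst e1; exact Subtype.ext (by simpa using hz))⟩
    have hpos : 0 < S.card := Finset.card_pos.2 ⟨w, Finset.mem_filter.2 ⟨Finset.mem_univ _, hw, hw1⟩⟩
    have hle := Nat.le_of_dvd hpos hd
    have hK : Nat.card K = S.card + 1 := by
      rw [Nat.card_eq_fintype_card, Fintype.card_subtype,
        ← Finset.card_erase_add_one (show (1 : ↥(P : Subgroup G)) ∈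
          Finset.univ.filter (fun v : ↥(P : Subgroup G) => v ∈ K) by simp)]
      congr 2
      ext v
      simp [hS, and_comm]
    omega
  have hker : e + 1 ≤ Nat.card f.ker := by
    refine big _ ?_ ?_
    · obtain ⟨k, hk⟩ := exists_orderOf y
      have hpos : 0 < k := by
        rcases Nat.eq_zero_or_pos k with rfl | h0
        · exact absurd (orderOf_eq_one_iff.1 (by simpa using hk)) fun e1 =>
            hy (Subtype.ext (by simp [e1]))
        · exact h0
      refine ⟨y ^ 2 ^ (k - 1), ?_, ?_⟩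
      · rw [MonoidHom.mem_ker, hf, ← pow_add, ← two_mul, ← pow_succ',
          show k - 1 + 1 = k by omega, ← hk, Subgroup.orderOf_coe, pow_orderOf_eq_one]
      · refine pow_ne_one_of_lt_orderOf (pow_ne_zero _ two_ne_zero) ?_
        rw [← Subgroup.orderOf_coe, hk]
        exact Nat.pow_lt_pow_right (by norm_num) (by omega)
    · intro w hw z hz
      rw [MonoidHom.mem_ker, hf] at hw ⊢
      obtain ⟨c, hc⟩ := isConj_iff.1 hz
      apply Subtype.ext
      have hw' : (w : G) * w = 1 := by simpa using congrArg Subtype.val hw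
      rw [Subgroup.coe_mul, ← hc, conj_mul, hw', OneMemClass.coe_one, mul_one, mul_inv_cancel]
  have hran : e + 1 ≤ Nat.card f.range := by
    refine big _ ⟨y * y, ⟨y, hf y⟩, hy⟩ ?_
    rintro _ ⟨v, rfl⟩ z hz
    obtain ⟨c, hc⟩ := isConj_iff.1 hz
    obtain ⟨n, hn, hnc⟩ := H22.abelian_sylow_controls P h.comm _ (f v).2 c (hc ▸ z.2)
    refine ⟨⟨n * (v : G) * n⁻¹, (Subgroup.mem_normalizer_iff.1 hn _).1 v.2⟩, Subtype.ext ?_⟩
    rw [hf, Subgroup.coe_mul, conj_mul, ← Subgroup.coe_mul, ← hf]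
    exact hnc.trans hc
  calc (e + 1) * (e + 1) ≤ Nat.card f.range * Nat.card f.ker := Nat.mul_le_mul hran hker
    _ = Nat.card P := by
      rw [← Subgroup.index_ker, mul_comm]
      exact f.ker.card_mul_index

/-- The numerical contradiction. -/
theorem arith_false {e q D X3 : ℝ} (he : 2 ≤ e) (hq : (e + 1) * (e + 1) ≤ q)
    (hD : e + q ≤ D) (hX : X3 * D = e * e) (hlow : 1 - (e - 1) / (q - 1) ≤ X3) : False := by
  have hq1 : 0 < q - 1 := by nlinarith
  have h1 : 1 * (q - 1) - (e - 1) ≤ X3 * (q - 1) := by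
    have := mul_le_mul_of_nonneg_right hlow hq1.le
    rwa [sub_mul, div_mul_cancel₀ _ hq1.ne'] at this
  have h2 : (q - e) * (e + q) ≤ (q - e) * D := mul_le_mul_of_nonneg_left hD (by nlinarith)
  have h3 : (q - e) * D ≤ e * e * (q - 1) := by
    have hD0 : 0 ≤ D := by nlinarith
    nlinarith [mul_le_mul_of_nonneg_right h1 hD0]
  nlinarith

open scoped Classical in
/-- Sums of products of three orbit sums, two of them at one element. -/
theorem sum_psi_cube {r : ℕ} [Fintype ↥(P : Subgroup G)] (h : Ctx P e) (R : Reps P r)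
    {t : ↥(P : Subgroup G)} (ht1 : t ≠ 1) {S : Finset ↥(P : Subgroup G)}
    (hS : ∀ z, z ∈ S ↔ IsConj (t : G) (z : G)) (hSe : S.card = e) (w : ↥(P : Subgroup G)) :
    ∑ i, psi P (R.rep i) t * psi P (R.rep i) t * psi P (R.rep i) w =
      (Nat.card P : ℂ) * (((S ×ˢ S).filter fun v => w * (v.1 * v.2) = 1).card : ℂ) -
        (e : ℂ) * e := by
  haveI := h.comm
  have hterm : ∀ i, psi P (R.rep i) t * psi P (R.rep i) t * psi P (R.rep i) w =
      ∑ ψ ∈ Finset.univ.filter (· ∈ orb P (R.rep i)),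
        ∑ v ∈ S ×ˢ S, ((ψ (w * (v.1 * v.2)) : ℂˣ) : ℂ) := by
    intro i
    rw [psi_eq_sum (R.rep i) w, Finset.mul_sum]
    refine Finset.sum_congr rfl fun ψ hψ => ?_
    have hmem := (Finset.mem_filter.1 hψ).2
    rw [show psi P (R.rep i) t = psi P ψ t by rw [psi, psi, orb_eq_of_mem hmem],
      h.psi_eq_sum_conj (ne_one_of_mem_orb (R.ne_one i) hmem) ht1 (S := S) hS,
      Finset.sum_mul_sum, Finset.sum_product, Finset.sum_mul]
    refine Finset.sum_congr rfl fun a _ => ?_
    rw [Finset.sum_mul]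
    refine Finset.sum_congr rfl fun b _ => ?_
    rw [map_mul, map_mul, Units.val_mul, Units.val_mul]
    ring
  rw [Finset.sum_congr rfl fun i _ => hterm i,
    R.sum_psi_eq fun ψ => ∑ v ∈ S ×ˢ S, ((ψ (w * (v.1 * v.2)) : ℂˣ) : ℂ), Finset.sum_comm]
  have e2 : ∀ u : ↥(P : Subgroup G), ∑ ψ ∈ Finset.univ.filter (· ≠ (1 : ↥(P : Subgroup G) →* ℂˣ)),
      ((ψ u : ℂˣ) : ℂ) = (if u = 1 then (Nat.card P : ℂ) else 0) - 1 := by
    intro u
    have h1 := H27.sum_linear_apply (C := ↥(P : Subgroup G)) u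
    rw [← Finset.add_sum_erase _ _ (Finset.mem_univ (1 : ↥(P : Subgroup G) →* ℂˣ)),
      MonoidHom.one_apply, Units.val_one] at h1
    rw [Finset.filter_ne']
    convert eq_sub_of_add_eq' h1 using 3
  refine (Finset.sum_congr rfl (g := fun v : ↥(P : Subgroup G) × ↥(P : Subgroup G) =>
    (if w * (v.1 * v.2) = 1 then (Nat.card P : ℂ) else 0) - 1) fun v _ => ?_).trans ?_
  · convert e2 (w * (v.1 * v.2)) using 2
    ext; simp
  · rw [Finset.sum_sub_distrib, ← Finset.sum_filter, Finset.sum_const, Finset.sum_const,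
      Finset.card_product, hSe, nsmul_eq_mul, nsmul_eq_mul]
    push_cast
    ring

set_option maxHeartbeats 1000000 in
open scoped Classical in
/-- A simple group with abelian Sylow 2-subgroup and semiregular automiser of odd order has an
elementary abelian Sylow 2-subgroup. -/
theorem mul_self_eq_one [IsSimpleGroup G] (h : Ctx P e) (hM : Cfsg.IsPModular 2 M) (hodd : Odd e)
    (he1 : 1 < e) (y : ↥(P : Subgroup G)) : y * y = 1 := by
  by_contra hy
  haveI := h.comm
  haveI := Fintype.ofFinite G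
  haveI := Fintype.ofFinite ↥(P : Subgroup G)
  have hq := sq_le_card h hy
  obtain ⟨r, ⟨E⟩⟩ := h.exists_exc hM (by nlinarith)
  have hr : e + 2 ≤ r := by
    have h1 := E.card
    rw [← h1] at hq
    nlinarith
  -- the constant of the exceptional characters vanishes
  have hA1 : 1 ≤ ∑ χ ∈ E.X, E.a χ ^ 2 := by
    refine le_trans ?_ (Finset.single_le_sum (fun c _ => sq_nonneg (E.a c)) E.one_mem)
    simp [E.a_one]
  have hd : E.d = 0 := by
    by_contra hd
    have hn := E.norm
    have hr' : (e : ℤ) + 2 ≤ r := by exact_mod_cast hr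
    have habs := Int.one_le_abs hd
    have h2 : E.d * E.e ≤ |E.d| := by
      rcases E.e_unit with he | he <;> rw [he] <;> simp [le_abs_self, neg_le_abs]
    have hs : E.d ^ 2 = |E.d| ^ 2 := (sq_abs _).symm
    nlinarith [mul_nonneg (sub_nonneg.2 habs) (show (0 : ℤ) ≤ r * (|E.d| + 1) - 2 by nlinarith)]
  have hnorm : ∑ χ ∈ E.X, E.a χ ^ 2 = e := by
    have := E.norm
    rw [hd] at this
    linear_combination this
  -- an involution of `P` and a second one conjugate to it
  obtain ⟨t, ht1, ht⟩ : ∃ t : ↥(P : Subgroup G), t ≠ 1 ∧ t * t = 1 := by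
    have h2 : 2 ∣ Nat.card P := by
      obtain ⟨k, hk⟩ := IsPGroup.iff_card.1 P.2
      rcases k with _ | k
      · rw [pow_zero] at hk; nlinarith
      · rw [hk]; exact dvd_pow_self 2 (by omega)
    obtain ⟨t, ht⟩ := exists_prime_orderOf_dvd_card' (G := ↥(P : Subgroup G)) 2 h2
    exact ⟨t, fun e1 => by simp [e1] at ht, by
      have h3 := pow_orderOf_eq_one t
      rwa [ht, sq] at h3⟩
  have htG : orderOf (t : G) = 2 := by
    rw [orderOf_eq_prime_iff, sq]
    exact ⟨congrArg Subtype.val ht, fun e1 => ht1 (Subtype.ext e1)⟩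
  set S := Finset.univ.filter (fun z : ↥(P : Subgroup G) => IsConj (t : G) (z : G)) with hS
  have hSe : S.card = e := by
    rw [hS, ← Fintype.card_subtype, ← Nat.card_eq_fintype_card, h.card_conj ht1]
  have htS : t ∈ S := Finset.mem_filter.2 ⟨Finset.mem_univ _, IsConj.refl _⟩
  obtain ⟨t', ht'S, ht't⟩ := Finset.exists_mem_ne (hSe.symm ▸ he1) t
  have hsq : ∀ z ∈ S, z ≠ 1 ∧ z * z = 1 := by
    intro z hz
    obtain ⟨a, ha⟩ := isConj_iff.1 (Finset.mem_filter.1 hz).2
    have ho : orderOf (z : G) = 2 := by rw [← ha, orderOf_conj', htG]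
    refine ⟨fun e => by subst e; simp at ho, Subtype.ext ?_⟩
    have h2 := pow_orderOf_eq_one (z : G)
    rw [ho, sq] at h2
    rw [Subgroup.coe_mul, h2, OneMemClass.coe_one]
  have hy1 : y ≠ 1 := fun e1 => hy (by simp [e1])
  -- sums of products of three orbit sums
  let N : ↥(P : Subgroup G) → ℕ := fun w => ((S ×ˢ S).filter fun v => w * (v.1 * v.2) = 1).card
  have hpsi : ∀ w, ∑ i, psi P (E.R.rep i) t * psi P (E.R.rep i) t * psi P (E.R.rep i) w =
      (Nat.card P : ℂ) * (N w : ℂ) - (e : ℂ) * e := fun w => by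
    convert sum_psi_cube h E.R ht1 (fun z => by simp [hS]) hSe w
  have hNy : N y = 0 := by
    refine Finset.card_eq_zero.2 (Finset.filter_eq_empty_iff.2 fun v hv he => hy ?_)
    obtain ⟨ha, hb⟩ := Finset.mem_product.1 hv
    have hyv : y = (v.1 * v.2)⁻¹ := eq_inv_of_mul_eq_one_left he
    open scoped IsMulCommutative in
    rw [hyv, ← mul_inv, mul_mul_mul_comm, (hsq _ ha).2, (hsq _ hb).2, one_mul, inv_one]
  have ht'2 := (hsq t' ht'S).2
  set z : ↥(P : Subgroup G) := t * t' with hz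
  have hz1 : z ≠ 1 := fun e1 => ht't (mul_left_cancel (e1.trans ht.symm))
  have hNz : 0 < N z := Finset.card_pos.2 ⟨(t', t), Finset.mem_filter.2
    ⟨Finset.mem_product.2 ⟨ht'S, htS⟩, by
      rw [hz, mul_assoc, ← mul_assoc t', ht'2, one_mul, ht]⟩⟩
  -- values of the block
  set D := Cfsg.charDegree (E.mu ⟨0, by omega⟩).1 with hDdef
  have hdeg : ∀ i, (E.mu i).1 1 = (D : ℂ) := fun i => by
    rw [hDdef, ← H42.irr_one_eq, E.reg i ⟨0, by omega⟩ 1 (by simp)]
  have hD0 : 0 < D := H42.charDegree_pos _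
  have he2 : (E.e : ℂ) * E.e = 1 := by rcases E.e_unit with he | he <;> simp [he]
  set X3 : ℝ := ∑ χ ∈ E.X, (E.a χ : ℝ) ^ 3 / (Cfsg.charDegree χ.1 : ℝ) with hX3
  have hX3c : (X3 : ℂ) = ∑ χ ∈ E.X, (E.a χ : ℂ) ^ 3 / χ.1 1 := by
    rw [hX3]; push_cast
    exact Finset.sum_congr rfl fun χ _ => by rw [H42.irr_one_eq]
  have hblock : ∀ w : ↥(P : Subgroup G), w ≠ 1 →
      ∑ χ ∈ E.X, χ.1 (t : G) * χ.1 (t : G) / χ.1 1 * χ.1 (w : G) +
        ∑ i, (E.mu i).1 (t : G) * (E.mu i).1 (t : G) / (E.mu i).1 1 * (E.mu i).1 (w : G) =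
      (X3 : ℂ) + (E.e : ℂ) / D * ((Nat.card P : ℂ) * (N w : ℂ) - (e : ℂ) * e) := by
    intro w hw
    congr 1
    · rw [hX3c]
      exact Finset.sum_congr rfl fun χ hχ => by rw [E.val_X χ hχ t ht1, E.val_X χ hχ w hw]; ring
    · rw [← hpsi w, Finset.mul_sum]
      refine Finset.sum_congr rfl fun i _ => ?_
      rw [hdeg, E.val_mu i t ht1, E.val_mu i w hw, hd, Int.cast_zero, zero_add, zero_add]
      linear_combination ((E.e : ℂ) / D * psi P (E.R.rep i) t * psi P (E.R.rep i) t *
        psi P (E.R.rep i) w) * he2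
  have hy0 : (X3 : ℂ) = (E.e : ℂ) / D * ((e : ℂ) * e) := by
    have h1 := h.involution_sum hM E htG hy1
      fun hc => hy (mul_self_eq_one_of_real h hodd hc)
    rw [hblock y hy1, hNy] at h1
    push_cast at h1
    linear_combination h1
  have hX3e : X3 = (E.e : ℝ) / D * ((e : ℝ) * e) := Complex.ofReal_injective (by
    push_cast; exact hy0)
  have hsign : E.e = 1 := by
    have h1 := pair_sum h hM (t : G) (t : G) hz1
    rw [E.sum_block] at h1
    have hreal : ∀ χ : Cfsg.IrrCharacter G, conj (χ.1 (t : G)) = χ.1 (t : G) := fun χ => by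
      obtain ⟨a, ha⟩ := H56.exists_int_involution χ htG
      rw [ha, map_intCast]
    simp only [hreal] at h1
    have h2 := hblock z hz1
    simp only [div_mul_eq_mul_div] at h2
    rw [h2, hX3e] at h1
    set k := (Subgroup.centralizer ({(t : G)} : Set G)).index
    set pc := ∑ g ∈ section' 2 (z : G), H42.pairCount (t : G) (t : G) g
    have hpc : 0 < pc := by
      refine lt_of_lt_of_le ?_ (Finset.single_le_sum (fun g _ => Nat.zero_le _)
        (mem_section'.2 ⟨_, isPPart_self z, IsConj.refl _⟩ : (z : G) ∈ section' 2 (z : G)))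
      rw [H42.pairCount]
      refine Finite.card_pos_iff.2 ⟨⟨(t : G), IsConj.refl _, ?_⟩⟩
      rw [hz, Subgroup.coe_mul, inv_mul_cancel_left]
      exact (Finset.mem_filter.1 ht'S).2.symm
    have h3 : (Nat.card P : ℝ) * pc = (k : ℝ) * k * ((E.e : ℝ) / D * ((Nat.card P : ℝ) * N z)) := by
      apply Complex.ofReal_injective
      push_cast
      rw [show (pc : ℂ) = ∑ g ∈ section' 2 (z : G),
        (H42.pairCount (t : G) (t : G) g : ℂ) from Nat.cast_sum _ _]
      push_cast at h1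
      linear_combination h1
    rcases E.e_unit with he | he
    · exact he
    · exfalso
      rw [he] at h3
      have l : 0 < (Nat.card P : ℝ) * pc := by
        have : (0 : ℝ) < Nat.card P := Nat.cast_pos.2 Nat.card_pos
        positivity
      have r' : (k : ℝ) * k * (((-1 : ℤ) : ℝ) / D * ((Nat.card P : ℝ) * N z)) ≤ 0 := by
        push_cast
        have : (0 : ℝ) ≤ (k : ℝ) * k * (1 / D * ((Nat.card P : ℝ) * N z)) := by positivity
        linarith [show (k : ℝ) * k * (-1 / D * ((Nat.card P : ℝ) * N z)) =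
          -((k : ℝ) * k * (1 / D * ((Nat.card P : ℝ) * N z))) by ring]
      linarith
  rw [hsign] at hX3e
  have hX3D : X3 * D = (e : ℝ) * e := by
    rw [hX3e]; field_simp; norm_num
  -- degrees
  have hsimple : ∀ K : Subgroup G, K.Normal → (t : G) ∈ K → K = ⊤ := fun K hK htK =>
    (IsSimpleGroup.eq_bot_or_eq_top_of_normal K hK).resolve_left fun hb =>
      ht1 (Subtype.ext (by rw [hb, Subgroup.mem_bot] at htK; exact htK))
  set q : ℝ := (Nat.card P : ℝ) with hqdef
  have hqR : ((e : ℝ) + 1) * (e + 1) ≤ q := by rw [hqdef]; exact_mod_cast hq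
  have hq1 : 0 < q - 1 := by nlinarith [show (2 : ℝ) ≤ e by exact_mod_cast he1]
  have hae : ∀ χ ∈ E.X, (E.a χ : ℤ) ^ 2 ≤ e := fun χ hχ =>
    hnorm ▸ Finset.single_le_sum (fun c _ => sq_nonneg (E.a c)) hχ
  -- a bound for each nonprincipal term
  have hb : ∀ χ ∈ E.X.erase (H26.oneIrr G),
      (E.a χ : ℝ) ^ 3 / (Cfsg.charDegree χ.1 : ℝ) < (E.a χ : ℝ) ^ 2 ∧
      -((E.a χ : ℝ) ^ 2 / (q - 1)) ≤ (E.a χ : ℝ) ^ 3 / (Cfsg.charDegree χ.1 : ℝ) := by
    intro χ hχ
    obtain ⟨hne, hχX⟩ := Finset.mem_erase.1 hχ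
    obtain ⟨k, hk⟩ := degree_congr (fun w hw => E.val_X χ hχX w hw)
    have hne' : (Cfsg.charDegree χ.1 : ℤ) ≠ E.a χ := fun e1 => value_ne_degree hsimple hne (by
      rw [E.val_X χ hχX t ht1, H42.irr_one_eq, ← e1, Int.cast_natCast])
    have hd0 : 0 < Cfsg.charDegree χ.1 := H42.charDegree_pos χ
    have hkR : (Cfsg.charDegree χ.1 : ℝ) + (q - 1) * (E.a χ : ℝ) = q * (k : ℝ) := by
      rw [hqdef]; exact_mod_cast congrArg (fun v : ℤ => (v : ℝ)) hk
    have ha0 : (E.a χ : ℝ) ≠ 0 := Int.cast_ne_zero.2 (E.a_ne χ hχX)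
    have hdR : (0 : ℝ) < (Cfsg.charDegree χ.1 : ℝ) := Nat.cast_pos.2 hd0
    rcases lt_or_gt_of_ne ha0 with hneg | hpos
    · refine ⟨(div_neg_of_neg_of_pos ((Odd.pow_neg (by decide)) hneg) hdR).trans (by positivity), ?_⟩
      have hdl : (q - 1) * (-(E.a χ : ℝ)) ≤ (Cfsg.charDegree χ.1 : ℝ) := by
        have : (0 : ℝ) ≤ q * (k : ℝ) := by rw [hqdef]; positivity
        linarith
      rw [← neg_div, div_le_div_iff₀ hq1 hdR]
      nlinarith [mul_le_mul_of_nonneg_left hdl (sq_nonneg (E.a χ : ℝ))]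
    · have haq : E.a χ < (Nat.card P : ℤ) := by
        have h1 := hae χ hχX
        have h2 : (e : ℤ) < Nat.card P := by exact_mod_cast (by nlinarith : e < Nat.card P)
        nlinarith [Int.le_self_sq (E.a χ)]
      have hlt : E.a χ < (Cfsg.charDegree χ.1 : ℤ) := by
        have hqa : (0 : ℤ) < E.a χ := by exact_mod_cast hpos
        have hd' : (0 : ℤ) < Cfsg.charDegree χ.1 := by exact_mod_cast hd0
        rcases lt_trichotomy (E.a χ) (Cfsg.charDegree χ.1 : ℤ) with h1 | h1 | h1
        · exact h1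
        · exact absurd h1.symm hne'
        · exfalso
          have h2 : (Nat.card P : ℤ) * (E.a χ - k) = E.a χ - Cfsg.charDegree χ.1 := by
            linear_combination hk
          have h3 := Int.le_of_dvd (by linarith : (0 : ℤ) < E.a χ - Cfsg.charDegree χ.1) ⟨_, h2.symm⟩
          linarith
      have hltR : (E.a χ : ℝ) < (Cfsg.charDegree χ.1 : ℝ) := by exact_mod_cast hlt
      have h2 : (0 : ℝ) < (E.a χ : ℝ) ^ 2 := by positivity
      refine ⟨?_, le_trans (neg_nonpos.2 (div_nonneg h2.le hq1.le)) (by positivity)⟩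
      rw [div_lt_iff₀ hdR, pow_succ]
      exact mul_lt_mul_of_pos_left hltR h2
  have hXsplit : X3 = 1 + ∑ χ ∈ E.X.erase (H26.oneIrr G),
      (E.a χ : ℝ) ^ 3 / (Cfsg.charDegree χ.1 : ℝ) := by
    rw [hX3, ← Finset.add_sum_erase _ _ E.one_mem, E.a_one]
    congr 1
    have : Cfsg.charDegree (H26.oneIrr G).1 = 1 := Nat.cast_injective (R := ℂ)
      (by rw [← H42.irr_one_eq, H26.oneIrr_val, Nat.cast_one])
    rw [this]; norm_num
  have hsum2 : ∑ χ ∈ E.X.erase (H26.oneIrr G), (E.a χ : ℝ) ^ 2 = (e : ℝ) - 1 := by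
    have h1 := congrArg (fun v : ℤ => (v : ℝ)) hnorm
    push_cast at h1
    rw [← Finset.add_sum_erase _ _ E.one_mem, E.a_one] at h1
    push_cast at h1
    linarith
  have hDcong := E.degree_congr_mu h hd ⟨0, by omega⟩
  rw [hsign, mul_one, ← hDdef] at hDcong
  rcases eq_or_ne ((D : ℤ) - e) 0 with hDe | hDe
  · have hne : (E.X.erase (H26.oneIrr G)).Nonempty := by
      rw [Finset.nonempty_iff_ne_empty]
      intro e1
      rw [e1, Finset.sum_empty] at hsum2
      have : (2 : ℝ) ≤ e := by exact_mod_cast he1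
      linarith
    have h1 := Finset.sum_lt_sum_of_nonempty hne fun χ hχ => (hb χ hχ).1
    rw [hsum2] at h1
    have h2 : (D : ℝ) = e := by exact_mod_cast sub_eq_zero.1 hDe
    rw [h2] at hX3D
    have h4 : X3 = e := mul_right_cancel₀ (Nat.cast_ne_zero.2 (by omega)) hX3D
    linarith
  · have hDge : (e : ℝ) + q ≤ D := by
      have hlt : (e : ℤ) < Nat.card P := by exact_mod_cast (by nlinarith : e < Nat.card P)
      obtain ⟨j, hj⟩ := hDcong
      have hD' : (0 : ℤ) < D := by exact_mod_cast hD0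
      have hj1 : 1 ≤ j := by
        by_contra hj0
        have hj0' : j ≤ -1 := by
          rcases eq_or_ne j 0 with rfl | hne
          · exact absurd (by simpa using hj) hDe
          · omega
        have : (Nat.card P : ℤ) * j ≤ (Nat.card P : ℤ) * (-1) :=
          mul_le_mul_of_nonneg_left hj0' (Nat.cast_nonneg _)
        linarith
      have h2 : (e : ℤ) + Nat.card P ≤ D := by nlinarith
      rw [hqdef]
      exact_mod_cast h2
    refine arith_false (by exact_mod_cast he1) hqR hDge hX3D ?_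
    have h1 := Finset.sum_le_sum fun χ hχ => (hb χ hχ).2
    rw [Finset.sum_neg_distrib, ← Finset.sum_div, hsum2] at h1
    linarith

end Cfsg.Agent.H40.AbelTwo
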