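import Cfsg.Agent.H40.AbelTwo.Signalizer
import Cfsg.Agent.H20.Generation
import Mathlib.RepresentationTheory.Character

/-!
# A lower bound on the degrees of characters negative on the involutions
-/

set_option autoImplicit false
set_option linter.unusedSectionVars false

open Module

namespace Cfsg.Agent.H40.AbelTwo

open Cfsg Cfsg.Agent.H28.Ab

variable {G : Type*} [Group G] [Finite G] {P : Sylow 2 G} {e : ℕ} [Fact (Nat.Prime 2)]

theorem theta_le_closure {a : G} (ha : a ∈ (P : Subgroup G)) (ha1 : a ≠ 1) :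
    theta a ≤ coreClosure P :=
  le_iSup (fun a : {a : G // a ∈ (P : Subgroup G) ∧ a ≠ 1} => theta (a : G)) ⟨a, ha, ha1⟩

/-- The case of Burnside's transfer theorem. -/
theorem Hyp.le_bigSub_of_all_centralize (H : Hyp P e) {Y Q A0 : Subgroup G} (hQY : Q ≤ Y)
    (hQP : Q ≤ (P : Subgroup G)) (hQ4 : Nat.card Q = 4) (S : Sylow 2 Y)
    (hA0 : A0 = Y ⊓ (P : Subgroup G)) (hSA : (S : Subgroup Y) = A0.subgroupOf Y)
    (hall : ∀ n ∈ Y, n ∈ Subgroup.normalizer (A0 : Set G) →
      n ∈ Subgroup.centralizer (A0 : Set G)) : Y ≤ bigSub P := by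
  subst hA0
  have hcomm : ∀ a ∈ (P : Subgroup G), ∀ b ∈ (P : Subgroup G), a * b = b * a := fun a ha b hb =>
    congrArg Subtype.val (H.ctx.comm.is_comm.comm ⟨a, ha⟩ (⟨b, hb⟩ : ↥(P : Subgroup G)))
  have hburn : Subgroup.normalizer ((S : Subgroup Y) : Set Y) ≤
      Subgroup.centralizer ((S : Subgroup Y) : Set Y) := by
    intro y hy
    rw [hSA] at hy ⊢
    have h1 : (y : G) ∈ Subgroup.normalizer ((Y ⊓ (P : Subgroup G) : Subgroup G) : Set G) := by
      rw [Subgroup.mem_normalizer_iff]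
      intro z
      constructor
      · intro hz
        exact (Subgroup.mem_normalizer_iff.1 hy ⟨z, hz.1⟩).1 hz
      · intro hz
        have hzY : z ∈ Y := by
          have := mul_mem (mul_mem (inv_mem y.2) hz.1) y.2
          simpa [mul_assoc] using this
        exact (Subgroup.mem_normalizer_iff.1 hy ⟨z, hzY⟩).2 hz
    have h2 := hall _ y.2 h1
    rw [Subgroup.mem_centralizer_iff]
    intro z hz
    exact Subtype.ext (Subgroup.mem_centralizer_iff.1 h2 _ hz)
  obtain ⟨O, hOn, hOp, hcompl⟩ : ∃ O : Subgroup Y, O.Normal ∧ ¬ 2 ∣ Nat.card O ∧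
      Subgroup.IsComplement' O (S : Subgroup Y) :=
    ⟨_, MonoidHom.normal_ker _, MonoidHom.not_dvd_card_ker_transferSylow S hburn,
      MonoidHom.ker_transferSylow_isComplement' S hburn⟩
  set O' := O.map Y.subtype
  have hQn : Q ≤ Subgroup.normalizer (O' : Set G) := by
    intro q hq
    rw [Subgroup.mem_normalizer_iff]
    intro z
    constructor
    · rintro ⟨o, ho, rfl⟩
      exact ⟨⟨q, hQY hq⟩ * o * ⟨q, hQY hq⟩⁻¹, hOn.conj_mem o ho _, rfl⟩
    · rintro ⟨o, ho, hoz⟩
      refine ⟨⟨q, hQY hq⟩⁻¹ * o * ⟨q, hQY hq⟩, by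
        simpa using hOn.conj_mem o ho (⟨q, hQY hq⟩⁻¹), ?_⟩
      have hoz' : ((o : Y) : G) = q * z * q⁻¹ := hoz
      simp [hoz', mul_assoc]
  have hcop : (Nat.card Q).Coprime (Nat.card O') := by
    rw [hQ4, Subgroup.card_map_of_injective Y.subtype_injective]
    exact Nat.Coprime.pow_left 2 (Nat.prime_two.coprime_iff_not_dvd.2
      hOp)
  have hQc : ¬ IsCyclic Q := by
    intro hc
    obtain ⟨g, hg⟩ := hc.exists_zpow_surjective
    have h1 : orderOf g = 4 := by
      rw [orderOf_eq_card_of_forall_mem_zpowers fun x => hg x, hQ4]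
    have h2 : orderOf g ∣ 2 := orderOf_dvd_of_pow_eq_one (by
      rw [sq]; exact Subtype.ext (H.sq_eq_one (hQP g.2)))
    rw [h1] at h2
    omega
  haveI : IsMulCommutative Q := ⟨⟨fun a b => Subtype.ext (hcomm _ (hQP a.2) _ (hQP b.2))⟩⟩
  have hO : O' ≤ bigSub P := H20.le_of_centralizers_le hQc hQn hcop fun a ha ha1 =>
    inf_le_right.trans (H.centralizer_le_bigSub (hQP ha) ha1)
  intro y hy
  obtain ⟨⟨o, s⟩, hos⟩ := hcompl.surjective ⟨y, hy⟩
  have hos' : ((o : Y) : G) * ((s : Y) : G) = y := congrArg Subtype.val hos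
  rw [← hos']
  refine mul_mem (hO ⟨o, o.2, rfl⟩) (sylow_le_bigSub ?_)
  have h3 : ((s : Y) : G) ∈ (Y ⊓ (P : Subgroup G)) := by
    have := s.2
    rw [SetLike.mem_coe] at *
    exact (hSA ▸ this : (s : Y) ∈ (Y ⊓ (P : Subgroup G)).subgroupOf Y)
  exact h3.2

/-- An overgroup of the closure and of a four subgroup of `P`, not inside `bigSub P`, contains
`P`. -/
theorem Hyp.sylow_le_overgroup (H : Hyp P e) (he : e.Prime) {Y Q : Subgroup G}
    (hWY : coreClosure P ≤ Y) (hQY : Q ≤ Y) (hQP : Q ≤ (P : Subgroup G)) (hQ4 : Nat.card Q = 4)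
    (hY : ¬ Y ≤ bigSub P) : (P : Subgroup G) ≤ Y := by
  classical
  have hcomm : ∀ a ∈ (P : Subgroup G), ∀ b ∈ (P : Subgroup G), a * b = b * a := fun a ha b hb =>
    congrArg Subtype.val (H.ctx.comm.is_comm.comm ⟨a, ha⟩ (⟨b, hb⟩ : ↥(P : Subgroup G)))
  obtain ⟨q0, hq0, hq01⟩ : ∃ q0 ∈ Q, q0 ≠ 1 := by
    refine (Subgroup.bot_or_exists_ne_one Q).resolve_left fun h => ?_
    rw [h, Subgroup.card_bot] at hQ4
    omega
  set A0 := Y ⊓ (P : Subgroup G) with hA0
  have hQA0 : Q ≤ A0 := le_inf hQY hQP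
  haveI hA0c : IsMulCommutative A0 :=
    ⟨⟨fun a b => Subtype.ext (hcomm _ a.2.2 _ b.2.2)⟩⟩
  obtain ⟨S, hS⟩ := (P.2.to_le (inf_le_right : A0 ≤ _)).of_equiv
    (Subgroup.subgroupOfEquivOfLe (inf_le_left : A0 ≤ Y)).symm |>.exists_le_sylow
  -- `A0` is a Sylow subgroup of `Y`
  have hSA : (S : Subgroup Y) = A0.subgroupOf Y := by
    refine (Subgroup.eq_of_le_of_card_ge hS ?_).symm
    set S' := (S : Subgroup Y).map Y.subtype
    have hS'2 : IsPGroup 2 S' := S.2.map _
    obtain ⟨R, hR⟩ := hS'2.exists_le_sylow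
    obtain ⟨c, hc⟩ := MulAction.exists_smul_eq G R P
    have hRcomm : ∀ a ∈ (R : Subgroup G), ∀ b ∈ (R : Subgroup G), a * b = b * a := by
      intro a ha b hb
      have h1 := hcomm _ (hc ▸ H22.conj_mem_smul_sylow ha : c * a * c⁻¹ ∈ (P : Subgroup G))
        _ (hc ▸ H22.conj_mem_smul_sylow hb)
      rw [conj_mul, conj_mul] at h1
      exact mul_left_cancel (mul_right_cancel h1)
    have hq0S : q0 ∈ S' := ⟨⟨q0, hQY hq0⟩, hS (show q0 ∈ A0 from hQA0 hq0), rfl⟩
    have hSC : S' ≤ Subgroup.centralizer ({q0} : Set G) := fun x hx =>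
      Subgroup.mem_centralizer_singleton_iff.2 (hRcomm x (hR hx) q0 (hR hq0S))
    have hPC := H.le_centralizer (hQP hq0)
    obtain ⟨T, hT⟩ := (hS'2.of_equiv (Subgroup.subgroupOfEquivOfLe hSC).symm).exists_le_sylow
    obtain ⟨k, hk⟩ := MulAction.exists_smul_eq (↥(Subgroup.centralizer ({q0} : Set G))) T (P.subtype hPC)
    obtain ⟨x, hx, b, hb, hxb⟩ := H.exists_decomp (hQP hq0) hq01 (inv_mem k.2)
    have hxY : x ∈ Y := hWY (theta_le_closure (hQP hq0) hq01 hx)
    have hmem : ∀ s ∈ S', x⁻¹ * s * x ∈ A0 := by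
      intro s hs
      have h1 : (k : G) * s * (k : G)⁻¹ ∈ (P : Subgroup G) := by
        have := H22.conj_mem_smul_sylow (g := k)
          (hT (show (⟨s, hSC hs⟩ : Subgroup.centralizer ({q0} : Set G)) ∈ S'.subgroupOf _ from hs))
        rw [hk] at this
        exact this
      refine Subgroup.mem_inf.2 ⟨mul_mem (mul_mem (inv_mem hxY) ?_) hxY, ?_⟩
      · obtain ⟨s', -, rfl⟩ := hs
        exact s'.2
      · have e1 : x⁻¹ * s * x = b * ((k : G) * s * (k : G)⁻¹) * b⁻¹ := by
          have : (k : G) = b⁻¹ * x⁻¹ := by rw [← mul_inv_rev, hxb, inv_inv]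
          rw [this]; group
        rw [e1]
        exact mul_mem (mul_mem hb h1) (inv_mem hb)
    refine Nat.card_le_card_of_injective
      (fun s : (S : Subgroup Y) => (⟨⟨x⁻¹ * ((s : Y) : G) * x,
        (hmem _ ⟨(s : Y), s.2, rfl⟩).1⟩, hmem _ ⟨(s : Y), s.2, rfl⟩⟩ : A0.subgroupOf Y))
      fun s s' hss => ?_
    have h1 : x⁻¹ * ((s : Y) : G) * x = x⁻¹ * ((s' : Y) : G) * x :=
      congrArg (fun v : A0.subgroupOf Y => ((v : Y) : G)) hss
    exact Subtype.ext (Subtype.ext (mul_left_cancel (mul_right_cancel h1)))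
  -- some element of `Y` acts nontrivially on `A0`
  obtain ⟨n, hnY, hnA, hnC⟩ : ∃ n ∈ Y, n ∈ Subgroup.normalizer (A0 : Set G) ∧
      n ∉ Subgroup.centralizer (A0 : Set G) := by
    by_contra! hall
    exact hY (H.le_bigSub_of_all_centralize hQY hQP hQ4 S hA0 hSA hall)
  have hnH : n ∈ bigSub P := by
    have h1 : n * q0 * n⁻¹ ∈ A0 := (Subgroup.mem_normalizer_iff.1 hnA q0).1 (hQA0 hq0)
    have h2 := H28.mem_of_isStronglyEmbedded H.bigSub_stronglyEmbedded (g := n⁻¹)
      (sylow_le_bigSub (hQP hq0)) (H.orderOf_two (hQP hq0) hq01)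
      (by rw [inv_inv]; exact sylow_le_bigSub h1.2)
    exact inv_mem_iff.1 h2
  obtain ⟨w, hw, m, hm, rfl⟩ := mem_bigSub_iff.1 hnH
  have hmY : m ∈ Y := by
    have := mul_mem (inv_mem (hWY hw)) hnY
    rwa [inv_mul_cancel_left] at this
  have hmA : m ∈ Subgroup.normalizer (A0 : Set G) := by
    rw [Subgroup.mem_normalizer_iff]
    intro z
    rw [hA0, Subgroup.mem_inf, Subgroup.mem_inf]
    refine and_congr ⟨fun hz => mul_mem (mul_mem hmY hz) (inv_mem hmY), fun hz => ?_⟩
      (Subgroup.mem_normalizer_iff.1 hm z)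
    have := mul_mem (mul_mem (inv_mem hmY) hz) hmY
    simpa [mul_assoc] using this
  set N := Subgroup.normalizer ((P : Subgroup G) : Set G)
  set C := Subgroup.centralizer ((P : Subgroup G) : Set G)
  have hmC : m ∉ C := by
    intro hmC
    refine hnC (Subgroup.mem_centralizer_iff.2 fun a ha => ?_)
    have hma : m * a * m⁻¹ = a := by
      rw [← Subgroup.mem_centralizer_iff.1 hmC a ha.2, mul_inv_cancel_right]
    have h1 : (w * m) * a * (w * m)⁻¹ = w * a * w⁻¹ := by
      calc (w * m) * a * (w * m)⁻¹ = w * (m * a * m⁻¹) * w⁻¹ := by group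
        _ = _ := by rw [hma]
    have h2 : (w * m) * a * (w * m)⁻¹ ∈ A0 := (Subgroup.mem_normalizer_iff.1 hnA a).1 ha
    rw [h1] at h2
    have h3 : w * a * w⁻¹ * a⁻¹ ∈ coreClosure P := by
      rw [show w * a * w⁻¹ * a⁻¹ = w * (a * w⁻¹ * a⁻¹) by group]
      exact mul_mem hw (H.closure_spec.2.2.1 a ha.2 _ (inv_mem hw))
    have h4 := H.closure_inf_sylow h3 (mul_mem h2.2 (inv_mem ha.2))
    rw [mul_inv_eq_one] at h4
    have h5 : (w * m) * a * (w * m)⁻¹ = a := h1.trans h4
    exact (mul_inv_eq_iff_eq_mul.1 h5).symm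
  have hNA : N ≤ Subgroup.normalizer (A0 : Set G) := by
    set D := Subgroup.normalizer (A0 : Set G) ⊓ N
    have hCD : C ≤ D := le_inf ((Subgroup.centralizer_le (fun z hz => hz.2)).trans
      (Subgroup.centralizer_le_normalizer _)) (Subgroup.centralizer_le_normalizer _)
    have hmul := Subgroup.relIndex_mul_relIndex C D N hCD inf_le_right
    rw [show C.relIndex N = e from H.ctx.index] at hmul
    rcases he.eq_one_or_self_of_dvd _ (hmul ▸ dvd_mul_right (C.relIndex D) (D.relIndex N)) with h | h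
    · exact absurd (Subgroup.relIndex_eq_one.1 h ⟨hmA, hm⟩) hmC
    · have h1 : D.relIndex N = 1 := by
        rw [h] at hmul
        exact Nat.eq_of_mul_eq_mul_left he.pos (hmul.trans (mul_one e).symm)
      exact (Subgroup.relIndex_eq_one.1 h1).trans inf_le_left
  intro a ha
  by_cases ha1 : a = 1
  · subst ha1; exact one_mem _
  obtain ⟨c, hc⟩ := isConj_iff.1 (H.one_class (H.orderOf_two (hQP hq0) hq01) (H.orderOf_two ha ha1))
  obtain ⟨k, hk, hkc⟩ := H22.abelian_sylow_controls P H.ctx.comm q0 (hQP hq0) c (hc ▸ ha)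
  rw [← hc, ← hkc]
  exact ((Subgroup.mem_normalizer_iff.1 (hNA hk) q0).1 (hQA0 hq0)).1

/-- The dimension of the fixed space of a subgroup. -/
theorem card_mul_finrank_invariants {V : Type*} [AddCommGroup V] [Module ℂ V]
    [FiniteDimensional ℂ V] (ρ : Representation ℂ G V) (K : Subgroup G) [Fintype K] :
    (Nat.card K : ℂ) * (finrank ℂ (Representation.invariants (ρ.comp K.subtype)) : ℂ) =
      ∑ k : K, ρ.character (k : G) := by
  haveI : Invertible (Nat.card K : ℂ) := invertibleOfNonzero (Nat.cast_ne_zero.2 Nat.card_pos.ne')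
  rw [← Representation.card_inv_mul_sum_char_eq_finrank, ← mul_assoc,
    mul_inv_cancel₀ (Nat.cast_ne_zero.2 Nat.card_pos.ne'), one_mul]
  rfl

/-- Products of closure elements with nontrivial elements of `P` are singular. -/
theorem Hyp.two_dvd_orderOf_mul (H : Hyp P e) {w b : G} (hw : w ∈ coreClosure P)
    (hb : b ∈ (P : Subgroup G)) (hb1 : b ≠ 1) : 2 ∣ orderOf (w * b) := by
  have key : ∀ n : ℕ, (w * b) ^ n * (b ^ n)⁻¹ ∈ coreClosure P := by
    intro n
    induction n with
    | zero => simp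
    | succ n ih =>
      rw [show (w * b) ^ (n + 1) * (b ^ (n + 1))⁻¹ =
        ((w * b) ^ n * (b ^ n)⁻¹) * (b ^ n * w * (b ^ n)⁻¹) by rw [pow_succ, pow_succ]; group]
      exact mul_mem ih (H.closure_spec.2.2.1 _ (pow_mem hb n) w hw)
  by_contra h
  obtain ⟨j, hj⟩ := Nat.odd_iff.2 (Nat.two_dvd_ne_zero.1 h)
  have h1 := key (orderOf (w * b))
  rw [pow_orderOf_eq_one, one_mul, hj, pow_succ, pow_mul, sq, H.sq_eq_one hb, one_pow, one_mul,
    inv_mem_iff] at h1
  exact hb1 (H.closure_inf_sylow h1 hb)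

open scoped Classical in
/-- Fixed points of the closure extended by a subgroup of `P`. -/
theorem Hyp.finrank_fixed_sup (H : Hyp P e) {V : Type*} [AddCommGroup V] [Module ℂ V]
    [FiniteDimensional ℂ V] (ρ : Representation ℂ G V) {a : ℤ}
    (hval : ∀ x : G, 2 ∣ orderOf x → ρ.character x = (a : ℂ)) {B : Subgroup G}
    (hB : B ≤ (P : Subgroup G)) :
    (Nat.card B : ℤ) * finrank ℂ (Representation.invariants (ρ.comp (coreClosure P ⊔ B).subtype)) =
      (finrank ℂ (Representation.invariants (ρ.comp (coreClosure P).subtype)) : ℤ) +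
        ((Nat.card B : ℤ) - 1) * a := by
  haveI := Fintype.ofFinite ↥(coreClosure P ⊔ B)
  haveI := Fintype.ofFinite ↥(coreClosure P)
  haveI := Fintype.ofFinite ↥B
  set W := coreClosure P
  let F : W × B → ↥(W ⊔ B) := fun v => ⟨(v.1 : G) * v.2,
    mul_mem ((le_sup_left : W ≤ W ⊔ B) v.1.2) ((le_sup_right : B ≤ W ⊔ B) v.2.2)⟩
  have hdis : Disjoint W B := by
    rw [disjoint_iff, eq_bot_iff]
    exact fun x hx => Subgroup.mem_bot.2 (H.closure_inf_sylow hx.1 (hB hx.2))
  have hbij : Function.Bijective F := by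
    refine ⟨fun v v' h => Subgroup.mul_injective_of_disjoint hdis (congrArg Subtype.val h),
      fun g => ?_⟩
    have hg : (g : G) ∈ ((W ⊔ B : Subgroup G) : Set G) := g.2
    rw [Subgroup.coe_mul_of_right_le_normalizer_left _ _
      ((hB.trans Subgroup.le_normalizer).trans (normalizer_le_normalizer_closure P))] at hg
    obtain ⟨w, hw, b, hb, h⟩ := Set.mem_mul.1 hg
    exact ⟨(⟨w, hw⟩, ⟨b, hb⟩), Subtype.ext h⟩
  have hsum : ∑ k : ↥(W ⊔ B), ρ.character (k : G) =
      (∑ w : W, ρ.character (w : G)) + ((Nat.card B : ℂ) - 1) * (Nat.card W : ℂ) * (a : ℂ) := by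
    rw [← (Equiv.ofBijective F hbij).sum_comp, Fintype.sum_prod_type_right,
      ← Finset.add_sum_erase _ _ (Finset.mem_univ (1 : B))]
    congr 1
    · simp [F]
    · refine (Finset.sum_congr (s₁ := (Finset.univ : Finset ↥B).erase 1) rfl
        (g := fun _ => ∑ _w : W, (a : ℂ)) fun b hb =>
        Finset.sum_congr rfl fun w _ => hval ((w : G) * (b : G))
          (H.two_dvd_orderOf_mul w.2 (hB b.2) fun e1 =>
            (Finset.mem_erase.1 hb).1 (Subtype.ext e1))).trans ?_
      simp only [Finset.sum_const, Finset.card_erase_of_mem (Finset.mem_univ (1 : B)),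
        Finset.card_univ, ← Nat.card_eq_fintype_card, nsmul_eq_mul, Nat.cast_sub Nat.card_pos,
        Nat.cast_one]
      ring
  have hcard : Nat.card ↥(W ⊔ B) = Nat.card W * Nat.card B := by
    rw [← Nat.card_eq_of_bijective F hbij, Nat.card_prod]
  rw [← card_mul_finrank_invariants, ← card_mul_finrank_invariants, hcard] at hsum
  apply Int.cast_injective (α := ℂ)
  push_cast at hsum ⊢
  refine mul_left_cancel₀ (Nat.cast_ne_zero.2 (Nat.card_pos (α := W)).ne') ?_
  linear_combination hsum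

open scoped Classical in
/-- A character negative on involutions has large degree. -/
theorem Hyp.neg_degree_bound (H : Hyp P e) (he : e.Prime) {g : G}
    (hg : ¬ (coreClosure P).map (MulAut.conj g).toMonoidHom ≤ bigSub P)
    (χ : Cfsg.IrrCharacter G) {a : ℤ} (hval : ∀ x : G, 2 ∣ orderOf x → χ.1 x = (a : ℂ))
    (ha : a < 0) :
    (5 * (Nat.card P : ℤ) - 8) * (-a) ≤ 4 * (Cfsg.charDegree χ.1 : ℤ) := by
  obtain ⟨n, ρ, hρ, hχ⟩ := χ.2
  rw [← hχ] at hval
  set W := coreClosure P
  haveI := Fintype.ofFinite ↥(P : Subgroup G)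
  set q : ℤ := (Nat.card P : ℤ) with hq
  have hq8 : 8 ≤ q := by rw [hq]; exact_mod_cast H.eight
  have hdeg : (Cfsg.charDegree χ.1 : ℤ) = n := by
    have h1 := ρ.char_one
    rw [hχ, H42.irr_one_eq, Module.finrank_fin_fun] at h1
    exact_mod_cast h1
  obtain ⟨Q0, hQ0⟩ := Sylow.exists_subgroup_card_pow_prime 2 (G := ↥(P : Subgroup G)) (n := 2) (by
    obtain ⟨k, hk⟩ := IsPGroup.iff_card.1 P.2
    rw [show Nat.card ↥(P : Subgroup G) = 2 ^ k from hk]
    refine pow_dvd_pow 2 ?_
    by_contra hk2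
    have := H.eight
    rw [hk] at this
    have : 2 ^ k ≤ 2 ^ 1 := Nat.pow_le_pow_right (by norm_num) (by omega)
    omega)
  set Q := Q0.map (P : Subgroup G).subtype
  have hQP : Q ≤ (P : Subgroup G) := Subgroup.map_subtype_le _
  have hQ4 : Nat.card Q = 4 := by
    rw [Subgroup.card_map_of_injective (P : Subgroup G).subtype_injective, hQ0]; norm_num
  set Fix : Subgroup G → Submodule ℂ (Fin n → ℂ) :=
    fun K => Representation.invariants (ρ.comp K.subtype)
  have hmem : ∀ (K : Subgroup G) (v : Fin n → ℂ), v ∈ Fix K ↔ ∀ k ∈ K, ρ k v = v := fun K v =>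
    ⟨fun h k hk => h ⟨k, hk⟩, fun h k => h k k.2⟩
  have h4 : (4 : ℤ) * finrank ℂ (Fix (W ⊔ Q)) = (finrank ℂ (Fix W) : ℤ) + 3 * a := by
    have := H.finrank_fixed_sup ρ hval hQP
    rw [hQ4] at this
    push_cast at this
    linear_combination this
  have hqa : q * finrank ℂ (Fix (W ⊔ (P : Subgroup G))) = (finrank ℂ (Fix W) : ℤ) + (q - 1) * a :=
    H.finrank_fixed_sup ρ hval le_rfl
  set W' := W.map (MulAut.conj g).toMonoidHom
  have hW' : finrank ℂ (Fix W') = finrank ℂ (Fix W) := by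
    haveI := Fintype.ofFinite ↥W
    haveI := Fintype.ofFinite ↥W'
    have h1 := card_mul_finrank_invariants ρ W'
    have h2 := card_mul_finrank_invariants ρ W
    have hc : Nat.card W' = Nat.card W := Subgroup.card_map_of_injective (MulAut.conj g).injective
    have hs : ∑ k : W', ρ.character (k : G) = ∑ k : W, ρ.character (k : G) := by
      refine (Fintype.sum_equiv (W.equivMapOfInjective _ (MulAut.conj g).injective).toEquiv _ _
        fun k => ?_).symm
      exact (ρ.char_conj (k : G) g).symm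
    rw [hc, hs, ← h2] at h1
    exact Nat.cast_injective (R := ℂ) (mul_left_cancel₀ (Nat.cast_ne_zero.2 Nat.card_pos.ne') h1)
  -- vectors killed by the sum over `P`
  let A : (Fin n → ℂ) →ₗ[ℂ] (Fin n → ℂ) := ∑ b : ↥(P : Subgroup G), ρ (b : G)
  have hA : ∀ v ∈ Fix (W ⊔ Q), A v ∈ Fix (W ⊔ (P : Subgroup G)) := by
    intro v hv
    rw [hmem] at hv ⊢
    suffices hs : (W ⊔ (P : Subgroup G) : Subgroup G) ≤
        { carrier := {k | ρ k (A v) = A v}
          one_mem' := by simp
          mul_mem' := fun {x y} hx hy => by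
            show ρ (x * y) (A v) = A v
            rw [map_mul, Module.End.mul_apply, hy, hx]
          inv_mem' := fun {x} hx => by
            show ρ x⁻¹ (A v) = A v
            nth_rewrite 1 [← show ρ x (A v) = A v from hx]
            rw [← Module.End.mul_apply, ← map_mul, inv_mul_cancel, map_one, Module.End.one_apply] }
      from fun k hk => hs hk
    refine sup_le (fun w hw => ?_) (fun b hb => ?_)
    · show ρ w (A v) = A v
      simp only [A, LinearMap.coe_sum, Finset.sum_apply, map_sum]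
      refine Finset.sum_congr rfl fun c _ => ?_
      have h1 : (c : G)⁻¹ * w * c ∈ W ⊔ Q := (le_sup_left : W ≤ W ⊔ Q) (by
        simpa using H.closure_spec.2.2.1 _ (inv_mem c.2) w hw)
      conv_rhs => rw [← hv _ h1]
      rw [← Module.End.mul_apply, ← map_mul, ← Module.End.mul_apply, ← map_mul]
      congr 2
      group
    · show ρ b (A v) = A v
      simp only [A, LinearMap.coe_sum, Finset.sum_apply, map_sum]
      refine Fintype.sum_equiv (Equiv.mulLeft (⟨b, hb⟩ : ↥(P : Subgroup G))) _ _ fun c => ?_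
      rw [← Module.End.mul_apply, ← map_mul]
      rfl
  set L := Fix (W ⊔ Q) ⊓ LinearMap.ker A
  have hL : finrank ℂ (Fix (W ⊔ Q)) ≤
      finrank ℂ L + finrank ℂ (Fix (W ⊔ (P : Subgroup G))) := by
    have h1 := LinearMap.finrank_range_add_finrank_ker (A.domRestrict (Fix (W ⊔ Q)))
    have h2 : finrank ℂ (LinearMap.range (A.domRestrict (Fix (W ⊔ Q)))) ≤
        finrank ℂ (Fix (W ⊔ (P : Subgroup G))) := Submodule.finrank_mono (by
      rintro _ ⟨v, rfl⟩
      exact hA v v.2)
    have h3 : finrank ℂ (LinearMap.ker (A.domRestrict (Fix (W ⊔ Q)))) ≤ finrank ℂ L := by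
      rw [← Submodule.finrank_map_subtype_eq]
      refine Submodule.finrank_mono ?_
      rintro _ ⟨v, hv, rfl⟩
      exact ⟨v.2, hv⟩
    omega
  -- no vector of `L` is fixed by the conjugate of the closure
  have hdisj : L ⊓ Fix W' = ⊥ := by
    rw [eq_bot_iff]
    intro v hv
    obtain ⟨⟨hv1, hv2⟩, hv3⟩ := hv
    rw [Submodule.mem_bot]
    let Y : Subgroup G :=
      { carrier := {k | ρ k v = v}
        one_mem' := by simp
        mul_mem' := fun {x y} hx hy => by
          show ρ (x * y) v = v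
          rw [map_mul, Module.End.mul_apply, hy, hx]
        inv_mem' := fun {x} hx => by
          show ρ x⁻¹ v = v
          nth_rewrite 1 [← show ρ x v = v from hx]
          rw [← Module.End.mul_apply, ← map_mul, inv_mul_cancel, map_one, Module.End.one_apply] }
    have hPY := H.sylow_le_overgroup he (Y := Y)
      (fun w hw => (hmem _ v).1 hv1 w ((le_sup_left : W ≤ W ⊔ Q) hw))
      (fun w hw => (hmem _ v).1 hv1 w ((le_sup_right : Q ≤ W ⊔ Q) hw)) hQP hQ4
      (fun hle => hg fun w hw => hle ((hmem _ v).1 hv3 w hw))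
    have h1 : A v = (Fintype.card ↥(P : Subgroup G) : ℂ) • v := by
      simp only [A, LinearMap.coe_sum, Finset.sum_apply]
      rw [Finset.sum_congr (s₁ := (Finset.univ : Finset ↥(P : Subgroup G))) rfl fun b _ =>
        (hPY b.2 : ρ (b : G) v = v), Finset.sum_const,
        Finset.card_univ, Nat.cast_smul_eq_nsmul]
    rw [LinearMap.mem_ker.1 hv2] at h1
    exact (smul_eq_zero.1 h1.symm).resolve_left (Nat.cast_ne_zero.2 Fintype.card_ne_zero)
  have hsum := Submodule.finrank_sup_add_finrank_inf_eq L (Fix W')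
  rw [hdisj, finrank_bot, add_zero, hW'] at hsum
  have hle : finrank ℂ ↥(L ⊔ Fix W') ≤ n := by
    have := Submodule.finrank_le (L ⊔ Fix W')
    rwa [Module.finrank_fin_fun] at this
  have key : (finrank ℂ (Fix (W ⊔ Q)) : ℤ) - finrank ℂ (Fix (W ⊔ (P : Subgroup G))) +
      finrank ℂ (Fix W) ≤ n := by
    have : finrank ℂ (Fix (W ⊔ Q)) + finrank ℂ (Fix W) ≤
        finrank ℂ (Fix (W ⊔ (P : Subgroup G))) + n := by omega
    omega
  rw [hdeg]
  have hpos : (0 : ℤ) ≤ q * finrank ℂ (Fix (W ⊔ (P : Subgroup G))) := by positivity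
  rw [hqa] at hpos
  nlinarith [mul_le_mul_of_nonneg_left key (show (0 : ℤ) ≤ 4 * q by linarith)]

end Cfsg.Agent.H40.AbelTwo
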