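import Cfsg.Agent.H40.AbelTwo.FixedSpace
import Cfsg.Agent.H40.BlockSets

/-!
# The cubic identity for a simple group with a strongly embedded subgroup
-/

set_option autoImplicit false
set_option linter.unusedSectionVars false

open scoped ComplexConjugate

namespace Cfsg.Agent.H40.AbelTwo

open Cfsg Cfsg.Agent.H28.Ab

variable {G : Type*} [Group G] [Finite G] {P : Sylow 2 G} {e : ℕ} [Fact (Nat.Prime 2)]
  {M : Ideal Cfsg.AlgInt}

theorem orderOf_eq_two_of_isConj {t x : G} (ht : orderOf t = 2) (h : IsConj t x) :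
    orderOf x = 2 := by
  obtain ⟨a, rfl⟩ := isConj_iff.1 h
  rw [orderOf_conj', ht]

/-- A member of the principal block is constant on the singular elements. -/
theorem Hyp.exists_value (H : Hyp P e) (hM : Cfsg.IsPModular 2 M) {t : G}
    (ht : orderOf t = 2) {χ : Cfsg.IrrCharacter G} (hχ : χ ∈ Cfsg.principalBlock M G) :
    ∃ a : ℤ, ∀ x : G, 2 ∣ orderOf x → χ.1 x = (a : ℂ) := by
  haveI := Fintype.ofFinite G
  obtain ⟨k, hk⟩ := H56.exists_int_involution χ ht
  refine ⟨2 * (k : ℤ) - Cfsg.charDegree χ.1, fun x hx => ?_⟩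
  obtain ⟨y, z, hz, hzy⟩ := exists_rep P x
  have hy : y ≠ 1 := fun e1 => by
    subst e1
    exact (H40.regular_iff_pPart_eq_one hz).2 (by simpa using hzy) hx
  rw [H.ctx.block_value hM hχ hy hz hzy, ← hk]
  exact H26.irr_eq_of_isConj χ (H.one_class (H.orderOf_two y.2 fun e1 => hy (Subtype.ext e1)) ht)

theorem Hyp.mem_section_iff [Fintype G] (H : Hyp P e) {t g : G} (ht : orderOf t = 2) :
    g ∈ section' 2 t ↔ 2 ∣ orderOf g := by
  rw [mem_section']
  constructor
  · rintro ⟨x, hx, hxt⟩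
    by_contra hg
    have h1 := (H40.regular_iff_pPart_eq_one hx).1 hg
    rw [h1] at hxt
    have := orderOf_eq_two_of_isConj ht hxt.symm
    simp at this
  · intro hg
    obtain ⟨y, z, hz, hzy⟩ := exists_rep P g
    have hy : y ≠ 1 := fun e1 => by
      subst e1
      exact (H40.regular_iff_pPart_eq_one hz).2 (by simpa using hzy) hg
    exact ⟨z, hz, hzy.trans (H.one_class (H.orderOf_two y.2 fun e1 => hy (Subtype.ext e1)) ht)⟩

/-- An involution with singular product with `t ∈ P` lies in `bigSub P`. -/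
theorem Hyp.mem_bigSub_of_singular (H : Hyp P e) {t j : G} (htP : t ∈ (P : Subgroup G))
    (ht1 : t ≠ 1) (hj : orderOf j = 2) (hev : 2 ∣ orderOf (t * j)) : j ∈ bigSub P := by
  obtain ⟨m, -, hw, hct, hcj, -⟩ :=
    H50.central_involution_spec (H.orderOf_two htP ht1) hj (even_iff_two_dvd.2 hev)
  have hwH : (t * j) ^ m ∈ bigSub P :=
    H.centralizer_le_bigSub htP ht1 (Subgroup.mem_centralizer_singleton_iff.2 hct.symm.eq)
  exact ((H28.isStronglyEmbedded_iff_centralizer_fusion H.bigSub_ne_top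
    H.bigSub_stronglyEmbedded.2.1).1 H.bigSub_stronglyEmbedded).1 _ hwH hw
    (Subgroup.mem_centralizer_singleton_iff.2 hcj.eq)

/-- Products of `t` with closure conjugates of other elements of `P` are singular. -/
theorem Hyp.singular_of_ne (H : Hyp P e) {t a w : G} (htP : t ∈ (P : Subgroup G)) (ht1 : t ≠ 1)
    (haP : a ∈ (P : Subgroup G)) (ha1 : a ≠ 1) (hw : w ∈ coreClosure P) (hat : a ≠ t) :
    2 ∣ orderOf (t * (w * a * w⁻¹)) := by
  by_contra hodd
  obtain ⟨i, hi⟩ := H50.exists_conj_of_odd (H.orderOf_two htP ht1)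
    (by rw [orderOf_conj', H.orderOf_two haP ha1] : orderOf (w * a * w⁻¹) = 2)
    (Nat.odd_iff.2 (Nat.two_dvd_ne_zero.1 hodd))
  set z := (t * (w * a * w⁻¹)) ^ i
  set W := coreClosure P
  have hz : z ∈ W ⊔ (P : Subgroup G) := pow_mem (mul_mem ((le_sup_right : (P : Subgroup G) ≤ _) htP)
    (mul_mem (mul_mem ((le_sup_left : W ≤ _) hw) ((le_sup_right : (P : Subgroup G) ≤ _) haP))
      (inv_mem ((le_sup_left : W ≤ _) hw)))) i
  have hz' : z ∈ ((W ⊔ (P : Subgroup G) : Subgroup G) : Set G) := hz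
  rw [Subgroup.coe_mul_of_right_le_normalizer_left _ _
    (Subgroup.le_normalizer.trans (normalizer_le_normalizer_closure P))] at hz'
  obtain ⟨u, hu, b, hb, hub⟩ := Set.mem_mul.1 hz'
  have hbt : b * t * b⁻¹ = t := by
    rw [show b * t = t * b from
      congrArg Subtype.val (H.ctx.comm.is_comm.comm ⟨b, hb⟩ (⟨t, htP⟩ : ↥(P : Subgroup G))),
      mul_inv_cancel_right]
  rw [← hub, show u * b * t * (u * b)⁻¹ = u * (b * t * b⁻¹) * u⁻¹ by group, hbt] at hi
  have key : ∀ (v c : G), v ∈ W → c ∈ (P : Subgroup G) → v * c * v⁻¹ * c⁻¹ ∈ W := fun v c hv hc => by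
    rw [show v * c * v⁻¹ * c⁻¹ = v * (c * v⁻¹ * c⁻¹) by group]
    exact mul_mem hv (H.closure_spec.2.2.1 c hc _ (inv_mem hv))
  have h1 := mul_mem (inv_mem (key w a hw haP)) (key u t hu htP)
  rw [hi, show (w * a * w⁻¹ * a⁻¹)⁻¹ * (w * a * w⁻¹ * t⁻¹) = a * t⁻¹ by group] at h1
  exact hat (mul_inv_eq_one.1 (H.closure_inf_sylow h1 (mul_mem haP (inv_mem htP))))

open scoped Classical in
/-- Involutions with singular product with `t`. -/
theorem Hyp.card_singular [Fintype G] (H : Hyp P e) {t : G} (htP : t ∈ (P : Subgroup G))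
    (ht1 : t ≠ 1) :
    ((Finset.univ.filter fun j : G => orderOf j = 2 ∧ 2 ∣ orderOf (t * j)).card) *
        Nat.card (theta t) = (Nat.card P - 2) * Nat.card (coreClosure P) := by
  haveI := Fintype.ofFinite ↥(P : Subgroup G)
  haveI := Fintype.ofFinite ↥(coreClosure P)
  set W := coreClosure P
  set J := Finset.univ.filter fun j : G => orderOf j = 2 ∧ 2 ∣ orderOf (t * j)
  set D : Finset (W × ↥(P : Subgroup G)) :=
    Finset.univ ×ˢ ((Finset.univ.erase 1).erase ⟨t, htP⟩)
  have hmem : ∀ v, v ∈ D ↔ v.2 ≠ ⟨t, htP⟩ ∧ v.2 ≠ 1 := fun v => by simp [D]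
  have hmaps : ∀ v ∈ D, (v.1 : G) * v.2 * (v.1 : G)⁻¹ ∈ J := by
    intro v hv
    obtain ⟨hne, hne1⟩ := (hmem v).1 hv
    have hne1' : (v.2 : G) ≠ 1 := fun e1 => hne1 (Subtype.ext e1)
    refine Finset.mem_filter.2 ⟨Finset.mem_univ _,
      by rw [orderOf_conj', H.orderOf_two v.2.2 hne1'], ?_⟩
    exact H.singular_of_ne htP ht1 v.2.2 hne1' v.1.2 fun e1 => hne (Subtype.ext e1)
  have hfib : ∀ j ∈ J, (D.filter fun v => (v.1 : G) * v.2 * (v.1 : G)⁻¹ = j).card =
      Nat.card (theta t) := by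
    intro j hj
    obtain ⟨hj2, hev⟩ := (Finset.mem_filter.1 hj).2
    obtain ⟨w, hw, a, ha, ha1, hwa⟩ :=
      H.exists_conj_of_involution (H.mem_bigSub_of_singular htP ht1 hj2 hev) hj2
    have hat : a ≠ t := by
      intro e1
      subst e1
      have h1 : a * (w * a * w⁻¹) ∈ W := by
        rw [show a * (w * a * w⁻¹) = (a * w * a⁻¹) * (a * a) * w⁻¹ by group, H.sq_eq_one ha,
          mul_one]
        exact mul_mem (H.closure_spec.2.2.1 a ha w hw) (inv_mem hw)
      rw [hwa] at h1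
      refine H.closure_spec.2.1 (hev.trans ?_)
      rw [← Subgroup.orderOf_mk _ h1]
      exact orderOf_dvd_natCard _
    obtain ⟨c, hc⟩ := isConj_iff.1 (H.one_class (H.orderOf_two htP ht1) (H.orderOf_two ha ha1))
    rw [← card_theta_conj c t, hc, ← (H.closure_spec.2.2.2 a ha ha1),
      Nat.card_eq_fintype_card, Fintype.card_subtype]
    refine (Finset.card_bij (fun (x : G) hx =>
      ((⟨w * x, mul_mem hw (Finset.mem_filter.1 hx).2.1⟩ : W), (⟨a, ha⟩ : ↥(P : Subgroup G))))
      ?_ ?_ ?_).symm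
    · intro x hx
      obtain ⟨hxW, hxC⟩ := Subgroup.mem_inf.1 (Finset.mem_filter.1 hx).2
      refine Finset.mem_filter.2 ⟨(hmem _).2 ⟨fun e1 => hat (congrArg Subtype.val e1),
        fun e1 => ha1 (congrArg Subtype.val e1)⟩, ?_⟩
      have := Subgroup.mem_centralizer_singleton_iff.1 hxC
      show w * x * a * (w * x)⁻¹ = j
      rw [mul_assoc w x a, this, ← hwa]
      group
    · intro x _ x' _ hxx
      exact mul_left_cancel (congrArg Subtype.val (congrArg Prod.fst hxx))
    · rintro ⟨⟨u, hu⟩, ⟨b, hb⟩⟩ hv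
      obtain ⟨hvD, hvj⟩ := Finset.mem_filter.1 hv
      have hub : u * b * u⁻¹ = w * a * w⁻¹ := hvj.trans hwa.symm
      have key : ∀ (v c : G), v ∈ W → c ∈ (P : Subgroup G) → v * c * v⁻¹ * c⁻¹ ∈ W :=
        fun v c hv hc => by
        rw [show v * c * v⁻¹ * c⁻¹ = v * (c * v⁻¹ * c⁻¹) by group]
        exact mul_mem hv (H.closure_spec.2.2.1 c hc _ (inv_mem hv))
      have h1 := mul_mem (inv_mem (key w a hw ha)) (key u b hu hb)
      rw [hub, show (w * a * w⁻¹ * a⁻¹)⁻¹ * (w * a * w⁻¹ * b⁻¹) = a * b⁻¹ by group] at h1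
      have hab : a = b := mul_inv_eq_one.1 (H.closure_inf_sylow h1 (mul_mem ha (inv_mem hb)))
      subst hab
      have hxC : w⁻¹ * u ∈ Subgroup.centralizer ({a} : Set G) := by
        rw [Subgroup.mem_centralizer_singleton_iff]
        calc w⁻¹ * u * a = w⁻¹ * (u * a * u⁻¹) * u := by group
          _ = a * (w⁻¹ * u) := by rw [hub]; group
      refine ⟨w⁻¹ * u, Finset.mem_filter.2 ⟨Finset.mem_univ _,
        Subgroup.mem_inf.2 ⟨mul_mem (inv_mem hw) hu, hxC⟩⟩, ?_⟩
      exact Prod.ext (Subtype.ext (mul_inv_cancel_left w u)) rfl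
  have hc := Finset.card_eq_sum_card_fiberwise hmaps
  rw [Finset.sum_congr rfl hfib, Finset.sum_const, smul_eq_mul] at hc
  rw [← hc, Finset.card_product, Finset.card_univ, ← Nat.card_eq_fintype_card,
    Finset.card_erase_of_mem (Finset.mem_erase.2
      ⟨fun e1 => ht1 (congrArg Subtype.val e1), Finset.mem_univ _⟩),
    Finset.card_erase_of_mem (Finset.mem_univ _), Finset.card_univ, ← Nat.card_eq_fintype_card,
    Nat.sub_sub, mul_comm]

open scoped Classical in
/-- The cubic identity. -/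
theorem Hyp.cubic [Fintype G] (H : Hyp P e) (hM : Cfsg.IsPModular 2 M)
    (a : Cfsg.IrrCharacter G → ℤ)
    (ha : ∀ χ ∈ Cfsg.principalBlock M G, ∀ x : G, 2 ∣ orderOf x → χ.1 x = (a χ : ℂ)) :
    (∑ χ ∈ Finset.univ.filter (· ∈ Cfsg.principalBlock M G),
        (a χ : ℝ) ^ 3 / (Cfsg.charDegree χ.1 : ℝ)) * ((e : ℝ) * ((bigSub P).index : ℝ)) =
      (Nat.card P : ℝ) * ((Nat.card P : ℝ) - 2) := by
  obtain ⟨y, hy⟩ : ∃ y : ↥(P : Subgroup G), y ≠ 1 :=
    haveI : Nontrivial ↥(P : Subgroup G) := Finite.one_lt_card_iff_nontrivial.1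
      (show 1 < Nat.card P by have := H.eight; omega)
    exists_ne 1
  have hy' : (y : G) ≠ 1 := fun e1 => hy (Subtype.ext e1)
  set t := (y : G) with htdef
  have ht : orderOf t = 2 := H.orderOf_two y.2 hy'
  set I := Finset.univ.filter fun x : G => orderOf x = 2
  set J := Finset.univ.filter fun j : G => orderOf j = 2 ∧ 2 ∣ orderOf (t * j)
  have hconj : ∀ x : G, IsConj x t ↔ orderOf x = 2 := fun x =>
    ⟨fun h => orderOf_eq_two_of_isConj ht h.symm, fun h => H.one_class h ht⟩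
  -- pairs with singular product
  have hpairs : ∑ g ∈ section' 2 t, H42.pairCount t t g = I.card * J.card := by
    have hJ : ∀ x ∈ I, (Finset.univ.filter fun j : G => orderOf j = 2 ∧ 2 ∣ orderOf (x * j)).card =
        J.card := by
      intro x hx
      obtain ⟨c, hc⟩ := isConj_iff.1 ((hconj x).2 (Finset.mem_filter.1 hx).2).symm
      refine (Finset.card_equiv (MulAut.conj c).toEquiv fun j => ?_).symm
      simp only [J, Finset.mem_filter, Finset.mem_univ, true_and, MulEquiv.toEquiv_eq_coe,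
        EquivLike.coe_coe, MulAut.conj_apply]
      rw [orderOf_conj', ← hc, conj_mul, orderOf_conj']
    have hpc : ∀ g, H42.pairCount t t g = (Finset.univ.filter fun x : G =>
        orderOf x = 2 ∧ orderOf (x⁻¹ * g) = 2).card := fun g => by
      rw [H42.pairCount, Nat.card_eq_fintype_card, Fintype.card_subtype]
      simp only [hconj]
    rw [Finset.sum_congr rfl fun g _ => hpc g, ← Finset.card_sigma, ← smul_eq_mul,
      ← Finset.sum_const, ← Finset.sum_congr rfl hJ, ← Finset.card_sigma]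
    refine Finset.card_bij' (fun v _ => ⟨v.2, v.2⁻¹ * v.1⟩) (fun v _ => ⟨v.1 * v.2, v.1⟩) ?_ ?_ ?_ ?_
    · intro v hv
      obtain ⟨hg, hx⟩ := Finset.mem_sigma.1 hv
      obtain ⟨hx2, hxg⟩ := (Finset.mem_filter.1 hx).2
      refine Finset.mem_sigma.2 ⟨Finset.mem_filter.2 ⟨Finset.mem_univ _, hx2⟩,
        Finset.mem_filter.2 ⟨Finset.mem_univ _, hxg, ?_⟩⟩
      rw [mul_inv_cancel_left]
      exact (H.mem_section_iff ht).1 hg
    · intro v hv
      obtain ⟨hx, hj⟩ := Finset.mem_sigma.1 hv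
      obtain ⟨hj2, hev⟩ := (Finset.mem_filter.1 hj).2
      refine Finset.mem_sigma.2 ⟨(H.mem_section_iff ht).2 hev,
        Finset.mem_filter.2 ⟨Finset.mem_univ _, (Finset.mem_filter.1 hx).2, ?_⟩⟩
      rwa [inv_mul_cancel_left]
    · intro v _; simp
    · intro v _; simp
  have hIidx : (Subgroup.centralizer ({t} : Set G)).index = I.card := by
    rw [H25.index_centralizer_eq_card_class, Nat.card_eq_fintype_card, Fintype.card_subtype]
    exact congrArg _ (Finset.filter_congr fun x _ => by rw [isConj_comm, hconj])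
  set k := I.card
  set th := Nat.card (theta t)
  set q := Nat.card P with hq
  set n := (bigSub P).index
  set w := Nat.card (coreClosure P)
  have hk : k * (th * q) = Nat.card G := by
    rw [← hIidx, ← H.card_centralizer y.2 hy', mul_comm]
    exact Subgroup.card_mul_index _
  have hJcard : J.card * th = (q - 2) * w := H.card_singular y.2 hy'
  have hG : Nat.card G = n * (w * (q * e)) := H.card_group
  have hps := pair_sum H.ctx hM t t hy
  rw [← htdef, hIidx] at hps
  set X3 : ℝ := ∑ χ ∈ Finset.univ.filter (· ∈ Cfsg.principalBlock M G),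
    (a χ : ℝ) ^ 3 / (Cfsg.charDegree χ.1 : ℝ)
  have h1 : (q : ℝ) * ((k : ℝ) * J.card) = (k : ℝ) * k * X3 := by
    apply Complex.ofReal_injective
    simp only [X3]
    push_cast
    rw [← Nat.cast_sum, hpairs, Nat.cast_mul] at hps
    rw [hps]
    refine congrArg _ (Finset.sum_congr rfl fun χ hχ => ?_)
    rw [ha χ (Finset.mem_filter.1 hχ).2 t ht.symm.dvd, H42.irr_one_eq, map_intCast]
    ring
  have hkpos : (0 : ℝ) < k := by
    rw [← hIidx]
    exact Nat.cast_pos.2 (Nat.pos_of_ne_zero Subgroup.index_ne_zero_of_finite)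
  have h2 : (q : ℝ) * J.card = (k : ℝ) * X3 := mul_left_cancel₀ hkpos.ne' (by linear_combination h1)
  have h3 : (k : ℝ) * ((th : ℝ) * q) = (n : ℝ) * ((w : ℝ) * ((q : ℝ) * e)) := by
    exact_mod_cast hk.trans hG
  have h4 : (J.card : ℝ) * th = ((q : ℝ) - 2) * w := by
    have := congrArg (fun v : ℕ => (v : ℝ)) hJcard
    push_cast [Nat.cast_sub (show 2 ≤ q by have := H.eight; omega)] at this
    linarith
  have hq0 : (0 : ℝ) < q := Nat.cast_pos.2 Nat.card_pos
  have hw0 : (0 : ℝ) < w := Nat.cast_pos.2 Nat.card_pos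
  refine mul_left_cancel₀ (mul_pos hw0 hq0).ne' ?_
  linear_combination -X3 * h3 - (q : ℝ) * (th : ℝ) * h2 + (q : ℝ) * (q : ℝ) * h4

end Cfsg.Agent.H40.AbelTwo
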