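import Cfsg.Agent.H40.AbelTwo.SmallIndex

/-!
# The closure of the cores is trivial
-/

set_option autoImplicit false
set_option linter.unusedSectionVars false

open scoped ComplexConjugate

namespace Cfsg.Agent.H40.AbelTwo

open Cfsg Cfsg.Agent.H28.Ab

variable {G : Type*} [Group G] [Finite G] {P : Sylow 2 G} {e : ℕ} [Fact (Nat.Prime 2)]
  {M : Ideal Cfsg.AlgInt}

theorem Hyp.exists_conjugate_not_le (H : Hyp P e) (hW : coreClosure P ≠ ⊥) :
    ∃ g : G, ¬ (coreClosure P).map (MulAut.conj g).toMonoidHom ≤ bigSub P := by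
  by_contra! hall
  haveI := H.simple
  have hle : coreClosure P ≤ (bigSub P).normalCore := fun w hw b => hall b ⟨w, hw, rfl⟩
  rcases ((bigSub P).normalCore_normal).eq_bot_or_eq_top with h | h
  · exact hW (le_bot_iff.1 (h ▸ hle))
  · exact H.bigSub_ne_top (top_le_iff.1 (h ▸ (bigSub P).normalCore_le))

theorem Hyp.exists_involution_in_sylow (H : Hyp P e) :
    ∃ t ∈ (P : Subgroup G), t ≠ 1 ∧ orderOf t = 2 := by
  obtain ⟨y, hy⟩ : ∃ y : ↥(P : Subgroup G), y ≠ 1 :=
    haveI : Nontrivial ↥(P : Subgroup G) := Finite.one_lt_card_iff_nontrivial.1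
      (show 1 < Nat.card P by have := H.eight; omega)
    exists_ne 1
  have hy' : (y : G) ≠ 1 := fun e1 => hy (Subtype.ext e1)
  exact ⟨y, y.2, hy', H.orderOf_two y.2 hy'⟩

open scoped Classical in
/-- The index of `bigSub P` is at most `5 |P|`. -/
theorem Hyp.index_le (H : Hyp P e) (he : e.Prime) (hM : Cfsg.IsPModular 2 M)
    (hW : coreClosure P ≠ ⊥) : (bigSub P).index ≤ 5 * Nat.card P := by
  by_contra hbig
  haveI := Fintype.ofFinite G
  haveI := hM.2.1
  obtain ⟨t, htP, ht1, ht⟩ := H.exists_involution_in_sylow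
  obtain ⟨g, hg⟩ := H.exists_conjugate_not_le hW
  have hex : ∀ χ : Cfsg.IrrCharacter G, ∃ a : ℤ, χ ∈ Cfsg.principalBlock M G →
      ∀ x : G, 2 ∣ orderOf x → χ.1 x = (a : ℂ) := fun χ => by
    by_cases hχ : χ ∈ Cfsg.principalBlock M G
    · obtain ⟨a, ha⟩ := H.exists_value hM ht hχ
      exact ⟨a, fun _ => ha⟩
    · exact ⟨0, fun h => absurd h hχ⟩
  choose a ha using hex
  set B := Finset.univ.filter (fun χ => χ ∈ Cfsg.principalBlock M G)
  have hcub := H.cubic hM a fun χ hχ => ha χ hχ
  have hone : H26.oneIrr G ∈ B := Finset.mem_filter.2 ⟨Finset.mem_univ _,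
    H41.mem_blockOf_self (H26.oneIrr G)⟩
  have ha1 : a (H26.oneIrr G) = 1 := by
    have := ha _ (Finset.mem_filter.1 hone).2 t ht.symm.dvd
    rw [H26.oneIrr_val] at this
    exact_mod_cast this.symm
  have hd1 : Cfsg.charDegree (H26.oneIrr G).1 = 1 := Nat.cast_injective (R := ℂ)
    (by rw [← H42.irr_one_eq, H26.oneIrr_val, Nat.cast_one])
  have hsq : ∑ χ ∈ B, (a χ : ℝ) ^ 2 = (Nat.card P : ℝ) := by
    apply Complex.ofReal_injective
    push_cast
    rw [← H.ctx.block_norm hM (y := ⟨t, htP⟩) fun e1 => ht1 (congrArg Subtype.val e1)]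
    refine Finset.sum_congr rfl fun χ hχ => ?_
    rw [ha χ (Finset.mem_filter.1 hχ).2 t ht.symm.dvd, map_intCast, sq]
  have hdeg : ∑ χ ∈ B, (a χ : ℝ) * (Cfsg.charDegree χ.1 : ℝ) = 0 := by
    apply Complex.ofReal_injective
    push_cast
    rw [← H40.sum_block_mul_conj_eq_zero hM
      (H41.isPBlock_principalBlock (G := G) (M := M)) (x := 1) (y := t)
      (by simp) ht.symm.dvd]
    refine Finset.sum_congr rfl fun χ hχ => ?_
    rw [ha χ (Finset.mem_filter.1 hχ).2 t ht.symm.dvd, map_intCast, H42.irr_one_eq, mul_comm]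
  set q : ℝ := (Nat.card P : ℝ) with hq
  have hq8 : 8 ≤ q := by rw [hq]; exact_mod_cast H.eight
  have hneg : ∀ χ ∈ B, a χ < 0 →
      (5 * q - 8) * (-(a χ : ℝ)) ≤ 4 * (Cfsg.charDegree χ.1 : ℝ) := by
    intro χ hχ h0
    have := H.neg_degree_bound he hg χ (ha χ (Finset.mem_filter.1 hχ).2) h0
    rw [hq]
    exact_mod_cast this
  have h58 : 0 < 5 * q - 8 := by linarith
  have hterm : ∀ χ ∈ B.erase (H26.oneIrr G),
      -(4 / (5 * q - 8)) * (if a χ < 0 then (a χ : ℝ) ^ 2 else 0) ≤
        (a χ : ℝ) ^ 3 / (Cfsg.charDegree χ.1 : ℝ) := by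
    intro χ hχ
    have hd : (0 : ℝ) < Cfsg.charDegree χ.1 := Nat.cast_pos.2 (H42.charDegree_pos χ)
    split_ifs with h0
    · have h1 := hneg χ (Finset.mem_of_mem_erase hχ) h0
      rw [neg_mul, div_mul_eq_mul_div, ← neg_div, div_le_div_iff₀ h58 hd]
      nlinarith [mul_le_mul_of_nonneg_left h1 (sq_nonneg (a χ : ℝ))]
    · rw [mul_zero]
      have : (0 : ℝ) ≤ (a χ : ℝ) := by exact_mod_cast not_lt.1 h0
      positivity
  have hnegsum : ∑ χ ∈ B.erase (H26.oneIrr G), (if a χ < 0 then (a χ : ℝ) ^ 2 else 0) ≤ q - 2 := by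
    obtain ⟨χ₀, hχ₀, hpos⟩ : ∃ χ ∈ B.erase (H26.oneIrr G), 1 ≤ a χ := by
      by_contra! hall
      rw [← Finset.add_sum_erase _ _ hone, ha1, hd1] at hdeg
      push_cast at hdeg
      have h1 : ∀ χ ∈ B.erase (H26.oneIrr G),
          (a χ : ℝ) * (Cfsg.charDegree χ.1 : ℝ) ≤ -(8 * (a χ : ℝ) ^ 2) := by
        intro χ hχ
        rcases eq_or_lt_of_le (Int.lt_add_one_iff.1 (show a χ < 0 + 1 by simpa using hall χ hχ)) with
          h | h
        · rw [h]; simp
        · have h2 := hneg χ (Finset.mem_of_mem_erase hχ) h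
          have h3 : (a χ : ℝ) < 0 := by exact_mod_cast h
          have h4 : 8 * (-(a χ : ℝ)) ≤ (Cfsg.charDegree χ.1 : ℝ) := by nlinarith
          nlinarith [mul_le_mul_of_nonpos_left h4 h3.le]
      have h2 := Finset.sum_le_sum h1
      rw [Finset.sum_neg_distrib, ← Finset.mul_sum] at h2
      rw [← Finset.add_sum_erase _ _ hone, ha1] at hsq
      push_cast at hsq
      linarith
    rw [← Finset.add_sum_erase _ _ hone, ha1, ← Finset.add_sum_erase _ _ hχ₀] at hsq
    rw [← Finset.add_sum_erase _ _ hχ₀, if_neg (by omega)]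
    have h1 : ∑ χ ∈ (B.erase (H26.oneIrr G)).erase χ₀, (if a χ < 0 then (a χ : ℝ) ^ 2 else 0) ≤
        ∑ χ ∈ (B.erase (H26.oneIrr G)).erase χ₀, (a χ : ℝ) ^ 2 :=
      Finset.sum_le_sum fun χ _ => by split_ifs <;> [exact le_rfl; exact sq_nonneg _]
    have h2 : (1 : ℝ) ≤ (a χ₀ : ℝ) ^ 2 := by
      exact one_le_pow₀ (by exact_mod_cast hpos)
    push_cast at hsq
    linarith
  set X3 : ℝ := ∑ χ ∈ B, (a χ : ℝ) ^ 3 / (Cfsg.charDegree χ.1 : ℝ)
  have hlow : 1 - 4 / (5 * q - 8) * (q - 2) ≤ X3 := by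
    simp only [X3]
    rw [← Finset.add_sum_erase _ _ hone, ha1, hd1]
    have h1 := Finset.sum_le_sum hterm
    rw [← Finset.mul_sum] at h1
    have h2 := mul_le_mul_of_nonneg_left hnegsum (show (0 : ℝ) ≤ 4 / (5 * q - 8) by positivity)
    norm_num
    linarith
  have he' : (e : ℝ) = q - 1 := by
    have h1 : ((e : ℝ) + 1) = q := by rw [hq]; exact_mod_cast H.e_eq
    linarith
  have hn : 5 * q + 1 ≤ ((bigSub P).index : ℝ) := by
    rw [hq]; exact_mod_cast (not_le.1 hbig : 5 * Nat.card P < (bigSub P).index)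
  have hmul : (1 - 4 / (5 * q - 8) * (q - 2)) * (5 * q - 8) = q := by
    field_simp
    ring
  have h1 : q ≤ X3 * (5 * q - 8) := le_of_eq_of_le hmul.symm (mul_le_mul_of_nonneg_right hlow h58.le)
  rw [he'] at hcub
  have h2 := mul_le_mul_of_nonneg_right h1
    (show (0 : ℝ) ≤ (q - 1) * ((bigSub P).index : ℝ) from
      mul_nonneg (by linarith) (Nat.cast_nonneg _))
  have h3 : (5 * q - 8) * (q * (q - 2)) < q * ((q - 1) * ((bigSub P).index : ℝ)) := by
    have h4 := mul_le_mul_of_nonneg_left hn (show (0 : ℝ) ≤ q * (q - 1) by nlinarith)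
    nlinarith
  rw [show X3 * (5 * q - 8) * ((q - 1) * ((bigSub P).index : ℝ)) =
    (5 * q - 8) * (X3 * ((q - 1) * ((bigSub P).index : ℝ))) by ring, hcub] at h2
  linarith

theorem Hyp.rel_eq_three (H : Hyp P e) (he : e.Prime) (hW : coreClosure P ≠ ⊥)
    (hsmall : (bigSub P).index ≤ 5 * Nat.card P) {x : G ⧸ bigSub P}
    (hx : x ≠ base (bigSub P)) :
    (coreClosure P ⊓ MulAction.stabilizer G x).relIndex (coreClosure P) = 3 :=
  (H.rel_small hsmall hx).resolve_left (H.rel_ne_one he hW hsmall hx)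

/-- All points but the base form one orbit, and the index is `3 |P| + 1`. -/
theorem Hyp.one_orbit (H : Hyp P e) (he : e.Prime) (hW : coreClosure P ≠ ⊥)
    (hsmall : (bigSub P).index ≤ 5 * Nat.card P) {p : G ⧸ bigSub P}
    (hp : p ≠ base (bigSub P)) :
    MulAction.orbit ↥(coreClosure P ⊔ (P : Subgroup G)) p = {base (bigSub P)}ᶜ ∧
      (bigSub P).index = 3 * Nat.card P + 1 := by
  classical
  set R := coreClosure P ⊔ (P : Subgroup G)
  have hsub : ∀ {x : G ⧸ bigSub P}, x ≠ base (bigSub P) →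
      MulAction.orbit R x ⊆ {base (bigSub P)}ᶜ := by
    intro x hx
    rintro _ ⟨r, rfl⟩ hr
    rw [Set.mem_singleton_iff] at hr
    exact hx (smul_left_cancel (r : G) (hr.trans
      (H50.smul_one_coset_eq_iff.2 ((sup_le le_sup_left sylow_le_bigSub : R ≤ bigSub P) r.2)).symm))
  have hcompl : ({base (bigSub P)}ᶜ : Set (G ⧸ bigSub P)).ncard = (bigSub P).index - 1 := by
    rw [Set.ncard_compl, Set.ncard_singleton, ← Subgroup.index_eq_card]
  have hocard : ∀ {x : G ⧸ bigSub P}, x ≠ base (bigSub P) →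
      (MulAction.orbit R x).ncard = Nat.card P * 3 := fun hx => by
    rw [H.orbit_card hx, H.rel_eq_three he hW hsmall hx]
  have heq : MulAction.orbit R p = {base (bigSub P)}ᶜ := by
    by_contra hne
    obtain ⟨x, hx, hxo⟩ := Set.exists_of_ssubset ((hsub hp).ssubset_of_ne hne)
    have hdis : Disjoint (MulAction.orbit R p) (MulAction.orbit R x) := by
      rw [Set.disjoint_left]
      intro z hz1 hz2
      refine hxo ?_
      rw [← MulAction.orbit_eq_iff.2 hz1, MulAction.orbit_eq_iff.2 hz2]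
      exact MulAction.mem_orbit_self x
    have hle := Set.ncard_le_ncard (Set.union_subset (hsub hp) (hsub hx)) (Set.toFinite _)
    rw [Set.ncard_union_eq hdis (Set.toFinite _) (Set.toFinite _), hocard hp, hocard hx, hcompl] at hle
    have := H.eight
    omega
  refine ⟨heq, ?_⟩
  have h1 := hocard hp
  rw [heq, hcompl] at h1
  have h2 : (bigSub P).index ≠ 0 := Subgroup.index_ne_zero_of_finite
  omega

theorem Hyp.sylow_three (H : Hyp P e) (he : e.Prime)
    (hidx : (bigSub P).index = 3 * Nat.card P + 1)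
    (hexp : ∀ w ∈ coreClosure P, w ^ 3 = 1) :
    ∃ S : Sylow 3 G, (S : Subgroup G) = coreClosure P := by
  haveI : Fact (Nat.Prime 3) := ⟨Nat.prime_three⟩
  have hp3 : IsPGroup 3 (coreClosure P) := fun w => ⟨1, Subtype.ext (by simpa using hexp w w.2)⟩
  have hnd : ¬ 3 ∣ (coreClosure P).index := by
    rw [← Subgroup.relIndex_mul_index (le_sup_left : coreClosure P ≤ bigSub P), H.relIndex_closure,
      hidx]
    obtain ⟨k, hk⟩ := IsPGroup.iff_card.1 P.2
    intro h
    rcases (Nat.Prime.dvd_mul Nat.prime_three).1 h with h | h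
    · rcases (Nat.Prime.dvd_mul Nat.prime_three).1 h with h | h
      · rw [hk] at h
        have := (Nat.prime_dvd_prime_iff_eq Nat.prime_three Nat.prime_two).1
          (Nat.prime_three.dvd_of_dvd_pow h)
        omega
      · exact H.e_ne_three ((Nat.prime_dvd_prime_iff_eq Nat.prime_three he).1 h).symm
    · omega
  exact ⟨hp3.toSylow hnd, rfl⟩

/-- The closure does not have order three. -/
theorem Hyp.card_ne_three (H : Hyp P e) (hM3 : Nat.card (coreClosure P) = 3)
    (S : Sylow 3 G) (hS : (S : Subgroup G) = coreClosure P)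
    (hN : Subgroup.normalizer (coreClosure P : Set G) ≤ bigSub P)
    (hcomm : ∀ u ∈ coreClosure P, ∀ v ∈ coreClosure P, u * v = v * u) : False := by
  classical
  haveI : Fact (Nat.Prime 3) := ⟨Nat.prime_three⟩
  haveI := H.simple
  set W := coreClosure P
  set C := Subgroup.centralizer (W : Set G)
  have hWC : W ≤ C := fun v hv => Subgroup.mem_centralizer_iff.2 fun u hu => hcomm u hu v hv
  -- each normalising element centralises or inverts
  have hinvr : ∀ h ∈ Subgroup.normalizer (W : Set G), h ∉ C → ∀ w ∈ W, h * w * h⁻¹ = w⁻¹ := by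
    intro h hh hhC w hw
    by_cases hw1 : w = 1
    · simp [hw1]
    have hmem : h * w * h⁻¹ ∈ W := (Subgroup.mem_normalizer_iff.1 hh w).1 hw
    have ho : orderOf w = 3 := by
      have h1 : orderOf w ∣ 3 := by
        rw [← Subgroup.orderOf_mk w hw, ← hM3]; exact orderOf_dvd_natCard _
      exact ((Nat.dvd_prime Nat.prime_three).1 h1).resolve_left fun e1 =>
        hw1 (orderOf_eq_one_iff.1 e1)
    have hz : Subgroup.zpowers w = W := Subgroup.eq_of_le_of_card_ge (Subgroup.zpowers_le.2 hw)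
      (by rw [Nat.card_zpowers, ho, hM3])
    rw [← hz, ← mem_powers_iff_mem_zpowers, Submonoid.mem_powers_iff] at hmem
    obtain ⟨n, hn⟩ := hmem
    rw [← pow_mod_orderOf, ho] at hn
    have h3 : n % 3 = 0 ∨ n % 3 = 1 ∨ n % 3 = 2 := by omega
    rcases h3 with h3 | h3 | h3 <;> rw [h3] at hn
    · exact absurd (conj_eq_one_iff.1 (by simpa using hn.symm : h * w * h⁻¹ = 1)) hw1
    · refine absurd (Subgroup.mem_centralizer_iff.2 fun u hu => ?_) hhC
      have hu' : u ∈ Subgroup.zpowers w := hz.symm ▸ hu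
      obtain ⟨m, rfl⟩ := Subgroup.mem_zpowers_iff.1 hu'
      have hc : Commute h w := mul_inv_eq_iff_eq_mul.1 (by simpa using hn.symm)
      exact (hc.zpow_right m).symm.eq
    · rw [← hn]
      refine eq_inv_of_mul_eq_one_left ?_
      rw [← pow_succ, show (2 : ℕ) + 1 = orderOf w from ho.symm, pow_orderOf_eq_one]
  have hfix2 : ∀ h ∈ Subgroup.normalizer (W : Set G), h * h ∈ C := by
    intro h hh
    by_cases hhC : h ∈ C
    · exact mul_mem hhC hhC
    refine Subgroup.mem_centralizer_iff.2 fun u hu => ?_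
    have h1 := hinvr h hh hhC u hu
    have h2 := hinvr h hh hhC u⁻¹ (inv_mem hu)
    rw [inv_inv] at h2
    have : h * h * u * (h * h)⁻¹ = u := by
      calc h * h * u * (h * h)⁻¹ = h * (h * u * h⁻¹) * h⁻¹ := by group
        _ = u := by rw [h1, h2]
    exact (mul_inv_eq_iff_eq_mul.1 this).symm
  have hNN := normalizer_le_normalizer_closure P
  have hPC : (P : Subgroup G) ≤ C := by
    intro a ha
    by_contra haC
    have ha1 : a ≠ 1 := fun e1 => haC (e1 ▸ one_mem _)
    have hall : ∀ b ∈ (P : Subgroup G), b ≠ 1 → ∀ w ∈ W, b * w * b⁻¹ = w⁻¹ := by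
      intro b hb hb1
      refine hinvr b (hNN (Subgroup.le_normalizer hb)) fun hbC => haC ?_
      obtain ⟨c, hc⟩ := isConj_iff.1 (H.one_class (H.orderOf_two hb hb1) (H.orderOf_two ha ha1))
      obtain ⟨n, hn, hnc⟩ := H22.abelian_sylow_controls P H.ctx.comm b hb c (hc ▸ ha)
      rw [← hc, ← hnc]
      refine Subgroup.mem_centralizer_iff.2 fun u hu => ?_
      have h1 : n⁻¹ * u * n ∈ W := by
        simpa using (Subgroup.mem_normalizer_iff.1 (inv_mem (hNN hn)) u).1 hu
      have h2 := Subgroup.mem_centralizer_iff.1 hbC _ h1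
      calc u * (n * b * n⁻¹) = n * ((n⁻¹ * u * n) * b) * n⁻¹ := by group
        _ = n * (b * (n⁻¹ * u * n)) * n⁻¹ := by rw [h2]
        _ = n * b * n⁻¹ * u := by group
    obtain ⟨b, hb, hb1, hba⟩ : ∃ b ∈ (P : Subgroup G), b ≠ 1 ∧ b ≠ a := by
      haveI := Fintype.ofFinite ↥(P : Subgroup G)
      have h8 : 2 < ((Finset.univ : Finset ↥(P : Subgroup G))).card := by
        rw [Finset.card_univ, ← Nat.card_eq_fintype_card]
        exact lt_of_lt_of_le (by norm_num) H.eight
      have hnonempty : ((Finset.univ.erase (1 : ↥(P : Subgroup G))).erase ⟨a, ha⟩).Nonempty := by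
        refine Finset.card_pos.1 ?_
        have h1 := Finset.pred_card_le_card_erase (a := (⟨a, ha⟩ : ↥(P : Subgroup G)))
          (s := Finset.univ.erase (1 : ↥(P : Subgroup G)))
        have h2 := Finset.pred_card_le_card_erase (a := (1 : ↥(P : Subgroup G)))
          (s := (Finset.univ : Finset ↥(P : Subgroup G)))
        omega
      obtain ⟨b, hb⟩ := hnonempty
      simp only [Finset.mem_erase, Finset.mem_univ, and_true] at hb
      exact ⟨b, b.2, fun e1 => hb.2 (Subtype.ext e1), fun e1 => hb.1 (Subtype.ext e1)⟩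
    have hab1 : a * b ≠ 1 := fun e1 => hba (mul_left_cancel (e1.trans (H.sq_eq_one ha).symm))
    refine haC (Subgroup.mem_centralizer_iff.2 fun u hu => ?_)
    have h1 := hall (a * b) (mul_mem ha hb) hab1 u hu
    have h2 := hall b hb hb1 u hu
    have h3 := hall a ha ha1 u⁻¹ (inv_mem hu)
    have h4 : a * b * u * (a * b)⁻¹ = u := by
      calc a * b * u * (a * b)⁻¹ = a * (b * u * b⁻¹) * a⁻¹ := by group
        _ = u := by rw [h2, h3, inv_inv]
    have huu : u⁻¹ = u := h1.symm.trans h4
    have hu1 : u = 1 := by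
      by_contra hne
      refine H.closure_spec.2.1 ?_
      have ho : orderOf u = 2 := by
        rw [orderOf_eq_prime_iff, sq]
        exact ⟨inv_eq_iff_mul_eq_one.1 huu, hne⟩
      rw [← ho, ← Subgroup.orderOf_mk u hu]
      exact orderOf_dvd_natCard _
    rw [hu1, one_mul, mul_one]
  have hcent : Subgroup.normalizer (W : Set G) ≤ C := by
    intro h hh
    obtain ⟨w, hw, n, hn, rfl⟩ := mem_bigSub_iff.1 (hN hh)
    refine mul_mem (hWC hw) ?_
    obtain ⟨t, htP, ht1, -⟩ := H.exists_involution_in_sylow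
    have hCP : Subgroup.centralizer ((P : Subgroup G) : Set G) ≤ C := by
      intro c hc
      obtain ⟨x, hx, b, hb, rfl⟩ := H.exists_decomp htP ht1
        (Subgroup.centralizer_le (Set.singleton_subset_iff.2 htP) hc)
      exact mul_mem (hWC (theta_le_closure htP ht1 hx)) (hPC hb)
    set N := Subgroup.normalizer ((P : Subgroup G) : Set G)
    set CP := Subgroup.centralizer ((P : Subgroup G) : Set G)
    haveI : (CP.subgroupOf N).Normal := by
      rw [show CP = Subgroup.centralizer ((P : Subgroup G) : Set G) from rfl,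
        show N = Subgroup.normalizer ((P : Subgroup G) : Set G) from rfl,
        ← Subgroup.normalizerMonoidHom_ker]
      infer_instance
    have h1 := Subgroup.pow_index_mem (CP.subgroupOf N) (⟨n, hn⟩ : N)
    rw [show (CP.subgroupOf N).index = e from H.ctx.index, Subgroup.mem_subgroupOf,
      SubmonoidClass.coe_pow] at h1
    obtain ⟨k, hk⟩ : Odd e := H.ctx.index ▸ odd_automiser H.ctx.comm
    have h2 := hCP h1
    rw [hk, pow_succ, pow_mul] at h2
    have := mul_mem (inv_mem (pow_mem (show (n ^ 2) ∈ C by rw [sq]; exact hfix2 n (hNN hn)) k)) h2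
    rwa [inv_mul_cancel_left] at this
  have hburn : Subgroup.normalizer ((S : Subgroup G) : Set G) ≤
      Subgroup.centralizer ((S : Subgroup G) : Set G) := by rw [hS]; exact hcent
  obtain ⟨K, hKn, hKp, hKS⟩ : ∃ K : Subgroup G, K.Normal ∧ ¬ 3 ∣ Nat.card K ∧
      Subgroup.IsComplement' K (S : Subgroup G) :=
    ⟨_, MonoidHom.normal_ker _, MonoidHom.not_dvd_card_ker_transferSylow S hburn,
      MonoidHom.ker_transferSylow_isComplement' S hburn⟩
  have hc := hKS.card_mul
  rw [hS, hM3] at hc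
  rcases hKn.eq_bot_or_eq_top with h | h
  · rw [h, Subgroup.card_bot, one_mul] at hc
    have h2 := H.two_dvd
    omega
  · rw [h, Subgroup.card_top] at hc
    have := Nat.card_pos (α := G)
    omega

/-- The index of `bigSub P` cannot be small. -/
theorem Hyp.index_gt (H : Hyp P e) (he : e.Prime) (hW : coreClosure P ≠ ⊥)
    (hsmall : (bigSub P).index ≤ 5 * Nat.card P) : False := by
  classical
  haveI : Fact (Nat.Prime 3) := ⟨Nat.prime_three⟩
  haveI := H.simple
  set W := coreClosure P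
  obtain ⟨hexp, hcomm⟩ := H.exponent_three hsmall
  obtain ⟨t, htP, ht1, ht⟩ := H.exists_involution_in_sylow
  set x0 := base (bigSub P)
  obtain ⟨p, hp⟩ : ∃ p : G ⧸ bigSub P, p ≠ x0 := by
    obtain ⟨g, -, hg⟩ := SetLike.exists_of_lt (lt_top_iff_ne_top.2 H.bigSub_ne_top)
    exact ⟨(g : G ⧸ bigSub P), fun h => hg (by
      rw [QuotientGroup.eq, mul_one] at h; exact inv_mem_iff.1 h)⟩
  obtain ⟨horb, hidx⟩ := H.one_orbit he hW hsmall hp
  obtain ⟨S, hS⟩ := H.sylow_three he hidx hexp
  have hN := H.normalizer_closure_le hW hsmall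
  set Wp := W ⊓ MulAction.stabilizer G p
  have hrel : Wp.relIndex W = 3 := H.rel_eq_three he hW hsmall hp
  have hWpne : Wp ≠ ⊥ := by
    intro h
    refine H.card_ne_three ?_ S hS hN hcomm
    rw [← hrel, h, Subgroup.relIndex_bot_left]
  -- an involution exchanging the base with `p`
  obtain ⟨⟨u, hu, hux⟩⟩ : Nonempty {i : G // orderOf i = 2 ∧ i • x0 = p} := by
    haveI : Nonempty {s : G // orderOf s = 2 ∧ s ∈ bigSub P} := ⟨⟨t, ht, sylow_le_bigSub htP⟩⟩
    have hc := H50.se_card_swap H.bigSub_stronglyEmbedded (Ne.symm hp)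
    exact Finite.card_pos_iff.1 (hc.symm ▸ Nat.card_pos)
  have hup : u • p = x0 := H50.smul_swap hu hux
  have hui : u⁻¹ = u := H50.inv_eq_self hu
  have huu : u * u = 1 := H50.inv_mul_self hu
  have huH : u ∉ bigSub P := fun h => hp (hux.symm.trans (H50.smul_one_coset_eq_iff.2 h))
  have hWpH : ∀ w ∈ Wp, w • x0 = x0 := fun w hw =>
    H50.smul_one_coset_eq_iff.2 ((le_sup_left : W ≤ bigSub P) hw.1)
  have huWp : ∀ w ∈ Wp, u * w * u ∈ Wp := by
    intro w hw
    refine Subgroup.mem_inf.2 ⟨H.mem_closure_of_cube he (H50.smul_one_coset_eq_iff.1 ?_) ?_, ?_⟩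
    · show (u * w * u) • x0 = x0
      rw [mul_smul, mul_smul, hux, show w • p = p from hw.2, hup]
    · have h1 := conj_pow (a := u) (b := w) (i := 3)
      rw [hui, hexp w hw.1, mul_one, huu] at h1
      exact h1
    · show (u * w * u) • p = p
      rw [mul_smul, mul_smul, hup, hWpH w hw, hux]
  -- an involution of `bigSub P` normalising the stabiliser
  obtain ⟨j, hjH, hj, hjN⟩ : ∃ j ∈ bigSub P, orderOf j = 2 ∧ ∀ w ∈ Wp, j * w * j⁻¹ ∈ Wp := by
    by_contra! hnone
    set C := Subgroup.centralizer (Wp : Set G)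
    have hWC : W ≤ C := fun v hv => Subgroup.mem_centralizer_iff.2 fun z hz => hcomm z hz.1 v hv
    -- Frattini: `u` agrees on the stabiliser with an element of `bigSub P`
    have hWu : W.map (MulAut.conj u).toMonoidHom ≤ C := by
      rintro _ ⟨v, hv, rfl⟩
      refine Subgroup.mem_centralizer_iff.2 fun z hz => ?_
      simp only [MulEquiv.coe_toMonoidHom, MulAut.conj_apply, hui]
      have h1 := hcomm _ (huWp z hz).1 v hv
      calc z * (u * v * u) = u * (u * z * u * v) * u := by
            simp only [← mul_assoc, huu, one_mul]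
        _ = u * (v * (u * z * u)) * u := by rw [h1]
        _ = u * v * u * z := by simp only [mul_assoc, huu, mul_one]
    have hSC : (S : Subgroup G) ≤ C := hS.le.trans hWC
    have huSC : ((u • S : Sylow 3 G) : Subgroup G) ≤ C := by
      rw [Sylow.coe_subgroup_smul, hS]; exact hWu
    obtain ⟨c, hc⟩ := MulAction.exists_smul_eq C ((u • S).subtype huSC) (S.subtype hSC)
    set h := (c : G) * u
    have hhN : h ∈ Subgroup.normalizer (W : Set G) := by
      rw [show W = (S : Subgroup G) from hS.symm]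
      refine Sylow.smul_eq_iff_mem_normalizer.1 ?_
      have h1 := hc
      rw [Sylow.smul_subtype] at h1
      have h2 := Sylow.subtype_injective h1
      rw [mul_smul]
      exact h2
    have hhH : h ∈ bigSub P := hN hhN
    have hhw : ∀ w ∈ Wp, h * w * h⁻¹ = u * w * u := by
      intro w hw
      have h1 := Subgroup.mem_centralizer_iff.1 c.2 _ (huWp w hw)
      calc h * w * h⁻¹ = (c : G) * (u * w * u) * (c : G)⁻¹ := by
            simp only [h, mul_inv_rev, hui]; group
        _ = u * w * u := by rw [← h1, mul_inv_cancel_right]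
    have hh2 : h * h ∈ C := by
      refine Subgroup.mem_centralizer_iff.2 fun w hw => ?_
      have h1 : h * h * w * (h * h)⁻¹ = w := by
        calc h * h * w * (h * h)⁻¹ = h * (h * w * h⁻¹) * h⁻¹ := by group
          _ = u * (u * w * u) * u := by rw [hhw w hw, hhw _ (huWp w hw)]
          _ = w := by simp only [← mul_assoc, huu, one_mul]; rw [mul_assoc, huu, mul_one]
      exact (mul_inv_eq_iff_eq_mul.1 h1).symm
    have hodd : Odd (orderOf h) := by
      refine Nat.not_even_iff_odd.1 fun hev => ?_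
      obtain ⟨m, hm⟩ := even_iff_two_dvd.1 hev
      have hpos := orderOf_pos h
      have hord : orderOf (h ^ m) = 2 := by
        rw [orderOf_pow_of_dvd (by omega) ⟨2, by rw [hm, mul_comm]⟩, hm,
          Nat.mul_div_cancel _ (by omega)]
      obtain ⟨w, hw, hwn⟩ := hnone _ (pow_mem hhH m) hord
      refine hwn ?_
      have key : ∀ k : ℕ, ∀ z ∈ Wp, h ^ k * z * (h ^ k)⁻¹ ∈ Wp := by
        intro k
        induction k with
        | zero => intro z hz; simpa using hz
        | succ k ih =>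
          intro z hz
          rw [show h ^ (k + 1) * z * (h ^ (k + 1))⁻¹ = h * (h ^ k * z * (h ^ k)⁻¹) * h⁻¹ by
            rw [pow_succ']; group, hhw _ (ih z hz)]
          exact huWp _ (ih z hz)
      exact key m w hw
    obtain ⟨k, hk⟩ := hodd
    have hhC : h ∈ C := by
      have h1 : (h * h) ^ (k + 1) = h := by
        rw [← sq, ← pow_mul, show 2 * (k + 1) = orderOf h + 1 by omega, pow_succ, pow_orderOf_eq_one,
          one_mul]
      exact h1 ▸ pow_mem hh2 (k + 1)
    have huC : u ∈ C := by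
      have := mul_mem (inv_mem c.2) hhC
      rwa [inv_mul_cancel_left] at this
    -- the cores have index three in the closure
    obtain ⟨c', hc'⟩ := isConj_iff.1 (H.one_class hu ht)
    have hθ : ∀ a ∈ (P : Subgroup G), a ≠ 1 →
        (W ⊓ Subgroup.centralizer ({a} : Set G)).relIndex W = 3 := by
      intro a ha ha1
      have hWeq : W ⊓ Subgroup.centralizer ({a} : Set G) = theta a := H.closure_spec.2.2.2 a ha ha1
      obtain ⟨c₂, hc₂⟩ := isConj_iff.1 (H.one_class hu (H.orderOf_two ha ha1))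
      have hle : Nat.card Wp ≤ Nat.card (theta a) := by
        refine Nat.card_le_card_of_injective
          (fun w : Wp => (⟨c₂ * (w : G) * c₂⁻¹, ?_⟩ : theta a))
          fun v v' hvv => Subtype.ext (mul_left_cancel (mul_right_cancel (congrArg Subtype.val hvv)))
        have hwC : c₂ * (w : G) * c₂⁻¹ ∈ Subgroup.centralizer ({a} : Set G) := by
          rw [Subgroup.mem_centralizer_singleton_iff, ← hc₂]
          exact ((Commute.conj_iff c₂).2
            (Subgroup.mem_centralizer_iff.1 huC _ w.2).symm.symm).eq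
        obtain ⟨x, hx, b, hb, hxb⟩ := H.exists_decomp ha ha1 hwC
        by_cases hb1 : b = 1
        · rw [← hxb, hb1, mul_one]; exact hx
        · exfalso
          have h2 := H.two_dvd_orderOf_mul (theta_le_closure ha ha1 hx) hb hb1
          rw [hxb, orderOf_conj'] at h2
          exact H.closure_spec.2.1 (h2.trans (by
            rw [← Subgroup.orderOf_mk (w : G) w.2.1]; exact orderOf_dvd_natCard _))
      set m := (W ⊓ Subgroup.centralizer ({a} : Set G)).relIndex W
      have h1 : m * Nat.card (theta a) = Nat.card W := by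
        rw [← hWeq]
        simp only [m, Subgroup.relIndex]
        rw [mul_comm, ← Nat.card_congr (Subgroup.subgroupOfEquivOfLe inf_le_left).toEquiv]
        exact Subgroup.card_mul_index _
      have h2 : 3 * Nat.card Wp = Nat.card W := by
        rw [← hrel, mul_comm]
        simp only [Subgroup.relIndex]
        rw [← Nat.card_congr (Subgroup.subgroupOfEquivOfLe (inf_le_left : Wp ≤ W)).toEquiv]
        exact Subgroup.card_mul_index _
      have hm3 : m ≤ 3 := by
        refine le_of_mul_le_mul_right (a := Nat.card (theta a)) ?_ Nat.card_pos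
        rw [h1, ← h2]
        exact Nat.mul_le_mul_left 3 hle
      have hm2 : ¬ 2 ∣ m := fun hd => H.closure_spec.2.1 (hd.trans (Dvd.intro _ h1))
      have hm1 : m ≠ 1 := by
        intro hm
        obtain ⟨w, hw, hwn⟩ := hnone a (sylow_le_bigSub ha) (H.orderOf_two ha ha1)
        refine hwn ?_
        have h3 : w ∈ W ⊓ Subgroup.centralizer ({a} : Set G) := Subgroup.relIndex_eq_one.1 hm hw.1
        rw [← Subgroup.mem_centralizer_singleton_iff.1 h3.2, mul_inv_cancel_right]
        exact hw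
      omega
    obtain ⟨s, hsP, hs1, hst⟩ : ∃ s ∈ (P : Subgroup G), s ≠ 1 ∧ s ≠ t := by
      haveI := Fintype.ofFinite ↥(P : Subgroup G)
      have hnonempty : ((Finset.univ.erase (1 : ↥(P : Subgroup G))).erase ⟨t, htP⟩).Nonempty := by
        refine Finset.card_pos.1 ?_
        have h1 := Finset.pred_card_le_card_erase (a := (⟨t, htP⟩ : ↥(P : Subgroup G)))
          (s := Finset.univ.erase (1 : ↥(P : Subgroup G)))
        have h2 := Finset.pred_card_le_card_erase (a := (1 : ↥(P : Subgroup G)))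
          (s := (Finset.univ : Finset ↥(P : Subgroup G)))
        rw [Finset.card_univ, ← Nat.card_eq_fintype_card] at h2
        have := H.eight
        change 8 ≤ Nat.card ↥(P : Subgroup G) at this
        omega
      obtain ⟨b, hb⟩ := hnonempty
      simp only [Finset.mem_erase, Finset.mem_univ, and_true] at hb
      exact ⟨b, b.2, fun e1 => hb.2 (Subtype.ext e1), fun e1 => hb.1 (Subtype.ext e1)⟩
    have hts1 : t * s ≠ 1 := fun e1 => hst (mul_left_cancel (e1.trans (H.sq_eq_one htP).symm))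
    exact three_involutions hcomm H.closure_spec.2.1 (H.sq_eq_one htP) (H.sq_eq_one hsP)
      (congrArg Subtype.val (H.ctx.comm.is_comm.comm ⟨t, htP⟩ (⟨s, hsP⟩ : ↥(P : Subgroup G))))
      (H.closure_spec.2.2.1 t htP) (H.closure_spec.2.2.1 s hsP) fun x hx => by
        rcases hx with rfl | rfl | rfl
        exacts [hθ _ htP ht1, hθ _ hsP hs1, hθ _ (mul_mem htP hsP) hts1]
  -- transfer to all of `P`
  have hR : ∀ r ∈ W ⊔ (P : Subgroup G), ∀ w ∈ Wp, r * w * r⁻¹ ∈ Wp := by
    have hA : ∀ a ∈ (P : Subgroup G), ∀ w ∈ Wp, a * w * a⁻¹ ∈ Wp := by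
      intro a ha w hw
      by_cases ha1 : a = 1
      · subst ha1; simpa using hw
      obtain ⟨d, ⟨hdH, hdu⟩, hd⟩ := (S1225.result (bigSub P) H.bigSub_stronglyEmbedded u hu huH j a
        hj hjH (H.orderOf_two ha ha1) (sylow_le_bigSub ha)).1
      have hdp : d • p = p := by
        obtain ⟨v, hv, rfl⟩ := hdu
        show (u * v * u⁻¹) • p = p
        rw [hui, mul_smul, mul_smul, hup, H50.smul_one_coset_eq_iff.2 hv, hux]
      have hdp' : d⁻¹ • p = p := by conv_lhs => rw [← hdp]; rw [inv_smul_smul]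
      have key : ∀ d' ∈ bigSub P, d' • p = p → ∀ z ∈ Wp, d' * z * d'⁻¹ ∈ Wp := by
        intro d' hd' hd'p z hz
        refine Subgroup.mem_inf.2 ⟨(Subgroup.mem_normalizer_iff.1 (bigSub_le_normalizer hd') z).1 hz.1, ?_⟩
        show (d' * z * d'⁻¹) • p = p
        rw [mul_smul, mul_smul, show d'⁻¹ • p = p by conv_lhs => rw [← hd'p]; rw [inv_smul_smul],
          show z • p = p from hz.2, hd'p]
      rw [← hd, show d * j * d⁻¹ * w * (d * j * d⁻¹)⁻¹ =
        d * (j * (d⁻¹ * w * d) * j⁻¹) * d⁻¹ by group]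
      refine key d hdH hdp _ (hjN _ ?_)
      simpa using key d⁻¹ (inv_mem hdH) hdp' w hw
    intro r hr w hw
    have hr' : r ∈ ((W ⊔ (P : Subgroup G) : Subgroup G) : Set G) := hr
    rw [Subgroup.coe_mul_of_right_le_normalizer_left _ _
      (Subgroup.le_normalizer.trans (normalizer_le_normalizer_closure P))] at hr'
    obtain ⟨v, hv, b, hb, rfl⟩ := Set.mem_mul.1 hr'
    have h1 := hA b hb w hw
    rw [show v * b * w * (v * b)⁻¹ = v * (b * w * b⁻¹) * v⁻¹ by group,
      hcomm v hv _ h1.1, mul_inv_cancel_right]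
    exact h1
  obtain ⟨w, hw, hw1⟩ := (Subgroup.bot_or_exists_ne_one Wp).resolve_left hWpne
  refine hw1 ?_
  have hfix : ∀ x : G ⧸ bigSub P, w • x = x := by
    intro x
    by_cases hx : x = x0
    · subst hx; exact hWpH w hw
    have hx' : x ∈ MulAction.orbit ↥(W ⊔ (P : Subgroup G)) p := horb.symm ▸ hx
    obtain ⟨r, rfl⟩ := hx'
    have h1 := hR _ (inv_mem r.2) w hw
    rw [inv_inv] at h1
    show w • ((r : G) • p) = (r : G) • p
    conv_rhs => rw [← show ((r : G)⁻¹ * w * r) • p = p from h1.2]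
    rw [← mul_smul, ← mul_smul]
    congr 1
    group
  have h1 : w ∈ (bigSub P).normalCore := by
    intro b
    have h2 := hfix (b⁻¹ : G)
    rw [MulAction.Quotient.smul_coe, smul_eq_mul, QuotientGroup.eq] at h2
    have h3 := inv_mem h2
    simpa [mul_assoc] using h3
  rcases ((bigSub P).normalCore_normal).eq_bot_or_eq_top with h | h
  · rw [h, Subgroup.mem_bot] at h1; exact h1
  · exact absurd (top_le_iff.1 (h ▸ (bigSub P).normalCore_le)) H.bigSub_ne_top

/-- The closure of the cores is trivial. -/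
theorem Hyp.closure_eq_bot (H : Hyp P e) (he : e.Prime) (hM : Cfsg.IsPModular 2 M) :
    coreClosure P = ⊥ := by
  by_contra hW
  exact H.index_gt he hW (H.index_le he hM hW)

end Cfsg.Agent.H40.AbelTwo
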