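import Cfsg.Agent.H40.AbelTwo.Local
import Cfsg.Agent.S0205

/-!
# Perfect groups with commutative Sylow 2-subgroup and automiser of prime order are simple
-/

set_option autoImplicit false
set_option linter.unusedSectionVars false
set_option linter.style.haveILetI false

namespace Cfsg.Agent.H40.AbelTwo

open Cfsg Cfsg.Agent.H28.Ab

variable {G : Type*} [Group G] [Finite G]

theorem eq_top_of_isSolvable_quotient (hperf : commutator G = ⊤) (K : Subgroup G) [K.Normal]
    (hs : Group.IsSolvable (G ⧸ K)) : K = ⊤ := by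
  haveI := hs
  by_contra hne
  haveI : Nontrivial (G ⧸ K) := QuotientGroup.nontrivial_iff.2 hne
  apply (Group.IsSolvable.commutator_lt_top_of_nontrivial (G := G ⧸ K)).ne
  rw [commutator_def, ← Subgroup.map_top_of_surjective _ (QuotientGroup.mk'_surjective K),
    ← Subgroup.map_commutator, ← commutator_def, hperf]

theorem no_index_two_of_perfect (hperf : commutator G = ⊤) (H : Subgroup G) : H.index ≠ 2 := by
  intro hH
  haveI := Subgroup.normal_of_index_eq_two hH
  haveI : Fact (Nat.Prime 2) := ⟨Nat.prime_two⟩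
  haveI : IsCyclic (G ⧸ H) := isCyclic_of_prime_card (p := 2) hH
  letI := IsCyclic.commGroup (α := G ⧸ H)
  rw [eq_top_of_isSolvable_quotient hperf H inferInstance, Subgroup.index_top] at hH
  omega

theorem isSimpleGroup_of_perfect (hperf : commutator G = ⊤) (hO : pPrimeCore 2 G = ⊥)
    {A : Sylow 2 G} (hA : IsMulCommutative A) {e : ℕ} (he : e.Prime)
    (hidx : (Subgroup.centralizer ((A : Subgroup G) : Set G)).relIndex
      (Subgroup.normalizer ((A : Subgroup G) : Set G)) = e) : IsSimpleGroup G := by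
  haveI : Fact (Nat.Prime 2) := ⟨Nat.prime_two⟩
  set N := Subgroup.normalizer ((A : Subgroup G) : Set G)
  set C := Subgroup.centralizer ((A : Subgroup G) : Set G)
  have hno := no_index_two_of_perfect hperf
  have hctx := ctx_of_no_index_two hno hA he hidx
  obtain ⟨w, hw, hwC⟩ : ∃ w ∈ N, w ∉ C := by
    by_contra! hh
    exact he.one_lt.ne ((Subgroup.relIndex_eq_one.2 hh).symm.trans hidx)
  haveI : Nontrivial G := ⟨⟨w, 1, fun h => hwC (h ▸ one_mem C)⟩⟩
  refine ⟨fun K hK => ?_⟩
  haveI := hK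
  by_cases h : ∀ x ∈ K, (∀ s ∈ (A : Subgroup G) ⊓ K, x * s * x⁻¹ ∈ (A : Subgroup G)) →
      ∀ s ∈ (A : Subgroup G) ⊓ K, x * s * x⁻¹ = s
  · left
    have hKA := normal_le_sylow hO K h
    rw [Subgroup.eq_bot_iff_forall]
    intro k hk
    by_contra hk1
    haveI : (C.subgroupOf N).Normal := by
      show ((Subgroup.centralizer ((A : Subgroup G) : Set G)).subgroupOf _).Normal
      rw [← Subgroup.normalizerMonoidHom_ker]
      infer_instance
    have hcomm : ∀ u v : N, u * v * u⁻¹ * v⁻¹ ∈ C.subgroupOf N := by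
      intro u v
      haveI : Fact e.Prime := ⟨he⟩
      have hc : Nat.card (N ⧸ C.subgroupOf N) = e := hidx
      haveI : IsCyclic (N ⧸ C.subgroupOf N) := isCyclic_of_prime_card hc
      letI := IsCyclic.commGroup (α := N ⧸ C.subgroupOf N)
      refine (QuotientGroup.eq_one_iff _).1 ?_
      rw [QuotientGroup.mk_mul, QuotientGroup.mk_mul, QuotientGroup.mk_mul, QuotientGroup.mk_inv,
        QuotientGroup.mk_inv, mul_comm (u : N ⧸ C.subgroupOf N) (v : N ⧸ C.subgroupOf N)]
      simp
    let ψ : G →* MulAut K := MulAut.conjNormal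
    have hψ : ∀ x y : G, ψ x * ψ y = ψ y * ψ x := by
      intro x y
      obtain ⟨u, hu, hux⟩ := exists_fusion hA (S := (K : Set G)) hKA (x := x)
        fun s hs => hKA (hK.conj_mem s hs x)
      obtain ⟨v, hv, hvy⟩ := exists_fusion hA (S := (K : Set G)) hKA (x := y)
        fun s hs => hKA (hK.conj_mem s hs y)
      have e1 : ψ x = ψ u := MulEquiv.ext fun s => Subtype.ext (hux s s.2).symm
      have e2 : ψ y = ψ v := MulEquiv.ext fun s => Subtype.ext (hvy s s.2).symm
      have hmem : u * v * u⁻¹ * v⁻¹ ∈ C := hcomm ⟨u, hu⟩ ⟨v, hv⟩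
      have h3 : ψ (u * v * u⁻¹ * v⁻¹) = 1 := MulEquiv.ext fun s => Subtype.ext (by
        show u * v * u⁻¹ * v⁻¹ * (s : G) * (u * v * u⁻¹ * v⁻¹)⁻¹ = (s : G)
        rw [← Subgroup.mem_centralizer_iff.1 hmem s (hKA s.2), mul_inv_cancel_right])
      rw [map_mul, map_mul, map_mul, map_inv, map_inv, mul_inv_eq_one, mul_inv_eq_iff_eq_mul] at h3
      rw [e1, e2, h3]
    have hker : ψ.ker = ⊤ := by
      rw [eq_top_iff, ← hperf, commutator_def, Subgroup.commutator_le]
      intro x _ y _
      rw [MonoidHom.mem_ker, map_commutatorElement, commutatorElement_eq_one_iff_mul_comm]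
      exact hψ x y
    refine hwC ((hctx.free k (hKA hk) hk1).le ⟨?_, hw⟩)
    have h1 := congrArg (fun φ : MulAut K => ((φ ⟨k, hk⟩ : K) : G))
      (MonoidHom.mem_ker.1 (show w ∈ ψ.ker from hker ▸ Subgroup.mem_top w))
    exact Subgroup.mem_centralizer_singleton_iff.2 (mul_inv_eq_iff_eq_mul.1 h1)
  · right
    push_neg at h
    obtain ⟨x, hx, hxA, b, hb, hxb⟩ := h
    set J := (A : Subgroup G) ⊔ K
    have hAJ : (A : Subgroup G) ≤ J := le_sup_left
    have hAc : IsMulCommutative (A.subtype hAJ) :=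
      ⟨⟨fun u v => Subtype.ext (Subtype.ext (sylow_comm hA u.2 v.2))⟩⟩
    obtain ⟨m, hm, hms⟩ := exists_fusion hAc
      (S := {s : J | (s : G) ∈ (A : Subgroup G) ⊓ K})
      (fun s hs => hs.1) (x := ⟨x, Subgroup.mem_sup_right hx⟩) fun s hs => hxA s hs
    have hmN : (m : G) ∈ N := by
      have h1 : m ∈ (Subgroup.normalizer (((A : Subgroup G) ⊓ J : Subgroup G) : Set G)).subgroupOf J :=
        normalizer_subgroupOf_inf (A : Subgroup G) J ▸ hm
      rwa [inf_eq_left.2 hAJ] at h1
    obtain ⟨a, ha, k, hk, hak⟩ := Subgroup.mem_sup_of_normal_right.1 m.2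
    have hkN : k ∈ N := by
      have := N.mul_mem (N.inv_mem (Subgroup.le_normalizer ha)) hmN
      rwa [← hak, inv_mul_cancel_left] at this
    have hkb : k * b * k⁻¹ ≠ b := by
      intro e1
      apply hxb
      have h1 : (m : G) * b * (m : G)⁻¹ = x * b * x⁻¹ :=
        congrArg Subtype.val (hms ⟨b, hAJ hb.1⟩ hb)
      rw [← h1, ← hak]
      calc a * k * b * (a * k)⁻¹ = a * (k * b * k⁻¹) * a⁻¹ := by group
        _ = b := by rw [e1, sylow_comm hA ha hb.1, mul_inv_cancel_right]
    have hAK : (A : Subgroup G) ≤ K := by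
      have hfun : ∀ c : ↥(A : Subgroup G),
          k * (c : G) * k⁻¹ * (c : G)⁻¹ ∈ (A : Subgroup G) := fun c =>
        mul_mem ((Subgroup.mem_normalizer_iff.1 hkN _).1 c.2) (inv_mem c.2)
      let f : ↥(A : Subgroup G) → ↥(A : Subgroup G) := fun c => ⟨_, hfun c⟩
      have hinj : Function.Injective f := by
        intro c d e1
        have e2 : k * (c : G) * k⁻¹ * (c : G)⁻¹ = k * (d : G) * k⁻¹ * (d : G)⁻¹ :=
          congrArg Subtype.val e1
        by_contra hne
        have hy1 : (d : G)⁻¹ * c ≠ 1 := fun e3 => hne (Subtype.ext (inv_mul_eq_one.1 e3).symm)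
        apply hkb
        have hfix : k * ((d : G)⁻¹ * c) * k⁻¹ = (d : G)⁻¹ * c := by
          calc k * ((d : G)⁻¹ * c) * k⁻¹
              = (k * (d : G) * k⁻¹)⁻¹ * ((k * (c : G) * k⁻¹ * (c : G)⁻¹) * c) := by group
            _ = (d : G)⁻¹ * c := by rw [e2]; group
        have h4 := (hctx.free _ ((A : Subgroup G).mul_mem ((A : Subgroup G).inv_mem d.2) c.2) hy1).le
          ⟨Subgroup.mem_centralizer_singleton_iff.2 (mul_inv_eq_iff_eq_mul.1 hfix), hkN⟩
        rw [← Subgroup.mem_centralizer_iff.1 h4 b hb.1, mul_inv_cancel_right]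
      intro c hc
      obtain ⟨d, hd⟩ := (Finite.injective_iff_surjective.1 hinj) ⟨c, hc⟩
      rw [← show k * (d : G) * k⁻¹ * (d : G)⁻¹ = c from congrArg Subtype.val hd,
        show k * (d : G) * k⁻¹ * (d : G)⁻¹ = k * ((d : G) * k⁻¹ * (d : G)⁻¹) by group]
      exact K.mul_mem hk (hK.conj_mem _ (K.inv_mem hk) _)
    refine eq_top_of_isSolvable_quotient hperf K (S0205.result ?_)
    rw [← Subgroup.index_eq_card, ← Nat.not_even_iff_odd, even_iff_two_dvd]
    exact fun h2 => A.not_dvd_index (h2.trans (Subgroup.index_dvd_of_le hAK))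

end Cfsg.Agent.H40.AbelTwo
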