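import Cfsg.Agent.H28.IndexThree
import Cfsg.Agent.H50.AbelianSylowTwo
import Cfsg.Agent.H56.DihReflect

/-!
# Abelian Sylow 2-subgroups with automiser of prime order: basic facts
-/

set_option autoImplicit false
set_option linter.unusedSectionVars false

open scoped ComplexConjugate

namespace Cfsg.Agent.H40.AbelTwo

open Cfsg Cfsg.Agent.H28.Ab

variable {G : Type*} [Group G] [Finite G]

theorem le_centralizer_self {P : Sylow 2 G} (hP : IsMulCommutative P) :
    (P : Subgroup G) ≤ Subgroup.centralizer ((P : Subgroup G) : Set G) := fun x hx =>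
  Subgroup.mem_centralizer_iff.2 fun y hy =>
    congrArg Subtype.val (hP.is_comm.comm (⟨y, hy⟩ : ↥(P : Subgroup G)) ⟨x, hx⟩)

/-- The automiser of an abelian Sylow 2-subgroup has odd order. -/
theorem odd_automiser [Fact (Nat.Prime 2)] {P : Sylow 2 G} (hP : IsMulCommutative P) :
    Odd ((Subgroup.centralizer ((P : Subgroup G) : Set G)).relIndex
      (Subgroup.normalizer ((P : Subgroup G) : Set G))) := by
  refine Nat.not_even_iff_odd.1 fun h => P.not_dvd_index ?_
  exact (even_iff_two_dvd.1 h).trans ((Subgroup.relIndex_dvd_of_le_left _ (le_centralizer_self hP)).trans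
    (Subgroup.relIndex_dvd_index_of_le Subgroup.le_normalizer))

/-- An automiser of prime order is semiregular when `G` has no subgroup of index two. -/
theorem ctx_of_no_index_two [Fact (Nat.Prime 2)] (hG : ∀ H : Subgroup G, H.index ≠ 2)
    {P : Sylow 2 G} (hP : IsMulCommutative P) {e : ℕ} (he : e.Prime)
    (hidx : (Subgroup.centralizer ((P : Subgroup G) : Set G)).relIndex
      (Subgroup.normalizer ((P : Subgroup G) : Set G)) = e) : Ctx P e := by
  refine ⟨hP, hidx, fun y hy hy1 => ?_⟩
  set N := Subgroup.normalizer ((P : Subgroup G) : Set G)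
  set C := Subgroup.centralizer ((P : Subgroup G) : Set G)
  set D := Subgroup.centralizer ({y} : Set G) ⊓ N
  have hCD : C ≤ D := le_inf (Subgroup.centralizer_le (Set.singleton_subset_iff.2 hy))
    (Subgroup.centralizer_le_normalizer _)
  refine (le_antisymm ?_ hCD)
  have hmul := Subgroup.relIndex_mul_relIndex C D N hCD inf_le_right
  rw [hidx] at hmul
  rcases he.eq_one_or_self_of_dvd _ (hmul ▸ dvd_mul_right (C.relIndex D) (D.relIndex N)) with h | h
  · exact Subgroup.relIndex_eq_one.1 h
  · exfalso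
    have h1 : D.relIndex N = 1 := by
      rw [h] at hmul
      exact Nat.eq_of_mul_eq_mul_left he.pos (hmul.trans (mul_one e).symm)
    have hND : N ≤ D := Subgroup.relIndex_eq_one.1 h1
    refine hy1 (H50.abelian_sylow_fixed_trivial hG P hP hy fun n hn => ?_)
    exact Subgroup.mem_centralizer_singleton_iff.1 (hND hn).1

variable {P : Sylow 2 G} {e : ℕ} {M : Ideal Cfsg.AlgInt}

theorem exists_index_centralizer [Fact (Nat.Prime 2)] (h : Ctx P e) :
    e ∣ Nat.card P - 1 := by
  classical
  haveI := Fintype.ofFinite ↥(P : Subgroup G)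
  set S := Finset.univ.filter (fun z : ↥(P : Subgroup G) => z ≠ 1)
  have hcard : S.card = Nat.card P - 1 := by
    rw [show S = Finset.univ.erase 1 by ext; simp [S], Finset.card_erase_of_mem (Finset.mem_univ _),
      Finset.card_univ, Nat.card_eq_fintype_card]
  rw [← hcard, Finset.card_eq_sum_card_image (fun z : ↥(P : Subgroup G) => ConjClasses.mk (z : G))]
  refine Finset.dvd_sum fun c hc => ?_
  obtain ⟨z, hz, rfl⟩ := Finset.mem_image.1 hc
  have hz1 := (Finset.mem_filter.1 hz).2
  rw [← h.card_conj hz1, Nat.card_eq_fintype_card, Fintype.card_subtype]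
  refine dvd_of_eq (congrArg Finset.card ?_)
  ext w
  simp only [Finset.mem_filter, Finset.mem_univ, true_and, S, ConjClasses.mk_eq_mk_iff_isConj]
  refine ⟨fun hw => ⟨fun e1 => hz1 ?_, hw.symm⟩, fun hw => hw.2.symm⟩
  subst e1
  exact Subtype.ext (by simpa using hw)

/-- With an automiser of odd order only involutions are real. -/
theorem mul_self_eq_one_of_real [Fact (Nat.Prime 2)] (h : Ctx P e) (hodd : Odd e)
    {y : ↥(P : Subgroup G)} (hy : IsConj (y : G) (y : G)⁻¹) : y * y = 1 := by
  by_contra hne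
  obtain ⟨c, hc⟩ := isConj_iff.1 hy
  obtain ⟨n, hn, hnc⟩ := H22.abelian_sylow_controls P h.comm (y : G) y.2 c
    (hc ▸ (P : Subgroup G).inv_mem y.2)
  rw [hc] at hnc
  have hy' : (y : G) ≠ 1 := fun e => hne (Subtype.ext (by simp [e]))
  set N := Subgroup.normalizer ((P : Subgroup G) : Set G) with hN
  set C := Subgroup.centralizer ((P : Subgroup G) : Set G) with hC
  have h2 : n * n ∈ C := by
    refine (h.free _ y.2 hy').le (Subgroup.mem_inf.2 ⟨?_, mul_mem hn hn⟩)
    rw [Subgroup.mem_centralizer_singleton_iff]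
    have hinv : n * (y : G)⁻¹ * n⁻¹ = y := by
      conv_rhs => rw [← inv_inv (y : G), ← hnc]
      group
    calc n * n * y = n * (n * y * n⁻¹) * n := by group
      _ = n * (y : G)⁻¹ * n := by rw [hnc]
      _ = (n * (y : G)⁻¹ * n⁻¹) * (n * n) := by group
      _ = y * (n * n) := by rw [hinv]
  haveI : (C.subgroupOf N).Normal := by
    rw [hC, hN, ← Subgroup.normalizerMonoidHom_ker]
    infer_instance
  have h3 : n ^ e ∈ C := by
    have : (⟨n, hn⟩ : N) ^ (C.subgroupOf N).index ∈ C.subgroupOf N := Subgroup.pow_index_mem _ _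
    rw [show (C.subgroupOf N).index = e from h.index] at this
    simpa [Subgroup.mem_subgroupOf] using this
  obtain ⟨k, hk⟩ := hodd
  have hnC : n ∈ C := by
    have := mul_mem (inv_mem (pow_mem h2 k)) h3
    rwa [hk, ← sq, ← pow_mul, pow_succ, inv_mul_cancel_left] at this
  have e1 := Subgroup.mem_centralizer_iff.1 hnC _ y.2
  rw [← e1, mul_inv_cancel_right] at hnc
  exact hne (Subtype.ext (by rw [Subgroup.coe_mul, OneMemClass.coe_one]; exact mul_eq_one_iff_eq_inv.2 hnc))

open scoped Classical in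
/-- Pairs from two classes with product in a section, counted by the principal block. -/
theorem pair_sum [Fintype G] [Fact (Nat.Prime 2)] (h : Ctx P e) (hM : Cfsg.IsPModular 2 M)
    (t t' : G) {y : ↥(P : Subgroup G)} (hy : y ≠ 1) :
    (Nat.card P : ℂ) * ∑ g ∈ section' 2 (y : G), (H42.pairCount t t' g : ℂ) =
      ((Subgroup.centralizer ({t} : Set G)).index : ℂ) *
        ((Subgroup.centralizer ({t'} : Set G)).index : ℂ) *
        ∑ χ ∈ Finset.univ.filter (· ∈ Cfsg.principalBlock M G),
          conj (χ.1 t) * conj (χ.1 t') * χ.1 (y : G) / χ.1 1 := by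
  have hG : (Nat.card G : ℂ) ≠ 0 := Nat.cast_ne_zero.2 Nat.card_pos.ne'
  have hS := h.card_section y.2 fun e => hy (Subtype.ext e)
  simp only [H42.pairCount_formula, ← Finset.mul_sum]
  rw [Finset.sum_comm]
  simp only [mul_div_assoc, ← Finset.mul_sum, ← Finset.sum_div]
  rw [← Finset.sum_filter_add_sum_filter_not Finset.univ (· ∈ Cfsg.principalBlock M G),
    Finset.sum_eq_zero (s := Finset.univ.filter (fun χ => ¬ χ ∈ Cfsg.principalBlock M G))
      fun χ hχ => by
        rw [h.sum_section_eq_zero hM (Finset.mem_filter.1 hχ).2 hy]; simp,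
    add_zero]
  rw [Finset.mul_sum, Finset.mul_sum, Finset.mul_sum]
  refine Finset.sum_congr rfl fun χ hχ => ?_
  rw [Finset.sum_congr rfl fun g hg => (by
      obtain ⟨x, hx, hxy⟩ := mem_section'.1 hg
      exact h.block_value hM (Finset.mem_filter.1 hχ).2 hy hx hxy :
        χ.1 g = χ.1 (y : G)), Finset.sum_const, nsmul_eq_mul]
  have hcast : ((section' 2 (y : G)).card : ℂ) * (Nat.card P : ℂ) = (Nat.card G : ℂ) := by
    rw [← Nat.cast_mul, hS]
  rw [← hcast] at hG ⊢
  simp only [div_eq_mul_inv, mul_inv]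
  have h1 : ((section' 2 (y : G)).card : ℂ) ≠ 0 := left_ne_zero_of_mul hG
  have h2 : (Nat.card P : ℂ) ≠ 0 := right_ne_zero_of_mul hG
  linear_combination ((Subgroup.centralizer ({t} : Set G)).index * (Subgroup.centralizer ({t'} : Set G)).index * conj (χ.1 t) * conj (χ.1 t') * χ.1 (y : G) * (χ.1 1)⁻¹ * ((section' 2 (y : G)).card : ℂ) * ((section' 2 (y : G)).card : ℂ)⁻¹) * (mul_inv_cancel₀ h2) +
    ((Subgroup.centralizer ({t} : Set G)).index * (Subgroup.centralizer ({t'} : Set G)).index * conj (χ.1 t) * conj (χ.1 t') * χ.1 (y : G) * (χ.1 1)⁻¹) * (mul_inv_cancel₀ h1)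

/-- The restriction to `P` of a function with one value off `1` gives a congruence. -/
theorem degree_congr [Fact (Nat.Prime 2)] {χ : Cfsg.IrrCharacter G} {a : ℤ}
    (hval : ∀ y : ↥(P : Subgroup G), y ≠ 1 → χ.1 (y : G) = (a : ℂ)) :
    ∃ k : ℕ, (Cfsg.charDegree χ.1 : ℤ) + ((Nat.card P : ℤ) - 1) * a = (Nat.card P : ℤ) * k := by
  classical
  haveI := Fintype.ofFinite ↥(P : Subgroup G)
  obtain ⟨k, hk⟩ := H26.exists_nat_classInner_irr
    (H26.isCharacter_comp (H26.irr_isCharacter χ) (P : Subgroup G).subtype) (H26.oneIrr _)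
  refine ⟨k, Int.cast_injective (α := ℂ) ?_⟩
  rw [Cfsg.classInner, inv_mul_eq_iff_eq_mul₀ (Nat.cast_ne_zero.2 Nat.card_pos.ne')] at hk
  simp only [H26.oneIrr_val, map_one, mul_one, Function.comp_apply, Subgroup.coe_subtype] at hk
  rw [← Finset.add_sum_erase _ _ (Finset.mem_univ (1 : ↥(P : Subgroup G))),
    Finset.sum_congr rfl fun y hy => hval y (Finset.mem_erase.1 hy).1, Finset.sum_const,
    Finset.card_erase_of_mem (Finset.mem_univ _), Finset.card_univ, ← Nat.card_eq_fintype_card,
    nsmul_eq_mul, Nat.cast_sub Nat.card_pos, OneMemClass.coe_one, H42.irr_one_eq, Nat.cast_one] at hk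
  push_cast
  linear_combination hk

end Cfsg.Agent.H40.AbelTwo
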