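import Cfsg.Agent.H40.AbelTwo.Setup
import Cfsg.Agent.H50.StronglyEmbedded
import Cfsg.Agent.H51.ConstrainedCores
import Cfsg.Agent.H35.SigFunTwo
import Cfsg.Agent.S1279
import Cfsg.Agent.S0205

/-!
# The subgroup generated by the cores of the involution centralisers
-/

set_option autoImplicit false
set_option linter.unusedSectionVars false

namespace Cfsg.Agent.H40.AbelTwo

open Cfsg Cfsg.Agent.H28.Ab

variable {G : Type*} [Group G] [Finite G] {P : Sylow 2 G} {e : ℕ} [Fact (Nat.Prime 2)]

/-- The signalizer functor of the cores. -/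
noncomputable abbrev theta (a : G) : Subgroup G := Cfsg.centralizerPPrimeCore 2 a

/-- The closure of the cores. -/
noncomputable abbrev coreClosure (P : Sylow 2 G) : Subgroup G :=
  Cfsg.signalizerClosure (P : Subgroup G) (theta (G := G))

/-- The candidate for a strongly embedded subgroup. -/
noncomputable abbrev bigSub (P : Sylow 2 G) : Subgroup G :=
  coreClosure P ⊔ Subgroup.normalizer ((P : Subgroup G) : Set G)

/-- Standing assumptions on a simple group. -/
structure Hyp (P : Sylow 2 G) (e : ℕ) : Prop where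
  ctx : Ctx P e
  exp2 : ∀ y : ↥(P : Subgroup G), y * y = 1
  eight : 8 ≤ Nat.card P
  simple : IsSimpleGroup G
  one_lt : 1 < e

theorem Hyp.sq_eq_one (H : Hyp P e) {a : G} (ha : a ∈ (P : Subgroup G)) : a * a = 1 :=
  congrArg Subtype.val (H.exp2 ⟨a, ha⟩)

theorem Hyp.orderOf_two (H : Hyp P e) {a : G} (ha : a ∈ (P : Subgroup G)) (ha1 : a ≠ 1) :
    orderOf a = 2 := by
  rw [orderOf_eq_prime_iff, sq]
  exact ⟨H.sq_eq_one ha, ha1⟩

theorem Hyp.le_centralizer (H : Hyp P e) {a : G} (ha : a ∈ (P : Subgroup G)) :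
    (P : Subgroup G) ≤ Subgroup.centralizer ({a} : Set G) := fun x hx =>
  Subgroup.mem_centralizer_singleton_iff.2
    (congrArg Subtype.val (H.ctx.comm.is_comm.comm ⟨x, hx⟩ (⟨a, ha⟩ : ↥(P : Subgroup G))))

theorem theta_le (a : G) : theta a ≤ Subgroup.centralizer ({a} : Set G) := Subgroup.map_subtype_le _

theorem theta_odd (a : G) : ¬ 2 ∣ Nat.card (theta a) := by
  intro h
  have hc := H19.pPrimeCore_coprime (G := ↥(Subgroup.centralizer ({a} : Set G))) 2
  exact Nat.prime_two.coprime_iff_not_dvd.1 hc.symm (h.trans (dvd_of_eq (Nat.card_congr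
    (Subgroup.equivMapOfInjective _ _ (Subgroup.subtype_injective _)).toEquiv.symm)))

/-- Conjugation carries cores to cores. -/
theorem conj_mem_theta {a n x : G} (hx : x ∈ theta a) : n * x * n⁻¹ ∈ theta (n * a * n⁻¹) := by
  rw [show theta (n * a * n⁻¹) = (theta a).map (MulAut.conj n).toMonoidHom from
    (H51.centralizerPPrimeCore_map_aut 2 (MulAut.conj n) a).symm]
  exact ⟨x, hx, rfl⟩

theorem card_theta_conj (n a : G) : Nat.card (theta (n * a * n⁻¹)) = Nat.card (theta a) := by
  rw [show theta (n * a * n⁻¹) = (theta a).map (MulAut.conj n).toMonoidHom from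
    (H51.centralizerPPrimeCore_map_aut 2 (MulAut.conj n) a).symm]
  exact Subgroup.card_map_of_injective (MulAut.conj n).injective

/-- The centraliser of an involution of `P` is the product of its core and `P`. -/
theorem Hyp.exists_decomp (H : Hyp P e) {a : G} (ha : a ∈ (P : Subgroup G)) (ha1 : a ≠ 1) {g : G}
    (hg : g ∈ Subgroup.centralizer ({a} : Set G)) :
    ∃ x ∈ theta a, ∃ b ∈ (P : Subgroup G), x * b = g := by
  obtain ⟨O, hOn, hOp, hOi⟩ := H.ctx.exists_complement ha ha1
  have hPC := H.le_centralizer ha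
  have hcard : Nat.card ((P : Subgroup G).subgroupOf (Subgroup.centralizer ({a} : Set G))) = Nat.card P :=
    Nat.card_congr (Subgroup.subgroupOfEquivOfLe hPC).toEquiv
  have hcompl : Subgroup.IsComplement' O ((P : Subgroup G).subgroupOf (Subgroup.centralizer ({a} : Set G))) := by
    refine Subgroup.isComplement'_of_coprime (by rw [hcard, ← hOi]; exact O.card_mul_index) ?_
    obtain ⟨k, hk⟩ := IsPGroup.iff_card.1 P.2
    rw [hcard, hk]
    exact ((Nat.prime_two.coprime_iff_not_dvd.2 hOp).symm).pow_right k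
  obtain ⟨⟨⟨x, hx⟩, ⟨b, hb⟩⟩, hxb⟩ := hcompl.surjective ⟨g, hg⟩
  exact ⟨x, ⟨x, H19.le_pPrimeCore hOn (Nat.prime_two.coprime_iff_not_dvd.2 hOp).symm hx, rfl⟩,
    b, hb, congrArg Subtype.val hxb⟩

/-- The centraliser of an involution of `P` has order `|θ(a)| * |P|`. -/
theorem Hyp.card_centralizer (H : Hyp P e) {a : G} (ha : a ∈ (P : Subgroup G)) (ha1 : a ≠ 1) :
    Nat.card (Subgroup.centralizer ({a} : Set G)) = Nat.card (theta a) * Nat.card P := by
  rw [← Nat.card_prod]
  symm
  refine Nat.card_eq_of_bijective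
    (fun v : theta a × ↥(P : Subgroup G) => (⟨(v.1 : G) * v.2,
      mul_mem (theta_le a v.1.2) (H.le_centralizer ha v.2.2)⟩ :
        Subgroup.centralizer ({a} : Set G))) ⟨?_, fun g => ?_⟩
  · intro v w hvw
    have hdis : Disjoint (theta a) (P : Subgroup G) := by
      rw [disjoint_iff]
      refine Subgroup.inf_eq_bot_of_coprime ?_
      obtain ⟨k, hk⟩ := IsPGroup.iff_card.1 P.2
      rw [show Nat.card P = Nat.card (P : Subgroup G) from rfl] at hk
      rw [hk]
      exact ((Nat.prime_two.coprime_iff_not_dvd.2 (theta_odd a)).symm).pow_right k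
    exact Subgroup.mul_injective_of_disjoint hdis (congrArg Subtype.val hvw)
  · obtain ⟨x, hx, b, hb, e⟩ := H.exists_decomp ha ha1 g.2
    exact ⟨(⟨x, hx⟩, ⟨b, hb⟩), Subtype.ext e⟩

theorem Hyp.isSolvable_centralizer (H : Hyp P e) {a : G} (ha : a ∈ (P : Subgroup G))
    (ha1 : a ≠ 1) : Group.IsSolvable (Subgroup.centralizer ({a} : Set G)) := by
  obtain ⟨O, hOn, hOp, hOi⟩ := H.ctx.exists_complement ha ha1
  haveI : Group.IsSolvable O := S0205.result (G := ↥O) (Nat.not_even_iff_odd.1 fun h =>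
    hOp (even_iff_two_dvd.1 h))
  haveI : Group.IsSolvable (↥(Subgroup.centralizer ({a} : Set G)) ⧸ O) := by
    obtain ⟨k, hk⟩ := IsPGroup.iff_card.1 P.2
    haveI : Group.IsNilpotent (↥(Subgroup.centralizer ({a} : Set G)) ⧸ O) :=
      IsPGroup.isNilpotent (p := 2) (IsPGroup.of_card (n := k) (by rw [← hk, ← hOi]; rfl))
    infer_instance
  exact Group.isSolvable_of_ker_le_range O.subtype (QuotientGroup.mk' O) (by simp)

theorem Hyp.elem (H : Hyp P e) : Cfsg.IsElementaryAbelian 2 (P : Subgroup G) :=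
  ⟨H.ctx.comm, fun a ha => by rw [sq]; exact H.sq_eq_one ha⟩

theorem Hyp.functor (H : Hyp P e) :
    Cfsg.IsSolvableSignalizerFunctor 2 (P : Subgroup G) (theta (G := G)) :=
  S1279.result 2 (P : Subgroup G) H.elem (le_trans (by norm_num) H.eight)
    fun _ ha ha1 => H.isSolvable_centralizer ha ha1

theorem Hyp.closure_spec (H : Hyp P e) :
    Group.IsSolvable (coreClosure P) ∧ ¬ 2 ∣ Nat.card (coreClosure P) ∧
      (∀ b ∈ (P : Subgroup G), ∀ u ∈ coreClosure P, b * u * b⁻¹ ∈ coreClosure P) ∧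
      ∀ a ∈ (P : Subgroup G), a ≠ 1 →
        coreClosure P ⊓ Subgroup.centralizer ({a} : Set G) = theta a := by
  obtain ⟨⟨h1, h2, h3, -⟩, h4, -⟩ :=
    H35.SigFun.solvable_signalizer_functor_two H.elem (le_trans (by norm_num) H.eight) H.functor
  exact ⟨h1, h2, h3, h4⟩

theorem Hyp.closure_inf_sylow (H : Hyp P e) {x : G} (hx : x ∈ coreClosure P)
    (hxP : x ∈ (P : Subgroup G)) : x = 1 := by
  by_contra hne
  refine H.closure_spec.2.1 ?_
  rw [← H.orderOf_two hxP hne, ← Subgroup.orderOf_mk x hx]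
  exact orderOf_dvd_natCard _

/-- Equivariance of the closure. -/
theorem normalizer_le_normalizer_closure (P : Sylow 2 G) :
    Subgroup.normalizer ((P : Subgroup G) : Set G) ≤
      Subgroup.normalizer (coreClosure P : Set G) := by
  have key : ∀ n ∈ Subgroup.normalizer ((P : Subgroup G) : Set G),
      ∀ u ∈ coreClosure P, n * u * n⁻¹ ∈ coreClosure P := by
    intro n hn
    have : coreClosure P ≤ (coreClosure P).comap (MulAut.conj n).toMonoidHom := by
      refine iSup_le fun a => fun x hx => ?_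
      refine le_iSup (fun a : {a : G // a ∈ (P : Subgroup G) ∧ a ≠ 1} => theta (a : G))
        ⟨n * (a : G) * n⁻¹, (Subgroup.mem_normalizer_iff.1 hn _).1 a.2.1,
          fun e => a.2.2 (conj_eq_one_iff.1 e)⟩ (conj_mem_theta hx)
    exact fun u hu => this hu
  intro n hn
  rw [Subgroup.mem_normalizer_iff]
  refine fun u => ⟨key n hn u, fun hu => ?_⟩
  have := key n⁻¹ (inv_mem hn) _ hu
  simpa [mul_assoc] using this

theorem mem_bigSub_iff {g : G} : g ∈ bigSub P ↔
    ∃ w ∈ coreClosure P, ∃ n ∈ Subgroup.normalizer ((P : Subgroup G) : Set G), w * n = g := by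
  show g ∈ ((coreClosure P ⊔ Subgroup.normalizer ((P : Subgroup G) : Set G) : Subgroup G) : Set G) ↔ _
  rw [Subgroup.coe_mul_of_right_le_normalizer_left _ _ (normalizer_le_normalizer_closure P),
    Set.mem_mul]
  rfl

theorem bigSub_le_normalizer : bigSub P ≤ Subgroup.normalizer (coreClosure P : Set G) :=
  sup_le Subgroup.le_normalizer (normalizer_le_normalizer_closure P)

theorem sylow_le_bigSub : (P : Subgroup G) ≤ bigSub P :=
  Subgroup.le_normalizer.trans le_sup_right

theorem Hyp.two_dvd (H : Hyp P e) : 2 ∣ Nat.card G := by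
  obtain ⟨k, hk⟩ := IsPGroup.iff_card.1 P.2
  have h8 := H.eight
  rcases k with _ | k
  · rw [pow_zero] at hk; omega
  · exact (hk ▸ dvd_pow_self 2 (Nat.succ_ne_zero k)).trans (Subgroup.card_subgroup_dvd_card _)

theorem Hyp.not_normal_sylow (H : Hyp P e) :
    Subgroup.normalizer ((P : Subgroup G) : Set G) ≠ ⊤ := by
  intro hN
  haveI := H.simple
  have hn : (P : Subgroup G).Normal := Subgroup.normalizer_eq_top_iff.1 hN
  rcases hn.eq_bot_or_eq_top with h | h
  · have h8 := H.eight
    rw [show Nat.card P = Nat.card (P : Subgroup G) from rfl, h, Subgroup.card_bot] at h8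
    omega
  · have hodd := odd_automiser H.ctx.comm
    have hC : Subgroup.centralizer ((P : Subgroup G) : Set G) = ⊤ :=
      top_le_iff.1 (h ▸ le_centralizer_self H.ctx.comm)
    have := H.ctx.index
    rw [hC, Subgroup.relIndex_top_left] at this
    have := H.one_lt
    omega

theorem Hyp.normalizer_ne_top (H : Hyp P e) (hW : coreClosure P ≠ ⊥) :
    Subgroup.normalizer (coreClosure P : Set G) ≠ ⊤ := by
  intro hN
  haveI := H.simple
  rcases (Subgroup.normalizer_eq_top_iff.1 hN).eq_bot_or_eq_top with h | h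
  · exact hW h
  · exact H.closure_spec.2.1 (by rw [h, Subgroup.card_top]; exact H.two_dvd)

theorem Hyp.bigSub_ne_top (H : Hyp P e) : bigSub P ≠ ⊤ := by
  by_cases hW : coreClosure P = ⊥
  · rw [bigSub, hW, bot_sup_eq]
    exact H.not_normal_sylow
  · exact fun h => H.normalizer_ne_top hW (top_le_iff.1 (h ▸ bigSub_le_normalizer))

theorem Hyp.centralizer_le_bigSub (H : Hyp P e) {a : G} (ha : a ∈ (P : Subgroup G))
    (ha1 : a ≠ 1) : Subgroup.centralizer ({a} : Set G) ≤ bigSub P := by
  intro g hg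
  obtain ⟨x, hx, b, hb, rfl⟩ := H.exists_decomp ha ha1 hg
  refine mul_mem ((le_sup_left : coreClosure P ≤ bigSub P) ?_) (sylow_le_bigSub hb)
  exact le_iSup (fun a : {a : G // a ∈ (P : Subgroup G) ∧ a ≠ 1} => theta (a : G)) ⟨a, ha, ha1⟩ hx

/-- In a subgroup containing `P` every involution is conjugate into `P`. -/
theorem exists_conj_mem_sylow {K : Subgroup G} (hK : (P : Subgroup G) ≤ K) {t : G} (ht : t ∈ K)
    (ht2 : orderOf t = 2) : ∃ k ∈ K, k * t * k⁻¹ ∈ (P : Subgroup G) := by
  have hp : IsPGroup 2 (Subgroup.zpowers (⟨t, ht⟩ : K)) :=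
    IsPGroup.of_card (n := 1) (by rw [Nat.card_zpowers, Subgroup.orderOf_mk, ht2, pow_one])
  obtain ⟨S, hS⟩ := hp.exists_le_sylow
  obtain ⟨k, hk⟩ := MulAction.exists_smul_eq K S (P.subtype hK)
  refine ⟨k, k.2, ?_⟩
  have h1 := H22.conj_mem_smul_sylow (g := k) (hS (Subgroup.mem_zpowers _))
  rw [hk] at h1
  exact h1

/-- A proper overgroup of `bigSub P` is strongly embedded. -/
theorem Hyp.stronglyEmbedded_of_le (H : Hyp P e) {K : Subgroup G} (hK : bigSub P ≤ K)
    (hne : K ≠ ⊤) : Cfsg.IsStronglyEmbedded K := by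
  have hPK := sylow_le_bigSub.trans hK
  have heven : Even (Nat.card K) := by
    obtain ⟨k, hk⟩ := IsPGroup.iff_card.1 P.2
    have h8 := H.eight
    rcases k with _ | k
    · rw [pow_zero] at hk; omega
    · exact even_iff_two_dvd.2 ((hk ▸ dvd_pow_self 2 (Nat.succ_ne_zero k)).trans
        (Subgroup.card_dvd_of_le hPK))
  rw [H28.isStronglyEmbedded_iff_centralizer_fusion hne heven]
  refine ⟨fun t ht ht2 => ?_, fun t ht s hs ht2 hs2 hts => ?_⟩
  · obtain ⟨k, hk, hkP⟩ := exists_conj_mem_sylow hPK ht ht2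
    intro c hc
    have h1 : k * c * k⁻¹ ∈ Subgroup.centralizer ({k * t * k⁻¹} : Set G) := by
      rw [Subgroup.mem_centralizer_singleton_iff]
      exact ((Commute.conj_iff k).2 (Subgroup.mem_centralizer_singleton_iff.1 hc)).eq
    have h2 := hK (H.centralizer_le_bigSub hkP (fun e1 => by
      rw [conj_eq_one_iff.1 e1, orderOf_one] at ht2; omega) h1)
    simpa [mul_assoc] using mul_mem (mul_mem (inv_mem hk) h2) hk
  · obtain ⟨k, hk, hkP⟩ := exists_conj_mem_sylow hPK ht ht2
    obtain ⟨k', hk', hk'P⟩ := exists_conj_mem_sylow hPK hs hs2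
    obtain ⟨c, hc⟩ := isConj_iff.1 hts
    obtain ⟨n, hn, hnc⟩ := H22.abelian_sylow_controls P H.ctx.comm _ hkP (k' * c * k⁻¹) (by
      have : k' * c * k⁻¹ * (k * t * k⁻¹) * (k' * c * k⁻¹)⁻¹ = k' * (c * t * c⁻¹) * k'⁻¹ := by group
      rw [this, hc]; exact hk'P)
    refine ⟨k'⁻¹ * n * k, mul_mem (mul_mem (inv_mem hk') (hK (le_sup_right (a := coreClosure P) hn))) hk, ?_⟩
    have e1 : k'⁻¹ * n * k * t * (k'⁻¹ * n * k)⁻¹ = k'⁻¹ * (n * (k * t * k⁻¹) * n⁻¹) * k' := by group
    rw [e1, hnc, ← hc]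
    group

theorem Hyp.bigSub_stronglyEmbedded (H : Hyp P e) : Cfsg.IsStronglyEmbedded (bigSub P) :=
  H.stronglyEmbedded_of_le le_rfl H.bigSub_ne_top

theorem Hyp.one_class (H : Hyp P e) {a b : G} (ha : orderOf a = 2) (hb : orderOf b = 2) :
    IsConj a b :=
  H50.se_isConj H.bigSub_stronglyEmbedded ha hb

/-- The automiser is transitive on the involutions of `P`. -/
theorem Hyp.e_eq (H : Hyp P e) : e + 1 = Nat.card P := by
  classical
  haveI := Fintype.ofFinite ↥(P : Subgroup G)
  obtain ⟨t, ht⟩ : ∃ t : ↥(P : Subgroup G), t ≠ 1 :=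
    haveI : Nontrivial ↥(P : Subgroup G) := Finite.one_lt_card_iff_nontrivial.1
      (show 1 < Nat.card P by have := H.eight; omega)
    exists_ne 1
  have hc := H.ctx.card_conj ht
  have ht' : (t : G) ≠ 1 := fun e1 => ht (Subtype.ext e1)
  rw [Nat.card_eq_fintype_card, Fintype.card_subtype,
    show (Finset.univ.filter fun z : ↥(P : Subgroup G) => IsConj (t : G) (z : G)) =
      Finset.univ.erase 1 from ?_, Finset.card_erase_of_mem (Finset.mem_univ _),
    Finset.card_univ, ← Nat.card_eq_fintype_card] at hc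
  · have := H.eight
    change Nat.card ↥(P : Subgroup G) - 1 = e at hc
    have : 8 ≤ Nat.card ↥(P : Subgroup G) := H.eight
    omega
  · ext z
    simp only [Finset.mem_filter, Finset.mem_univ, true_and, Finset.mem_erase, and_true]
    refine ⟨fun hz e1 => ?_, fun hz =>
      H.one_class (H.orderOf_two t.2 ht') (H.orderOf_two z.2 fun e1 => hz (Subtype.ext e1))⟩
    subst e1
    exact ht' (by simpa using hz)

theorem Hyp.mul_mem_closure (H : Hyp P e) {w a : G} (hw : w ∈ coreClosure P)
    (ha : a ∈ (P : Subgroup G)) : a * w * a⁻¹ * w⁻¹ ∈ coreClosure P :=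
  mul_mem (H.closure_spec.2.2.1 a ha w hw) (inv_mem hw)

/-- The involutions of `bigSub P` are the closure conjugates of the involutions of `P`. -/
theorem Hyp.exists_conj_of_involution (H : Hyp P e) {j : G} (hj : j ∈ bigSub P)
    (hj2 : orderOf j = 2) :
    ∃ w ∈ coreClosure P, ∃ a ∈ (P : Subgroup G), a ≠ 1 ∧ w * a * w⁻¹ = j := by
  obtain ⟨k, hk, hkP⟩ := exists_conj_mem_sylow sylow_le_bigSub hj hj2
  obtain ⟨w, hw, n, hn, hwn⟩ := mem_bigSub_iff.1 (inv_mem hk)
  refine ⟨w, hw, n * (k * j * k⁻¹) * n⁻¹, (Subgroup.mem_normalizer_iff.1 hn _).1 hkP, fun e1 => ?_, ?_⟩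
  · rw [conj_eq_one_iff.1 (conj_eq_one_iff.1 e1), orderOf_one] at hj2
    omega
  · rw [show w * (n * (k * j * k⁻¹) * n⁻¹) * w⁻¹ = (w * n) * (k * j * k⁻¹) * (w * n)⁻¹ by group,
      hwn]
    group

theorem Hyp.closure_inf_normalizer (H : Hyp P e) {x : G} (hx : x ∈ coreClosure P)
    (hxN : x ∈ Subgroup.normalizer ((P : Subgroup G) : Set G)) :
    x ∈ Subgroup.centralizer ((P : Subgroup G) : Set G) := by
  rw [Subgroup.mem_centralizer_iff]
  intro a ha
  have h1 : a * x * a⁻¹ * x⁻¹ ∈ (P : Subgroup G) := by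
    rw [show a * x * a⁻¹ * x⁻¹ = a * (x * a⁻¹ * x⁻¹) by group]
    exact mul_mem ha ((Subgroup.mem_normalizer_iff.1 hxN _).1 (inv_mem ha))
  have h2 := H.closure_inf_sylow (H.mul_mem_closure hx ha) h1
  calc a * x = (a * x * a⁻¹ * x⁻¹) * (x * a) := by group
    _ = x * a := by rw [h2, one_mul]

/-- The index of the closure in `bigSub P`. -/
theorem Hyp.relIndex_closure (H : Hyp P e) :
    (coreClosure P).relIndex (bigSub P) = Nat.card P * e := by
  classical
  set W := coreClosure P
  set N := Subgroup.normalizer ((P : Subgroup G) : Set G)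
  set C := Subgroup.centralizer ((P : Subgroup G) : Set G)
  have hCN : C ≤ N := Subgroup.centralizer_le_normalizer _
  have h1 : W.relIndex (bigSub P) = W.relIndex N := by
    have hWn : (W.subgroupOf (bigSub P)).Normal :=
      Subgroup.normal_subgroupOf_of_le_normalizer bigSub_le_normalizer
    have h := Subgroup.relIndex_sup_right (H := N.subgroupOf (bigSub P))
      (K := W.subgroupOf (bigSub P))
    rw [← Subgroup.subgroupOf_sup le_sup_right le_sup_left, sup_comm N W, Subgroup.subgroupOf_self,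
      Subgroup.relIndex_top_right] at h
    rw [Subgroup.relIndex_subgroupOf (le_sup_right : N ≤ bigSub P)] at h
    exact h
  have h2 : W.relIndex N = (W ⊓ N).relIndex C * e := by
    rw [← Subgroup.inf_relIndex_right, ← H.ctx.index]
    exact (Subgroup.relIndex_mul_relIndex (W ⊓ N) C N
      (fun x hx => H.closure_inf_normalizer hx.1 hx.2) hCN).symm
  have h3 : (W ⊓ N).relIndex C = Nat.card P := by
    obtain ⟨t, ht⟩ : ∃ t : ↥(P : Subgroup G), t ≠ 1 :=
      haveI : Nontrivial ↥(P : Subgroup G) := Finite.one_lt_card_iff_nontrivial.1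
        (show 1 < Nat.card P by have := H.eight; omega)
      exists_ne 1
    have ht' : (t : G) ≠ 1 := fun e1 => ht (Subtype.ext e1)
    rw [Subgroup.relIndex, Subgroup.index_eq_card]
    refine (Nat.card_eq_of_bijective (fun a : ↥(P : Subgroup G) =>
      (QuotientGroup.mk ⟨(a : G), le_centralizer_self H.ctx.comm a.2⟩ :
        C ⧸ (W ⊓ N).subgroupOf C)) ⟨fun a b hab => ?_, fun q => ?_⟩).symm
    · have := QuotientGroup.eq.1 hab
      rw [Subgroup.mem_subgroupOf] at this
      refine inv_mul_eq_one.1 (Subtype.ext ?_)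
      exact H.closure_inf_sylow this.1 ((P : Subgroup G).mul_mem (inv_mem a.2) b.2)
    · induction q using QuotientGroup.induction_on with
      | H c =>
        obtain ⟨x, hx, b, hb, hxb⟩ := H.exists_decomp t.2 ht'
          (Subgroup.centralizer_le (Set.singleton_subset_iff.2 t.2) c.2)
        refine ⟨⟨b, hb⟩, QuotientGroup.eq.2 ?_⟩
        rw [Subgroup.mem_subgroupOf]
        have hbc : b * (c : G) = (c : G) * b :=
          Subgroup.mem_centralizer_iff.1 c.2 b hb
        have e1 : b⁻¹ * (c : G) = x := by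
          rw [inv_mul_eq_iff_eq_mul]
          calc (c : G) = x * b := hxb.symm
            _ = b * x := by
              have : x ∈ C := by
                have := mul_mem c.2 (inv_mem (le_centralizer_self H.ctx.comm hb))
                rwa [← hxb, mul_inv_cancel_right] at this
              exact (Subgroup.mem_centralizer_iff.1 this b hb).symm
        show b⁻¹ * (c : G) ∈ W ⊓ N
        refine Subgroup.mem_inf.2 ⟨?_, ?_⟩
        · rw [e1]
          exact le_iSup (fun a : {a : G // a ∈ (P : Subgroup G) ∧ a ≠ 1} => theta (a : G))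
            ⟨(t : G), t.2, ht'⟩ hx
        · exact mul_mem (inv_mem (Subgroup.le_normalizer hb)) (hCN c.2)
  rw [h1, h2, h3]

/-- The order of the group in terms of the index of `bigSub P`. -/
theorem Hyp.card_group (H : Hyp P e) :
    Nat.card G = (bigSub P).index * (Nat.card (coreClosure P) * (Nat.card P * e)) := by
  have h1 := (coreClosure P).card_mul_index
  rw [← Subgroup.relIndex_mul_index (le_sup_left : coreClosure P ≤ bigSub P), H.relIndex_closure]
    at h1
  rw [← h1]; ring

end Cfsg.Agent.H40.AbelTwo
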