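import Cfsg.Agent.H40.AbelTwo.NoClosure
import Cfsg.Agent.H40.AbelTwo.Exponent
import Cfsg.Agent.H47.Ree.SLTwoCard
import Cfsg.Agent.S1230

/-!
# Simple groups with abelian Sylow 2-subgroup and automiser of prime order
-/

set_option autoImplicit false
set_option linter.unusedSectionVars false

namespace Cfsg.Agent.H40.AbelTwo

open Cfsg Cfsg.Agent.H28.Ab

/-- In characteristic two the group `PSL₂` is `SL₂`. -/
theorem psl_two_equiv_sl {F : Type*} [Field F] [CharP F 2] :
    Nonempty (Matrix.ProjectiveSpecialLinearGroup (Fin 2) F ≃*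
      Matrix.SpecialLinearGroup (Fin 2) F) := by
  have hc : Subgroup.center (Matrix.SpecialLinearGroup (Fin 2) F) = ⊥ := by
    rw [Subgroup.eq_bot_iff_forall]
    intro A hA
    obtain ⟨r, hr, hA⟩ := Matrix.SpecialLinearGroup.mem_center_iff.1 hA
    rw [Fintype.card_fin] at hr
    have h0 : (r - 1) ^ 2 = 0 := by rw [sub_pow_char, hr, one_pow, sub_self]
    have hr1 : r = 1 := sub_eq_zero.1 (pow_eq_zero_iff two_ne_zero |>.1 h0)
    apply Subtype.ext
    rw [← hA, hr1, map_one]
    rfl
  exact ⟨(QuotientGroup.quotientMulEquivOfEq hc).trans QuotientGroup.quotientBot⟩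

variable {G : Type*} [Group G] [Finite G]

/-- The structure of a simple group with abelian Sylow 2-subgroup and automiser of prime order. -/
structure SimpleData (P : Sylow 2 G) (e : ℕ) : Prop where
  ctx : Ctx P e
  exp2 : ∀ y : ↥(P : Subgroup G), y * y = 1
  card : e + 1 = Nat.card P
  large : 8 ≤ Nat.card P →
    (∀ a ∈ (P : Subgroup G), a ≠ 1 → Subgroup.centralizer ({a} : Set G) ≤ (P : Subgroup G)) ∧
    Cfsg.IsStronglyEmbedded (Subgroup.normalizer ((P : Subgroup G) : Set G)) ∧
    (Subgroup.normalizer ((P : Subgroup G) : Set G)).index = Nat.card P + 1 ∧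
    ∃ (F : Type) (_ : Field F) (_ : Fintype F), CharP F 2 ∧ Fintype.card F = Nat.card P ∧
      Nonempty (G ≃* Matrix.SpecialLinearGroup (Fin 2) F)

/-- The structure theorem. -/
theorem simple_structure [Fact (Nat.Prime 2)] [IsSimpleGroup G] {M : Ideal Cfsg.AlgInt}
    (hM : Cfsg.IsPModular 2 M) {P : Sylow 2 G} (hP : IsMulCommutative P) {e : ℕ} (he : e.Prime)
    (hidx : (Subgroup.centralizer ((P : Subgroup G) : Set G)).relIndex
      (Subgroup.normalizer ((P : Subgroup G) : Set G)) = e) : SimpleData P e := by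
  have hna : ¬ ∀ a b : G, a * b = b * a := by
    intro hab
    have htop : Subgroup.centralizer ((P : Subgroup G) : Set G) = ⊤ :=
      top_le_iff.1 fun x _ => Subgroup.mem_centralizer_iff.2 fun y _ => hab y x
    rw [htop, Subgroup.relIndex_top_left] at hidx
    exact he.one_lt.ne hidx
  have hno : ∀ H : Subgroup G, H.index ≠ 2 := by
    intro H hH
    haveI := Subgroup.normal_of_index_eq_two hH
    rcases (‹H.Normal›).eq_bot_or_eq_top with h | h
    · rw [h, Subgroup.index_bot] at hH
      exact hna fun a b => by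
        haveI := isCyclic_of_prime_card (p := 2) hH
        exact IsCyclic.commGroup.mul_comm a b
    · rw [h, Subgroup.index_top] at hH
      omega
  have h := ctx_of_no_index_two hno hP he hidx
  have hodd : Odd e := hidx ▸ odd_automiser hP
  have hexp := mul_self_eq_one h hM hodd he.one_lt
  have hdvd := exists_index_centralizer h
  have hpow : ∃ k, Nat.card P = 2 ^ k := IsPGroup.iff_card.1 P.2
  obtain ⟨k, hk⟩ := hpow
  have hlt : e < Nat.card P := by
    obtain ⟨t, ht⟩ : ∃ t : ↥(P : Subgroup G), t ≠ 1 := by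
      by_contra! hall
      have htop : Subgroup.centralizer ((P : Subgroup G) : Set G) = ⊤ :=
        top_le_iff.1 fun x _ => Subgroup.mem_centralizer_iff.2 fun y hy => by
          rw [show y = 1 from congrArg Subtype.val (hall ⟨y, hy⟩), one_mul, mul_one]
      rw [htop, Subgroup.relIndex_top_left] at hidx
      exact he.one_lt.ne hidx
    classical
    haveI := Fintype.ofFinite ↥(P : Subgroup G)
    have hc := h.card_conj ht
    rw [Nat.card_eq_fintype_card, Fintype.card_subtype] at hc
    have h2 : (Finset.univ.filter fun z : ↥(P : Subgroup G) => IsConj (t : G) (z : G)).card <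
        (Finset.univ : Finset ↥(P : Subgroup G)).card := by
      refine Finset.card_lt_card ((Finset.filter_ssubset).2 ⟨1, Finset.mem_univ _, fun hc1 => ?_⟩)
      exact ht (Subtype.ext (by simpa using hc1))
    rw [hc, Finset.card_univ, ← Nat.card_eq_fintype_card] at h2
    exact h2
  by_cases h8 : 8 ≤ Nat.card P
  · have H : Hyp P e := ⟨h, hexp, h8, inferInstance, he.one_lt⟩
    refine ⟨h, hexp, H.e_eq, fun _ => ?_⟩
    have hW := H.closure_eq_bot he hM
    have hbig : bigSub P = Subgroup.normalizer ((P : Subgroup G) : Set G) := by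
      show coreClosure P ⊔ _ = _
      rw [hW, bot_sup_eq]
    have hC : ∀ a ∈ (P : Subgroup G), a ≠ 1 →
        Subgroup.centralizer ({a} : Set G) ≤ (P : Subgroup G) := by
      intro a ha ha1 g hg
      obtain ⟨x, hx, b, hb, rfl⟩ := H.exists_decomp ha ha1 hg
      have hx1 : x ∈ coreClosure P := theta_le_closure ha ha1 hx
      rw [hW, Subgroup.mem_bot] at hx1
      rw [hx1, one_mul]
      exact hb
    have hCeq : ∀ t : G, orderOf t = 2 → IsMulCommutative (Subgroup.centralizer ({t} : Set G)) ∧
        ∀ c ∈ Subgroup.centralizer ({t} : Set G), c ^ 2 = 1 := by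
      intro t ht
      obtain ⟨k, -, hkP⟩ := exists_conj_mem_sylow (K := ⊤) le_top (Subgroup.mem_top t) ht
      have hk1 : k * t * k⁻¹ ≠ 1 := fun e1 => by
        rw [conj_eq_one_iff.1 e1, orderOf_one] at ht; omega
      have hmem : ∀ c ∈ Subgroup.centralizer ({t} : Set G), k * c * k⁻¹ ∈ (P : Subgroup G) := by
        intro c hc
        refine hC _ hkP hk1 (Subgroup.mem_centralizer_singleton_iff.2 ?_)
        exact ((Commute.conj_iff k).2 (Subgroup.mem_centralizer_singleton_iff.1 hc)).eq
      refine ⟨⟨⟨fun a b => Subtype.ext ?_⟩⟩, fun c hc => ?_⟩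
      · have h1 := congrArg Subtype.val (hP.is_comm.comm (⟨_, hmem a a.2⟩ : ↥(P : Subgroup G))
          ⟨_, hmem b b.2⟩)
        change k * (a : G) * k⁻¹ * (k * b * k⁻¹) = k * (b : G) * k⁻¹ * (k * a * k⁻¹) at h1
        rw [conj_mul, conj_mul] at h1
        exact mul_left_cancel (mul_right_cancel h1)
      · have h1 := H.sq_eq_one (hmem c hc)
        rw [conj_mul] at h1
        rw [sq]
        exact conj_eq_one_iff.1 h1
    have hnc : ¬ IsCyclic (P : Subgroup G) := fun hc => by
      obtain ⟨g, hg⟩ := hc.exists_zpow_surjective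
      have h1 : orderOf g = Nat.card P := orderOf_eq_card_of_forall_mem_zpowers fun x => hg x
      have h2 : orderOf g ∣ 2 := orderOf_dvd_of_pow_eq_one (by rw [sq]; exact hexp g)
      have := Nat.le_of_dvd (by norm_num) h2
      omega
    have hnn : ¬ (P : Subgroup G).Normal := fun hn =>
      H.not_normal_sylow (Subgroup.normalizer_eq_top_iff.2 hn)
    obtain ⟨F, _, _, hF, ⟨φ⟩⟩ := S1230.result P hnc hnn hCeq
    haveI hchar : CharP F 2 := by
      obtain ⟨p, hp⟩ := CharP.exists F
      haveI := hp
      obtain ⟨n, hpp, hpn⟩ := FiniteField.card F p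
      rw [hF, hk] at hpn
      have h2 : p ∣ 2 ^ k := hpn.symm ▸ dvd_pow_self p n.pos.ne'
      rw [← (Nat.prime_dvd_prime_iff_eq hpp Nat.prime_two).1 (hpp.dvd_of_dvd_pow h2)]
      exact hp
    obtain ⟨ψ⟩ := psl_two_equiv_sl (F := F)
    refine ⟨hC, hbig ▸ H.bigSub_stronglyEmbedded, ?_, F, inferInstance, inferInstance, hchar, hF,
      ⟨φ.trans ψ⟩⟩
    have hG := H.card_group
    rw [hW, Subgroup.card_bot, one_mul, hbig, Nat.card_congr (φ.trans ψ).toEquiv,
      H47.Ree.card_sl_two, hF] at hG
    have he' : e = Nat.card P - 1 := by have := H.e_eq; omega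
    set q := Nat.card P
    have h2 : q ^ 2 - 1 = (q + 1) * (q - 1) := by
      have := Nat.sq_sub_sq q 1
      simpa using this
    rw [h2, he'] at hG
    have hq : 0 < q * (q - 1) := Nat.mul_pos (by omega) (by omega)
    refine Nat.eq_of_mul_eq_mul_right hq (hG.symm.trans ?_)
    ring
  · refine ⟨h, hexp, ?_, fun h' => absurd h' h8⟩
    rw [hk] at h8 hdvd hlt ⊢
    have he2 : e ≠ 2 := fun e1 => by rw [e1] at hodd; exact absurd hodd (by decide)
    have := he.two_le
    rcases k with _ | _ | _ | k
    · simp at hlt; omega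
    · simp at hlt; omega
    · have := Nat.le_of_dvd (by norm_num) hdvd
      norm_num at this hlt ⊢
      omega
    · exfalso
      apply h8
      calc (8 : ℕ) = 2 ^ 3 := by norm_num
        _ ≤ 2 ^ (k + 1 + 1 + 1) := Nat.pow_le_pow_right (by norm_num) (by omega)

end Cfsg.Agent.H40.AbelTwo
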