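import Cfsg.Agent.H40.AbelTwo.Identity
import Cfsg.Agent.S1225
import Cfsg.Agent.H22.AbelianSylow
import Mathlib.GroupTheory.IndexNormal

/-!
# A strongly embedded subgroup of small index
-/

set_option autoImplicit false
set_option linter.unusedSectionVars false

namespace Cfsg.Agent.H40.AbelTwo

open Cfsg Cfsg.Agent.H28.Ab

variable {G : Type*} [Group G] [Finite G] {P : Sylow 2 G} {e : ℕ} [Fact (Nat.Prime 2)]

/-- The base point of the coset space. -/
abbrev base (H : Subgroup G) : G ⧸ H := ((1 : G) : G ⧸ H)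

/-- A strongly embedded subgroup has index more than `|P|` in every larger subgroup. -/
theorem Hyp.lt_relIndex (H : Hyp P e) {A K : Subgroup G} (hA : Cfsg.IsStronglyEmbedded A)
    (hPA : (P : Subgroup G) ≤ A) (hAK : A ≤ K) (hne : ¬ K ≤ A) :
    Nat.card P < A.relIndex K := by
  classical
  obtain ⟨g, hgK, hgA⟩ := SetLike.not_le_iff_exists.1 hne
  let f : Option ↥(P : Subgroup G) → K ⧸ A.subgroupOf K := fun o =>
    o.elim (QuotientGroup.mk 1) fun b => QuotientGroup.mk ⟨b * g, mul_mem (hAK (hPA b.2)) hgK⟩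
  have hbase : ∀ b : ↥(P : Subgroup G), (b : G) • base A = base A := fun b =>
    H50.smul_one_coset_eq_iff.2 (hPA b.2)
  have hg : g • base A ≠ base A := fun h => hgA (H50.smul_one_coset_eq_iff.1 h)
  have hinj : Function.Injective f := by
    rintro (_ | b) (_ | b') h
    · rfl
    · exfalso
      have h1 := QuotientGroup.eq.1 h
      rw [Subgroup.mem_subgroupOf] at h1
      simp only [inv_one, one_mul] at h1
      exact hgA (by simpa using mul_mem (inv_mem (hPA b'.2)) h1)
    · exfalso
      have h1 := QuotientGroup.eq.1 h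
      rw [Subgroup.mem_subgroupOf] at h1
      simp only [mul_one, Subgroup.coe_inv] at h1
      exact hgA (by simpa using mul_mem (inv_mem (hPA b.2)) (inv_mem h1))
    · congr 1
      by_contra hne'
      have h1 := QuotientGroup.eq.1 h
      rw [Subgroup.mem_subgroupOf, Subgroup.coe_mul, Subgroup.coe_inv] at h1
      have h2 : (((b : G)⁻¹ * b') * g) • base A = g • base A := by
        rw [MulAction.Quotient.smul_coe, MulAction.Quotient.smul_coe, smul_eq_mul, smul_eq_mul,
          mul_one, mul_one, eq_comm, QuotientGroup.eq]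
        simpa [mul_assoc] using h1
      rw [mul_smul] at h2
      have hc1 : ((b : G)⁻¹ * b') ≠ 1 := fun e1 => hne' (Subtype.ext (inv_mul_eq_one.1 e1))
      have hcP : (b : G)⁻¹ * b' ∈ (P : Subgroup G) := mul_mem (inv_mem b.2) b'.2
      have hodd := H50.se_odd_of_two_fixed hA (Ne.symm hg) (hbase ⟨_, hcP⟩) h2
      rw [H.orderOf_two hcP hc1] at hodd
      exact absurd hodd (by decide)
  have hle := Nat.card_le_card_of_injective f hinj
  rw [Finite.card_option] at hle
  rw [Subgroup.relIndex, Subgroup.index_eq_card]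
  exact hle

/-- The orbit of a point other than the base. -/
theorem Hyp.orbit_card (H : Hyp P e) {x : G ⧸ bigSub P} (hx : x ≠ base (bigSub P)) :
    (MulAction.orbit ↥(coreClosure P ⊔ (P : Subgroup G)) x).ncard =
      Nat.card P * (coreClosure P ⊓ MulAction.stabilizer G x).relIndex (coreClosure P) := by
  classical
  set W := coreClosure P
  set R := W ⊔ (P : Subgroup G)
  set Wx := W ⊓ MulAction.stabilizer G x
  have hWxR : Wx ≤ R := inf_le_left.trans le_sup_left
  have hstab : MulAction.stabilizer R x = Wx.subgroupOf R := by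
    ext r
    rw [MulAction.mem_stabilizer_iff, Subgroup.mem_subgroupOf]
    refine ⟨fun hr => Subgroup.mem_inf.2 ⟨?_, hr⟩, fun hr => hr.2⟩
    have hr' : (r : G) ∈ ((W ⊔ (P : Subgroup G) : Subgroup G) : Set G) := r.2
    rw [Subgroup.coe_mul_of_right_le_normalizer_left _ _
      (Subgroup.le_normalizer.trans (normalizer_le_normalizer_closure P))] at hr'
    obtain ⟨w, hw, b, hb, hwb⟩ := Set.mem_mul.1 hr'
    by_cases hb1 : b = 1
    · rw [← hwb, hb1, mul_one]; exact hw
    · exfalso
      have hbase : (r : G) • base (bigSub P) = base (bigSub P) :=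
        H50.smul_one_coset_eq_iff.2 ((sup_le le_sup_left sylow_le_bigSub : R ≤ bigSub P) r.2)
      have hodd := H50.se_odd_of_two_fixed H.bigSub_stronglyEmbedded (Ne.symm hx) hbase hr
      rw [← hwb] at hodd
      exact Nat.not_even_iff_odd.2 hodd (even_iff_two_dvd.2 (H.two_dvd_orderOf_mul hw hb hb1))
  rw [← MulAction.index_stabilizer, hstab]
  show Wx.relIndex R = _
  have hR : W.relIndex R = Nat.card P := by
    have h0 : (W.subgroupOf R).Normal := Subgroup.normal_subgroupOf_of_le_normalizer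
      (sup_le Subgroup.le_normalizer (Subgroup.le_normalizer.trans
        (normalizer_le_normalizer_closure P)))
    rw [Subgroup.relIndex, Subgroup.index_eq_card]
    refine (Nat.card_eq_of_bijective (fun b : ↥(P : Subgroup G) =>
      (QuotientGroup.mk ⟨(b : G), (le_sup_right : (P : Subgroup G) ≤ R) b.2⟩ :
        R ⧸ W.subgroupOf R)) ⟨fun a b hab => ?_, fun v => ?_⟩).symm
    · have := QuotientGroup.eq.1 hab
      rw [Subgroup.mem_subgroupOf] at this
      exact inv_mul_eq_one.1 (Subtype.ext (H.closure_inf_sylow this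
        ((P : Subgroup G).mul_mem (inv_mem a.2) b.2)))
    · induction v using QuotientGroup.induction_on with
      | H r =>
        have hr' : (r : G) ∈ ((W ⊔ (P : Subgroup G) : Subgroup G) : Set G) := r.2
        rw [Subgroup.coe_mul_of_right_le_normalizer_left _ _
          (Subgroup.le_normalizer.trans (normalizer_le_normalizer_closure P))] at hr'
        obtain ⟨w, hw, b, hb, hwb⟩ := Set.mem_mul.1 hr'
        refine ⟨⟨b, hb⟩, QuotientGroup.eq.2 ?_⟩
        rw [Subgroup.mem_subgroupOf]
        show b⁻¹ * (r : G) ∈ W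
        rw [← hwb]
        simpa [mul_assoc] using H.closure_spec.2.2.1 _ (inv_mem hb) w hw
  rw [← Subgroup.relIndex_mul_relIndex Wx W R inf_le_left le_sup_left, hR, mul_comm]

/-- Every closure stabiliser of a point has index one or three when the index is small. -/
theorem Hyp.rel_small (H : Hyp P e) (hsmall : (bigSub P).index ≤ 5 * Nat.card P)
    {x : G ⧸ bigSub P} (hx : x ≠ base (bigSub P)) :
    (coreClosure P ⊓ MulAction.stabilizer G x).relIndex (coreClosure P) = 1 ∨
      (coreClosure P ⊓ MulAction.stabilizer G x).relIndex (coreClosure P) = 3 := by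
  classical
  set m := (coreClosure P ⊓ MulAction.stabilizer G x).relIndex (coreClosure P)
  have hcard := H.orbit_card hx
  have hsub : MulAction.orbit ↥(coreClosure P ⊔ (P : Subgroup G)) x ⊆
      {base (bigSub P)}ᶜ := by
    rintro _ ⟨r, rfl⟩ hr
    rw [Set.mem_singleton_iff] at hr
    refine hx ?_
    have hR : (coreClosure P ⊔ (P : Subgroup G)) ≤ bigSub P := sup_le le_sup_left sylow_le_bigSub
    have h1 : (r : G) • base (bigSub P) = base (bigSub P) :=
      H50.smul_one_coset_eq_iff.2 (hR r.2)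
    exact smul_left_cancel (r : G) (hr.trans h1.symm)
  have hle := Set.ncard_le_ncard hsub (Set.toFinite _)
  rw [hcard, Set.ncard_compl, Set.ncard_singleton, ← Subgroup.index_eq_card] at hle
  have hlt : m < 5 := by
    refine lt_of_mul_lt_mul_left (a := Nat.card P) ?_ (Nat.zero_le _)
    have := H.eight
    calc Nat.card P * m ≤ (bigSub P).index - 1 := hle
      _ < Nat.card P * 5 := by omega
  have hodd : ¬ 2 ∣ m := fun h => H.closure_spec.2.1
    (h.trans (Subgroup.relIndex_dvd_card _ _))
  have h0 : m ≠ 0 := fun h => hodd (h ▸ dvd_zero 2)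
  omega

theorem Hyp.exponent_three (H : Hyp P e) (hsmall : (bigSub P).index ≤ 5 * Nat.card P) :
    (∀ w ∈ coreClosure P, w ^ 3 = 1) ∧
      ∀ u ∈ coreClosure P, ∀ v ∈ coreClosure P, u * v = v * u := by
  classical
  haveI := H.simple
  set W := coreClosure P
  have hcore : ∀ g : G, (∀ x : G ⧸ bigSub P, g • x = x) → g = 1 := by
    intro g hg
    have h1 : g ∈ (bigSub P).normalCore := by
      intro b
      have h2 := hg (b⁻¹ : G)
      rw [MulAction.Quotient.smul_coe, smul_eq_mul, QuotientGroup.eq] at h2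
      have h3 := inv_mem h2
      simpa [mul_assoc] using h3
    rcases ((bigSub P).normalCore_normal).eq_bot_or_eq_top with h | h
    · rw [h, Subgroup.mem_bot] at h1; exact h1
    · exact absurd (top_le_iff.1 (h ▸ (bigSub P).normalCore_le)) H.bigSub_ne_top
  have hWH : W ≤ bigSub P := le_sup_left
  have key : ∀ x : G ⧸ bigSub P, ∀ u ∈ W, ∀ v ∈ W, u ^ 3 • x = x ∧ (u * v * (v * u)⁻¹) • x = x := by
    intro x u hu v hv
    by_cases hx : x = base (bigSub P)
    · subst hx
      exact ⟨H50.smul_one_coset_eq_iff.2 (hWH (pow_mem hu 3)), H50.smul_one_coset_eq_iff.2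
        (hWH (mul_mem (mul_mem hu hv) (inv_mem (mul_mem hv hu))))⟩
    set K := (W ⊓ MulAction.stabilizer G x).subgroupOf W
    have hmem : ∀ z : W, z ∈ K → (z : G) • x = x := fun z hz => (Subgroup.mem_subgroupOf.1 hz).2
    rcases H.rel_small hsmall hx with h | h
    · have hK : K = ⊤ := Subgroup.index_eq_one.1 h
      exact ⟨hmem ⟨_, pow_mem hu 3⟩ (hK ▸ Subgroup.mem_top _),
        hmem ⟨_, mul_mem (mul_mem hu hv) (inv_mem (mul_mem hv hu))⟩ (hK ▸ Subgroup.mem_top _)⟩
    · have hidx : K.index = 3 := h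
      have hmin : (Nat.card W).minFac = 3 := by
        have hdvd : 3 ∣ Nat.card W := hidx ▸ K.index_dvd_card
        have h1 : (Nat.card W).minFac ≤ 3 := Nat.minFac_le_of_dvd (by norm_num) hdvd
        have h2 : (Nat.card W).minFac.Prime := Nat.minFac_prime (by
          intro e1; rw [e1] at hdvd; omega)
        have h3 : (Nat.card W).minFac ≠ 2 := fun e1 =>
          H.closure_spec.2.1 (e1 ▸ Nat.minFac_dvd _)
        have := h2.two_le
        omega
      haveI hKn : K.Normal := Subgroup.normal_of_index_eq_minFac_card (hidx.trans hmin.symm)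
      have h3 : (⟨u, hu⟩ : W) ^ 3 ∈ K := by
        have := Subgroup.pow_index_mem K (⟨u, hu⟩ : W)
        rwa [hidx] at this
      refine ⟨hmem _ h3, hmem (⟨u, hu⟩ * ⟨v, hv⟩ * (⟨v, hv⟩ * ⟨u, hu⟩)⁻¹) ?_⟩
      haveI : Fact (Nat.Prime 3) := ⟨Nat.prime_three⟩
      haveI : IsCyclic (W ⧸ K) := isCyclic_of_prime_card (p := 3) (by rw [← hidx]; rfl)
      rw [← QuotientGroup.eq_one_iff, QuotientGroup.mk_mul, QuotientGroup.mk_inv,
        QuotientGroup.mk_mul, QuotientGroup.mk_mul]
      rw [show ((⟨u, hu⟩ : W) : W ⧸ K) * ((⟨v, hv⟩ : W) : W ⧸ K) =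
        ((⟨v, hv⟩ : W) : W ⧸ K) * ((⟨u, hu⟩ : W) : W ⧸ K) from
          IsCyclic.commGroup.mul_comm _ _, mul_inv_cancel]
  exact ⟨fun w hw => hcore _ fun x => (key x w hw w hw).1,
    fun u hu v hv => mul_inv_eq_one.1 (hcore _ fun x => (key x u hu v hv).2)⟩

theorem Hyp.e_ne_three (H : Hyp P e) : e ≠ 3 := by
  have h1 := H.e_eq
  have h2 := H.eight
  omega

/-- Cube roots of unity in `bigSub P` lie in the closure. -/
theorem Hyp.mem_closure_of_cube (H : Hyp P e) (he : e.Prime) {h : G} (hh : h ∈ bigSub P)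
    (h3 : h ^ 3 = 1) : h ∈ coreClosure P := by
  haveI : ((coreClosure P).subgroupOf (bigSub P)).Normal :=
    Subgroup.normal_subgroupOf_of_le_normalizer bigSub_le_normalizer
  have h1 := Subgroup.pow_index_mem ((coreClosure P).subgroupOf (bigSub P)) ⟨h, hh⟩
  rw [show ((coreClosure P).subgroupOf (bigSub P)).index = Nat.card P * e from H.relIndex_closure,
    Subgroup.mem_subgroupOf, SubmonoidClass.coe_pow] at h1
  have hcop : Nat.Coprime (Nat.card P * e) 3 := by
    obtain ⟨k, hk⟩ := IsPGroup.iff_card.1 P.2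
    rw [Nat.coprime_mul_iff_left, hk]
    exact ⟨Nat.Coprime.pow_left k (by norm_num),
      (Nat.coprime_primes he Nat.prime_three).2 H.e_ne_three⟩
  obtain ⟨a, ha⟩ := Nat.exists_mul_mod_eq_one_of_coprime hcop (by norm_num)
  have h4 := pow_mem h1 a
  have ha' : Nat.card P * e * a % 3 = 1 := ha.2
  rw [← pow_mul, ← Nat.div_add_mod (Nat.card P * e * a) 3, ha', pow_succ,
    pow_mul, h3, one_pow, one_mul] at h4
  exact h4

/-- The closure fixes only the base point. -/
theorem Hyp.normalizer_closure_le (H : Hyp P e) (hW : coreClosure P ≠ ⊥)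
    (hsmall : (bigSub P).index ≤ 5 * Nat.card P) :
    Subgroup.normalizer (coreClosure P : Set G) ≤ bigSub P := by
  by_contra hne
  set K := Subgroup.normalizer (coreClosure P : Set G)
  have h1 := H.lt_relIndex H.bigSub_stronglyEmbedded sylow_le_bigSub bigSub_le_normalizer hne
  have hK := H.stronglyEmbedded_of_le bigSub_le_normalizer (H.normalizer_ne_top hW)
  have h2 : Nat.card P < K.relIndex ⊤ := H.lt_relIndex hK (sylow_le_bigSub.trans bigSub_le_normalizer)
    le_top (fun h => H.normalizer_ne_top hW (top_le_iff.1 h))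
  rw [Subgroup.relIndex_top_right] at h2
  have h3 := Subgroup.relIndex_mul_index (bigSub_le_normalizer (P := P))
  have h4 := Nat.mul_le_mul h1 h2
  have := H.eight
  rw [h3] at h4
  nlinarith

theorem Hyp.rel_ne_one (H : Hyp P e) (he : e.Prime) (hW : coreClosure P ≠ ⊥)
    (hsmall : (bigSub P).index ≤ 5 * Nat.card P) {x : G ⧸ bigSub P}
    (hx : x ≠ base (bigSub P)) :
    (coreClosure P ⊓ MulAction.stabilizer G x).relIndex (coreClosure P) ≠ 1 := by
  intro h
  obtain ⟨g, rfl⟩ := QuotientGroup.mk_surjective x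
  have hle : coreClosure P ≤ MulAction.stabilizer G ((g : G) : G ⧸ bigSub P) :=
    (Subgroup.relIndex_eq_one.1 h).trans inf_le_right
  have key : ∀ w ∈ coreClosure P, g⁻¹ * w * g ∈ coreClosure P := by
    intro w hw
    refine H.mem_closure_of_cube he ?_ ?_
    · have h1 := hle hw
      rw [MulAction.mem_stabilizer_iff, MulAction.Quotient.smul_coe, smul_eq_mul,
        QuotientGroup.eq] at h1
      have := inv_mem h1
      simpa [mul_assoc] using this
    · have h1 := conj_pow (a := g⁻¹) (b := w) (i := 3)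
      rw [inv_inv, (H.exponent_three hsmall).1 w hw, mul_one, inv_mul_cancel] at h1
      exact h1
  have hg : g⁻¹ ∈ Subgroup.normalizer (coreClosure P : Set G) := by
    have hmap : (coreClosure P).map (MulAut.conj g⁻¹).toMonoidHom = coreClosure P := by
      refine Subgroup.eq_of_le_of_card_ge ?_
        (Subgroup.card_map_of_injective (MulAut.conj g⁻¹).injective).ge
      rintro _ ⟨w, hw, rfl⟩
      simpa using key w hw
    rw [Subgroup.mem_normalizer_iff]
    intro z
    constructor
    · intro hz; simpa using key z hz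
    · intro hz
      obtain ⟨w, hw, hwz⟩ := hmap.ge hz
      have : w = z := (MulAut.conj g⁻¹).injective (by simpa using hwz)
      exact this ▸ hw
  refine hx ?_
  rw [QuotientGroup.eq, mul_one]
  exact inv_mem (inv_mem_iff.1 (H.normalizer_closure_le hW hsmall hg))

/-- With three involutions fixing subgroups of index three. -/
theorem three_involutions {W : Subgroup G} (hcomm : ∀ u ∈ W, ∀ v ∈ W, u * v = v * u)
    (hodd : ¬ 2 ∣ Nat.card W) {t s : G} (ht : t * t = 1) (hs : s * s = 1) (hst : t * s = s * t)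
    (htW : ∀ w ∈ W, t * w * t⁻¹ ∈ W) (hsW : ∀ w ∈ W, s * w * s⁻¹ ∈ W)
    (h3 : ∀ x : G, x = t ∨ x = s ∨ x = t * s →
      (W ⊓ Subgroup.centralizer ({x} : Set G)).relIndex W = 3) : False := by
  classical
  have hti : t⁻¹ = t := inv_eq_of_mul_eq_one_right ht
  have hsi : s⁻¹ = s := inv_eq_of_mul_eq_one_right hs
  simp only [hti] at htW
  simp only [hsi] at hsW
  set r := t * s
  have hC : ∀ (x : G) {w : G}, w ∈ W ⊓ Subgroup.centralizer ({x} : Set G) ↔ w ∈ W ∧ w * x = x * w :=
    fun x w => by rw [Subgroup.mem_inf, Subgroup.mem_centralizer_singleton_iff]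
  -- an inverted element fixed by the involution is trivial
  have hone : ∀ z ∈ W, z = z⁻¹ → z = 1 := by
    intro z hz e1
    by_contra hne
    refine hodd ?_
    have ho : orderOf z = 2 := by
      rw [orderOf_eq_prime_iff, sq]
      exact ⟨eq_inv_iff_mul_eq_one.1 e1, hne⟩
    rw [← ho, ← Subgroup.orderOf_mk z hz]
    exact orderOf_dvd_natCard _
  -- at most three inverted elements
  have hinv : ∀ x : G, (x = t ∨ x = s) → ∀ z ∈ W, ∀ z' ∈ W, x * z * x = z⁻¹ → x * z' * x = z'⁻¹ →
      z ≠ 1 → z' = 1 ∨ z' = z ∨ z' = z⁻¹ := by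
    intro x hx z hz z' hz' hzx hz'x hne
    set K := (W ⊓ Subgroup.centralizer ({x} : Set G)).subgroupOf W
    have hxx : x * x = 1 := by rcases hx with rfl | rfl <;> assumption
    have hidx : K.index = 3 := h3 x (by tauto)
    have hK : ∀ u : W, u ∈ K → x * (u : G) * x = (u : G)⁻¹ → u = 1 := by
      intro u hu hu'
      have h1 := ((hC x).1 (Subgroup.mem_subgroupOf.1 hu)).2
      rw [← h1, mul_assoc, hxx, mul_one] at hu'
      exact Subtype.ext (hone u u.2 hu')
    by_contra hcon
    push Not at hcon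
    let f : Fin 4 → W ⧸ K := fun i => QuotientGroup.mk
      (![1, ⟨z, hz⟩, ⟨z, hz⟩⁻¹, ⟨z', hz'⟩] i)
    haveI : Fintype (W ⧸ K) := Fintype.ofFinite _
    have hcard : Fintype.card (W ⧸ K) = 3 := by
      rw [← Nat.card_eq_fintype_card, ← hidx]; rfl
    obtain ⟨i, j, hij, hf⟩ := Fintype.exists_ne_map_eq_of_card_lt f (by simp [hcard])
    have hval : ∀ i : Fin 4, x * ((![1, ⟨z, hz⟩, ⟨z, hz⟩⁻¹, ⟨z', hz'⟩] i : W) : G) * x =
        ((![1, ⟨z, hz⟩, ⟨z, hz⟩⁻¹, ⟨z', hz'⟩] i : W) : G)⁻¹ := by
      intro i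
      fin_cases i
      · simp [hxx]
      · simpa using hzx
      · have h1 := congrArg (·⁻¹) hzx
        simp only [mul_inv_rev, inv_eq_of_mul_eq_one_right hxx, inv_inv] at h1
        simpa [mul_assoc] using h1
      · simpa using hz'x
    set a := (![1, ⟨z, hz⟩, ⟨z, hz⟩⁻¹, ⟨z', hz'⟩] i : W) with ha
    set b := (![1, ⟨z, hz⟩, ⟨z, hz⟩⁻¹, ⟨z', hz'⟩] j : W) with hb
    have hab : a⁻¹ * b = 1 := by
      refine hK _ (QuotientGroup.eq.1 hf) ?_
      rw [Subgroup.coe_mul, Subgroup.coe_inv, mul_inv_rev, inv_inv]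
      calc x * ((a : G)⁻¹ * b) * x = (x * (a : G) * x)⁻¹ * (x * b * x) := by
            rw [mul_inv_rev, mul_inv_rev, inv_eq_of_mul_eq_one_right hxx]
            simp only [mul_assoc]
            rw [← mul_assoc x x, hxx, one_mul]
        _ = (a : G) * (b : G)⁻¹ := by rw [hval i, hval j, inv_inv]
        _ = (b : G)⁻¹ * a := hcomm _ a.2 _ (inv_mem b.2)
    have heq : a = b := inv_mul_eq_one.1 hab
    have hne2 : z ≠ z⁻¹ := fun e1 => hne (hone z hz e1)
    rw [ha, hb] at heq
    fin_cases i <;> fin_cases j <;>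
      first
        | exact hij rfl
        | (simp [Subtype.ext_iff] at heq
           first
             | exact hne heq | exact hne heq.symm | exact hne2 heq | exact hne2 heq.symm
             | exact hcon.1 heq | exact hcon.1 heq.symm
             | exact hcon.2.1 heq | exact hcon.2.1 heq.symm
             | exact hcon.2.2 heq | exact hcon.2.2 heq.symm)
  -- the commutator with `t` on the fixed points of `s` and of `r`
  set Ct := W ⊓ Subgroup.centralizer ({t} : Set G)
  set Cs := W ⊓ Subgroup.centralizer ({s} : Set G)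
  set Cr := W ⊓ Subgroup.centralizer ({r} : Set G)
  have htr : t * r = r * t := by
    show t * (t * s) = t * s * t
    rw [mul_assoc t s t, ← hst]
  have hmove : ∀ x : G, t * x = x * t → ∀ w ∈ W ⊓ Subgroup.centralizer ({x} : Set G),
      t * w * t * w⁻¹ ∈ W ⊓ Subgroup.centralizer ({x} : Set G) ∧
        t * (t * w * t * w⁻¹) * t = (t * w * t * w⁻¹)⁻¹ := by
    intro x hx w hw
    obtain ⟨hwW, hwx⟩ := (hC x).1 hw
    refine ⟨(hC x).2 ⟨mul_mem (htW w hwW) (inv_mem hwW), ?_⟩, ?_⟩
    · have c1 : Commute w x := hwx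
      have c2 : Commute t x := hx
      exact ((c2.mul_left c1).mul_left c2).mul_left c1.inv_left
    · simp only [mul_inv_rev, inv_inv, hti, mul_assoc]
      rw [← mul_assoc t t, ht, one_mul]
  have hle : Cs ≤ Ct ∨ Cr ≤ Ct := by
    by_contra hcon
    push Not at hcon
    obtain ⟨w, hw, hwt⟩ := SetLike.not_le_iff_exists.1 hcon.1
    obtain ⟨w', hw', hw't⟩ := SetLike.not_le_iff_exists.1 hcon.2
    obtain ⟨hz, hzt⟩ := hmove s hst w hw
    obtain ⟨hz', hz't⟩ := hmove r htr w' hw'
    have hne : ∀ v, v ∈ W → v ∉ Ct → t * v * t * v⁻¹ ≠ 1 := fun v hv hvt e1 => hvt ((hC t).2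
      ⟨hv, by
        have h2 : t * v * t = v := mul_inv_eq_one.1 e1
        calc v * t = t * v * t * t := by rw [h2]
          _ = t * v := by rw [mul_assoc, ht, mul_one]⟩)
    set z := t * w * t * w⁻¹
    set z' := t * w' * t * w'⁻¹
    have hz1 : z ≠ 1 := hne w ((hC s).1 hw).1 hwt
    rcases hinv t (Or.inl rfl) z ((hC s).1 hz).1 z' ((hC r).1 hz').1 hzt hz't hz1 with e1 | e1 | e1
    · exact hne w' ((hC r).1 hw').1 hw't e1
    all_goals
      have hzr : z * r = r * z := by
        have := ((hC r).1 hz').2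
        first
          | (rw [e1] at this; exact this)
          | (rw [e1] at this
             exact (Commute.inv_left_iff.1 (show Commute z⁻¹ r from this)).eq)
      have hzs := ((hC s).1 hz).2
      have hztc : z * t = t * z := by
        have c : Commute z (r * s) := (show Commute z r from hzr).mul_right hzs
        rwa [show r * s = t by simp only [r, mul_assoc, hs, mul_one]] at c
      apply hz1
      refine hone z ((hC s).1 hz).1 ?_
      rw [← hztc, mul_assoc, ht, mul_one] at hzt
      exact hzt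
  have hsub : ∀ C : Subgroup G, C ≤ W → C.relIndex W = 3 → C ≤ Ct → C = Ct := by
    intro C _ hC3 hCt
    have h1 := Subgroup.relIndex_mul_relIndex C Ct W hCt inf_le_left
    rw [hC3, h3 t (Or.inl rfl)] at h1
    exact le_antisymm hCt (Subgroup.relIndex_eq_one.1 (by omega))
  have hCeq : Cs = Ct := by
    rcases hle with h | h
    · exact hsub Cs inf_le_left (h3 s (by tauto)) h
    · have hr' := hsub Cr inf_le_left (h3 r (by tauto)) h
      have hCtle : Ct ≤ Cs := fun v hv => by
        obtain ⟨hvW, hvt⟩ := (hC t).1 hv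
        have hvr := ((hC r).1 (hr' ▸ hv : v ∈ Cr)).2
        have c : Commute v (t * r) := (show Commute v t from hvt).mul_right hvr
        rw [show t * r = s by simp only [r, ← mul_assoc, ht, one_mul]] at c
        exact (hC s).2 ⟨hvW, c⟩
      have h1 := Subgroup.relIndex_mul_relIndex Ct Cs W hCtle inf_le_left
      rw [h3 t (Or.inl rfl), h3 s (by tauto)] at h1
      exact le_antisymm (Subgroup.relIndex_eq_one.1 (by omega)) hCtle
  have hCrle : Ct ≤ Cr := fun v hv => by
    obtain ⟨hvW, hvt⟩ := (hC t).1 hv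
    exact (hC r).2 ⟨hvW, (show Commute v t from hvt).mul_right ((hC s).1 (hCeq ▸ hv : v ∈ Cs)).2⟩
  have hCr : Cr = Ct := by
    have h1 := Subgroup.relIndex_mul_relIndex Ct Cr W hCrle inf_le_left
    rw [h3 t (Or.inl rfl), h3 r (by tauto)] at h1
    exact le_antisymm (Subgroup.relIndex_eq_one.1 (by omega)) hCrle
  obtain ⟨w, hw, hwt⟩ : ∃ w ∈ W, w ∉ Ct := by
    by_contra! hall
    have := h3 t (Or.inl rfl)
    rw [Subgroup.relIndex_eq_one.2 (fun v hv => hall v hv)] at this
    omega
  set z := t * w * t * w⁻¹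
  have hzW : z ∈ W := mul_mem (htW w hw) (inv_mem hw)
  have hzt : t * z * t = z⁻¹ := by
    simp only [z, mul_inv_rev, inv_inv, hti, mul_assoc]
    rw [← mul_assoc t t, ht, one_mul]
  have hz1 : z ≠ 1 := fun e1 => hwt ((hC t).2 ⟨hw, by
    have h2 : t * w * t = w := mul_inv_eq_one.1 e1
    calc w * t = t * w * t * t := by rw [h2]
      _ = t * w := by rw [mul_assoc, ht, mul_one]⟩)
  have hzs : t * (s * z * s) * t = (s * z * s)⁻¹ := by
    have e1 : t * (s * z * s) * t = s * (t * z * t) * s := by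
      rw [show t * (s * z * s) * t = (t * s) * z * (s * t) by group,
        show (t * s) * z * (s * t) = (s * t) * z * (t * s) by rw [← hst]]
      group
    rw [e1, hzt]
    simp only [mul_inv_rev, hsi, mul_assoc]
  rcases hinv t (Or.inl rfl) z hzW (s * z * s) (hsW z hzW) hzt hzs hz1 with e1 | e1 | e1
  · refine hz1 ?_
    calc z = s * (s * z * s) * s := by simp [mul_assoc, hs, ← mul_assoc s s]
      _ = 1 := by rw [e1, mul_one, hs]
  · have hzCs : z ∈ Cs := (hC s).2 ⟨hzW, by
      conv_rhs => rw [← e1]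
      simp [mul_assoc, hs, ← mul_assoc s s]⟩
    rw [hCeq] at hzCs
    rw [← ((hC t).1 hzCs).2, mul_assoc, ht, mul_one] at hzt
    exact hz1 (hone z hzW hzt)
  · have hzCr : z ∈ Cr := (hC r).2 ⟨hzW, by
      have h2 : r * z * r⁻¹ = z := by
        simp only [r, mul_inv_rev, hti, hsi]
        calc t * s * z * (s * t) = t * (s * z * s) * t := by group
          _ = z := by rw [hzs, e1, inv_inv]
      exact (mul_inv_eq_iff_eq_mul.1 h2).symm⟩
    rw [hCr] at hzCr
    rw [← ((hC t).1 hzCr).2, mul_assoc, ht, mul_one] at hzt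
    exact hz1 (hone z hzW hzt)

end Cfsg.Agent.H40.AbelTwo
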